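import Cfsg.Agent.Lib.SLComm.Decomp

/-!
# Assembly: common facts and the case of at least four field elements
-/

set_option autoImplicit false

namespace Cfsg.Agent.Lib.SLComm

open Module Polynomial

universe u

variable {F : Type u} [Field F]

/-- A block: a non zero invertible cyclic object. -/
structure Bk (X : Ob F) : Prop where
  cyc : IsCyc X.T
  pos : 0 < finrank F X.V
  det : X.T.det ≠ 0

/-- The product of the determinants. -/
noncomputable abbrev dp (L : List (Ob F)) : F := (L.map fun X => X.T.det).prod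

theorem Good0.of_sim {X Y : Ob F} (h : Sim X Y) (hY : Good0 Y) : Good0 X := by
  rcases hY with hY | hY
  · exact Or.inl (hY.of_sim h)
  · obtain ⟨φ, -⟩ := h
    exact Or.inr φ.injective.subsingleton

theorem dp_eq (L : List (Ob F)) : (prodL L).T.det = dp L := prodL_det L

theorem dp_perm {L L' : List (Ob F)} (h : L.Perm L') : dp L = dp L' := (h.map _).prod_eq

theorem dp_cons (X : Ob F) (L : List (Ob F)) : dp (X :: L) = X.T.det * dp L := by
  simp [dp]

open Classical in
theorem perm_erase {X : Ob F} {L : List (Ob F)} (h : X ∈ L) : L.Perm (X :: L.erase X) :=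
  List.perm_cons_erase h

/-- Choose a block of a list. -/
theorem exists_rest {X : Ob F} {L : List (Ob F)} (h : X ∈ L) :
    ∃ L', L.Perm (X :: L') ∧ L'.length < L.length := by
  classical
  refine ⟨L.erase X, perm_erase h, ?_⟩
  rw [List.length_erase_of_mem h]
  have := List.length_pos_of_mem h
  omega

theorem mem_of_perm_cons {X Y : Ob F} {L L' : List (Ob F)} (h : L.Perm (X :: L')) (hY : Y ∈ L') :
    Y ∈ L := h.mem_iff.mpr (List.mem_cons_of_mem _ hY)

theorem sim_cons {X : Ob F} {L L' : List (Ob F)} (h : L.Perm (X :: L')) :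
    Sim (prodL L) (X.prod (prodL L')) := prodL_perm h

/-- Two blocks out of a list. -/
theorem sim_two {X Y : Ob F} {L L' L'' : List (Ob F)} (h : L.Perm (X :: L')) (h' : L'.Perm (Y :: L'')) :
    Sim (prodL L) ((Y.prod X).prod (prodL L'')) := by
  refine (sim_cons h).trans ((Sim.prod (Sim.refl X) (sim_cons h')).trans ?_)
  refine (Sim.prod_assoc X Y (prodL L'')).symm.trans ?_
  exact Sim.prod (Sim.prod_comm X Y) (Sim.refl _)

theorem close {Z A : Ob F} {L : List (Ob F)} (hs : Sim Z (A.prod (prodL L))) (hA : Free A)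
    (hL : Good0 (prodL L)) (hdet : Z.T.det = 1) : CommP Z :=
  CommP.of_sim hs ((hA.prod_good0 hL).commP (by rw [← hs.det_eq]; exact hdet))

theorem aeval_sim {X Y : Ob F} (φ : X.V ≃ₗ[F] Y.V) (hφ : ∀ v, φ (X.T v) = Y.T (φ v)) (g : F[X])
    (v : X.V) : φ (aeval X.T g v) = aeval Y.T g (φ v) := by
  induction g using Polynomial.induction_on generalizing v with
  | C a => simp
  | add p q hp hq =>
    simp only [map_add, LinearMap.add_apply, hp, hq]
  | monomial n a h =>
    have e : (C a * Polynomial.X ^ (n + 1) : F[X]) = (C a * Polynomial.X ^ n) * Polynomial.X := by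
      ring
    have h1 : ∀ (Z : Ob F) (u : Z.V), aeval Z.T (C a * Polynomial.X ^ n * Polynomial.X) u =
        aeval Z.T (C a * Polynomial.X ^ n) (Z.T u) := fun Z u => by
      rw [map_mul (aeval Z.T) (C a * Polynomial.X ^ n) Polynomial.X, Module.End.mul_apply, aeval_X]
    rw [e, h1 X, h1 Y, h, hφ]

theorem IsCyc.of_sim {X Y : Ob F} (h : Sim X Y) (hY : IsCyc Y.T) : IsCyc X.T := by
  obtain ⟨φ, hφ⟩ := h
  obtain ⟨w, hw⟩ := hY
  refine ⟨φ.symm w, eq_top_iff.mpr fun u _ => ?_⟩
  have hu : φ u ∈ gen Y.T w := by rw [hw]; trivial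
  obtain ⟨g, hg⟩ := mem_gen.mp hu
  refine mem_gen.mpr ⟨g, φ.injective ?_⟩
  rw [aeval_sim φ hφ, LinearEquiv.apply_symm_apply, hg]

theorem Bk.of_sim {X Y : Ob F} (h : Sim X Y) (hY : Bk Y) : Bk X :=
  ⟨IsCyc.of_sim h hY.cyc, by rw [h.finrank_eq]; exact hY.pos, by rw [h.det_eq]; exact hY.det⟩

theorem prodL_congr {L : List (Ob F)} {Z : Ob F} (h : ∀ Y ∈ L, Sim Y Z) :
    Sim (prodL L) (prodL (List.replicate L.length Z)) := by
  induction L with
  | nil => exact Sim.refl _
  | cons X L ih =>
    exact Sim.prod (h X (by simp)) (ih fun Y hY => h Y (by simp [hY]))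

theorem dp_replicate (l : F) (n : ℕ) : dp (List.replicate n (sc l)) = l ^ n := by
  simp [dp, List.map_replicate, List.prod_replicate]

/-- Two different eigenvalues give a cyclic plane. -/
theorem bk_merge {X Y : Ob F} (hX : Bk X) (hY : Bk Y) (h1 : finrank F X.V = 1)
    (h2 : finrank F Y.V = 1) (hne : X.T.det ≠ Y.T.det) : Bk (X.prod Y) := by
  have s1 := sim_sc_of_dim_one hX.cyc hX.det h1
  have s2 := sim_sc_of_dim_one hY.cyc hY.det h2
  have hc : IsCyc ((sc X.T.det).prod (sc Y.T.det)).T := by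
    refine cyc_sc_prod _ (sc Y.T.det) ?_ (Polynomial.X - C Y.T.det) ?_ ?_
    · refine ⟨(1 : F), eq_top_iff.mpr fun w _ => ?_⟩
      refine mem_gen.mpr ⟨C w, ?_⟩
      simp
    · ext
      show aeval (Y.T.det • (LinearMap.id : F →ₗ[F] F)) _ _ = _
      rw [aeval_smul_id]
      simp
    · simp [sub_ne_zero, hne]
  refine ⟨IsCyc.of_sim (Sim.prod s1 s2) hc, ?_, ?_⟩
  · show 0 < finrank F (X.V × Y.V)
    rw [Module.finrank_prod, h1, h2]
    omega
  · rw [Ob.prod_det]
    exact mul_ne_zero hX.det hY.det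

theorem finrank_merge {X Y : Ob F} (h1 : finrank F X.V = 1) (h2 : finrank F Y.V = 1) :
    finrank F (X.prod Y).V = 2 := by
  show finrank F (X.V × Y.V) = 2
  rw [Module.finrank_prod, h1, h2]

/-! ### At least four elements -/

section Q4

variable [Fintype F]

theorem exists_ne3 (h4 : 4 ≤ Fintype.card F) (a b c : F) : ∃ x, x ≠ a ∧ x ≠ b ∧ x ≠ c := by
  classical
  by_contra hne
  push Not at hne
  have h1 : (Finset.univ : Finset F) ⊆ {a, b, c} := by
    intro x _
    by_cases h1 : x = a
    · simp [h1]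
    by_cases h2 : x = b
    · simp [h2]
    · simp [hne x h1 h2]
  have h5 := Finset.card_le_card h1
  have h6 : ({a, b, c} : Finset F).card ≤ 3 := Finset.card_le_three
  rw [Finset.card_univ] at h5
  omega

theorem good_q4 (h4 : 4 ≤ Fintype.card F) {X : Ob F} (hX : Bk X) : Good X := by
  have hfr := hX.pos
  rcases (by omega : finrank F X.V = 1 ∨ finrank F X.V = 2 ∨ 3 ≤ finrank F X.V) with h | h | h
  · exact good_one hX.cyc hX.det h
  · exact good_two hX.cyc hX.det h fun α _ => exists_ne3 h4 0 α (α * X.T.det)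
  · exact (free_single hX.cyc hX.det (finrank F X.V - 3) (by omega)
      fun _ α _ => exists_ne3 h4 0 α (α * X.T.det)).good

/-- A two dimensional block with a rest. -/
theorem commP_two_case (h4 : 4 ≤ Fintype.card F) {h : Ob F} {L : List (Ob F)} (hh : Bk h)
    (hd : finrank F h.V = 2) (hL : ∀ Y ∈ L, Bk Y) (hdet : h.T.det * dp L = 1) :
    CommP (h.prod (prodL L)) := by
  cases L with
  | nil =>
    have hd1 : h.T.det = 1 := by simpa [dp] using hdet
    have hs : Sim (h.prod (prodL [])) h := Sim.prod_triv h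
    refine CommP.of_sim hs ?_
    -- an element with `α ^ 2 ≠ 1`
    obtain ⟨α, h0, h1, h2⟩ := exists_ne3 h4 0 1 (-1)
    have hα2 : α⁻¹ ≠ α := by
      intro he
      have h3 : (α - 1) * (α + 1) = 0 := by
        have : α * α = 1 := by
          calc α * α = α⁻¹ * α := by rw [he]
            _ = 1 := inv_mul_cancel₀ h0
        linear_combination this
      rcases mul_eq_zero.mp h3 with h4 | h4
      · exact h1 (sub_eq_zero.mp h4)
      · exact h2 (eq_neg_of_add_eq_zero_left h4)
    have hst := step_two_cyc hh.cyc hh.det hd (inv_ne_zero h0) hα2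
      (by rw [hd1, mul_one]; exact hα2)
    rw [hd1, mul_one, inv_mul_cancel₀ h0] at hst
    exact hst.commP (Sim.refl _) (centSurj_sc α)
  | cons g L =>
    have hg := hL g (by simp)
    have hL' : ∀ Y ∈ L, Bk Y := fun Y hY => hL Y (by simp [hY])
    have hs : Sim (h.prod (prodL (g :: L))) ((g.prod h).prod (prodL L)) := by
      have : (g :: L).Perm (g :: L) := List.Perm.refl _
      exact sim_two (List.Perm.refl (h :: g :: L)) (List.Perm.refl (g :: L))
    have hfree : Free (g.prod h) := by
      have hgp := hg.pos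
      refine free_pair hg.cyc hh.cyc hg.det hh.det (finrank F g.V - 1) 0 (by omega) hd ?_
      intro _ α _
      exact exists_ne3 h4 0 α _
    refine close hs hfree (good0_prodL fun Y hY => good_q4 h4 (hL' Y hY)) ?_
    show (h.prod (prodL (g :: L))).T.det = 1
    rw [Ob.prod_det, dp_eq]
    exact hdet

/-- The case of at least four elements. -/
theorem commP_q4 (h4 : 4 ≤ Fintype.card F) (L : List (Ob F)) (hL : ∀ Y ∈ L, Bk Y)
    (hdet : dp L = 1) : CommP (prodL L) := by
  classical
  by_cases h3 : ∃ X ∈ L, 3 ≤ finrank F X.V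
  · obtain ⟨X, hXL, hX3⟩ := h3
    obtain ⟨L', hp, -⟩ := exists_rest hXL
    have hX := hL X hXL
    have hfree : Free X := free_single hX.cyc hX.det (finrank F X.V - 3) (by omega)
      fun _ α _ => exists_ne3 h4 0 α _
    exact close (sim_cons hp) hfree
      (good0_prodL fun Y hY => good_q4 h4 (hL Y (mem_of_perm_cons hp hY)))
      (by rw [dp_eq]; exact hdet)
  by_cases h2 : ∃ X ∈ L, finrank F X.V = 2
  · obtain ⟨X, hXL, hX2⟩ := h2
    obtain ⟨L', hp, -⟩ := exists_rest hXL
    refine CommP.of_sim (sim_cons hp) (commP_two_case h4 (hL X hXL) hX2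
      (fun Y hY => hL Y (mem_of_perm_cons hp hY)) ?_)
    rw [← dp_cons, ← dp_perm hp]
    exact hdet
  -- all blocks are one dimensional
  have h1 : ∀ X ∈ L, finrank F X.V = 1 := by
    intro X hX
    have hp := (hL X hX).pos
    have h3' : ¬ 3 ≤ finrank F X.V := fun h => h3 ⟨X, hX, h⟩
    have h2' : ¬ finrank F X.V = 2 := fun h => h2 ⟨X, hX, h⟩
    omega
  by_cases hall : ∃ X ∈ L, ∃ Y ∈ L, X.T.det ≠ Y.T.det
  · obtain ⟨X, hXL, Y, hYL, hne⟩ := hall
    have hXY : Y ≠ X := by
      rintro rfl
      exact hne rfl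
    obtain ⟨L', hp, -⟩ := exists_rest hXL
    have hYL' : Y ∈ L' := by
      have := hp.mem_iff.mp hYL
      rcases List.mem_cons.mp this with h | h
      · exact absurd h hXY
      · exact h
    obtain ⟨L'', hp', -⟩ := exists_rest hYL'
    have hs := sim_two hp hp'
    have hmerge := bk_merge (hL Y hYL) (hL X hXL) (h1 Y hYL) (h1 X hXL) (Ne.symm hne)
    refine CommP.of_sim hs (commP_two_case h4 hmerge (finrank_merge (h1 Y hYL) (h1 X hXL))
      (fun Z hZ => hL Z (mem_of_perm_cons hp (mem_of_perm_cons hp' hZ))) ?_)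
    rw [Ob.prod_det, mul_comm Y.T.det, mul_assoc, ← dp_cons, ← dp_perm hp', ← dp_cons, ← dp_perm hp]
    exact hdet
  · -- all the blocks are the same scalar
    push Not at hall
    cases hLn : L with
    | nil =>
      haveI : Subsingleton (prodL ([] : List (Ob F))).V := inferInstanceAs (Subsingleton PUnit)
      exact CommP.of_subsingleton _
    | cons X L0 =>
      have hXL : X ∈ L := by simp [hLn]
      have hsc : ∀ Y ∈ L, Sim Y (sc X.T.det) := by
        intro Y hY
        have := sim_sc_of_dim_one (hL Y hY).cyc (hL Y hY).det (h1 Y hY)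
        rwa [hall Y hY X hXL] at this
      have hs := prodL_congr hsc
      rw [← hLn]
      refine CommP.of_sim hs (commP_scalar _ _ ?_)
      rw [← dp_replicate, ← dp_eq, ← hs.det_eq, dp_eq]
      exact hdet

end Q4

end Cfsg.Agent.Lib.SLComm
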