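import Mathlib

/-!
# Commutators in `SL_n(F)`: objects, similarity, chains

`Ob F` bundles a finite dimensional space with an endomorphism.  `Sim` is conjugacy, `CommP X`
says that `X.T` is a commutator of two determinant one maps.  `Step X A B D` is the chain relation:
`c ~ A ⊕ W`, `X.T c ~ B ⊕ W`, `det c = D`.
-/

set_option autoImplicit false

namespace Cfsg.Agent.Lib.SLComm

open Module

universe u

/-- A finite dimensional vector space with an endomorphism. -/
structure Ob (F : Type u) [Field F] where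
  V : Type u
  [i1 : AddCommGroup V]
  [i2 : Module F V]
  [i3 : FiniteDimensional F V]
  T : V →ₗ[F] V

attribute [instance] Ob.i1 Ob.i2 Ob.i3

variable {F : Type u} [Field F]

/-- The object given by an endomorphism. -/
abbrev obOf {V : Type u} [AddCommGroup V] [Module F V] [FiniteDimensional F V]
    (T : V →ₗ[F] V) : Ob F := ⟨V, T⟩

/-- Direct sum of objects. -/
abbrev Ob.prod (X Y : Ob F) : Ob F := obOf (X.T.prodMap Y.T)

/-- The one dimensional object with eigenvalue `α`. -/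
abbrev sc (α : F) : Ob F := obOf (α • (LinearMap.id : F →ₗ[F] F))

/-- The zero object. -/
abbrev triv : Ob F := obOf (0 : PUnit.{u + 1} →ₗ[F] PUnit.{u + 1})

/-- Conjugacy of objects. -/
def Sim (X Y : Ob F) : Prop := ∃ φ : X.V ≃ₗ[F] Y.V, ∀ v, φ (X.T v) = Y.T (φ v)

theorem Sim.refl (X : Ob F) : Sim X X := ⟨LinearEquiv.refl F X.V, fun _ => rfl⟩

theorem Sim.symm {X Y : Ob F} (h : Sim X Y) : Sim Y X := by
  obtain ⟨φ, hφ⟩ := h
  refine ⟨φ.symm, fun v => ?_⟩
  apply φ.injective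
  rw [hφ]
  simp

theorem Sim.trans {X Y Z : Ob F} (h : Sim X Y) (h' : Sim Y Z) : Sim X Z := by
  obtain ⟨φ, hφ⟩ := h
  obtain ⟨ψ, hψ⟩ := h'
  refine ⟨φ.trans ψ, fun v => ?_⟩
  simp [hφ, hψ]

theorem Sim.prod {X X' Y Y' : Ob F} (h : Sim X X') (h' : Sim Y Y') :
    Sim (X.prod Y) (X'.prod Y') := by
  obtain ⟨φ, hφ⟩ := h
  obtain ⟨ψ, hψ⟩ := h'
  refine ⟨φ.prodCongr ψ, fun v => ?_⟩
  ext <;> simp [hφ, hψ]

theorem Sim.prod_comm (X Y : Ob F) : Sim (X.prod Y) (Y.prod X) :=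
  ⟨LinearEquiv.prodComm F X.V Y.V, fun _ => rfl⟩

theorem Sim.prod_assoc (X Y Z : Ob F) : Sim ((X.prod Y).prod Z) (X.prod (Y.prod Z)) :=
  ⟨LinearEquiv.prodAssoc F X.V Y.V Z.V, fun _ => rfl⟩

theorem Sim.prod_triv (X : Ob F) : Sim (X.prod triv) X := by
  refine ⟨LinearEquiv.prodUnique, fun v => ?_⟩
  rfl

/-- Any object on a subsingleton space is neutral for products. -/
theorem Sim.prod_subsingleton (X Y : Ob F) [Subsingleton Y.V] : Sim (X.prod Y) X := by
  classical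
  refine ⟨LinearEquiv.ofBijective (LinearMap.fst F X.V Y.V) ⟨?_, ?_⟩, fun v => ?_⟩
  · intro a b h
    exact Prod.ext h (Subsingleton.elim _ _)
  · intro a
    exact ⟨(a, 0), rfl⟩
  · rfl

theorem Sim.det_eq {X Y : Ob F} (h : Sim X Y) : X.T.det = Y.T.det := by
  obtain ⟨φ, hφ⟩ := h
  have : Y.T = (φ : X.V →ₗ[F] Y.V) ∘ₗ X.T ∘ₗ (φ.symm : Y.V →ₗ[F] X.V) := by
    ext v
    simp [hφ]
  rw [this, LinearMap.det_conj]

theorem Sim.finrank_eq {X Y : Ob F} (h : Sim X Y) : finrank F X.V = finrank F Y.V := by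
  obtain ⟨φ, -⟩ := h
  exact φ.finrank_eq

theorem Ob.prod_det (X Y : Ob F) : (X.prod Y).T.det = X.T.det * Y.T.det := by
  exact LinearMap.det_prodMap _ _

theorem sc_det (α : F) : (sc α).T.det = α := by
  show (α • (LinearMap.id : F →ₗ[F] F)).det = α
  simp

theorem triv_det : (triv : Ob F).T.det = 1 := by
  show (0 : PUnit.{u + 1} →ₗ[F] PUnit.{u + 1}).det = 1
  exact LinearMap.det_eq_one_of_subsingleton _

/-! ### Commutators -/

/-- `X.T = x y x⁻¹ y⁻¹` with `det x = det y = 1`, in the form `T y x = x y`. -/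
def CommP (X : Ob F) : Prop :=
  ∃ x y : X.V →ₗ[F] X.V, x.det = 1 ∧ y.det = 1 ∧ X.T ∘ₗ y ∘ₗ x = x ∘ₗ y

theorem CommP.of_sim {X Y : Ob F} (h : Sim X Y) (hY : CommP Y) : CommP X := by
  obtain ⟨φ, hφ⟩ := h
  obtain ⟨x, y, hx, hy, hxy⟩ := hY
  let conj (f : Y.V →ₗ[F] Y.V) : X.V →ₗ[F] X.V :=
    (φ.symm : Y.V →ₗ[F] X.V) ∘ₗ f ∘ₗ (φ : X.V →ₗ[F] Y.V)
  have hdet : ∀ f, (conj f).det = f.det := fun f => by
    simp only [conj]
    exact LinearMap.det_conj f φ.symm
  refine ⟨conj x, conj y, by rw [hdet, hx], by rw [hdet, hy], ?_⟩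
  ext v
  have h1 := LinearMap.congr_fun hxy (φ v)
  simp only [LinearMap.comp_apply] at h1
  apply φ.injective
  simp only [conj, LinearMap.comp_apply, LinearEquiv.coe_coe, hφ, LinearEquiv.apply_symm_apply, h1]

theorem CommP.prod {X Y : Ob F} (hX : CommP X) (hY : CommP Y) : CommP (X.prod Y) := by
  obtain ⟨x, y, hx, hy, hxy⟩ := hX
  obtain ⟨x', y', hx', hy', hxy'⟩ := hY
  refine ⟨x.prodMap x', y.prodMap y', ?_, ?_, ?_⟩
  · rw [LinearMap.det_prodMap, hx, hx', one_mul]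
  · rw [LinearMap.det_prodMap, hy, hy', one_mul]
  · ext v
    · simpa using LinearMap.congr_fun hxy v
    · simp
    · simp
    · simpa using LinearMap.congr_fun hxy' v

theorem CommP.of_subsingleton (X : Ob F) [Subsingleton X.V] : CommP X := by
  refine ⟨LinearMap.id, LinearMap.id, LinearMap.det_id, LinearMap.det_id, ?_⟩
  ext v
  exact Subsingleton.elim _ _

theorem CommP.of_eq_id (X : Ob F) (h : X.T = LinearMap.id) : CommP X := by
  refine ⟨LinearMap.id, LinearMap.id, by simp, by simp, ?_⟩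
  simp [h]

/-- Elements commuting with `T` realise every non-zero determinant. -/
def CentSurj (A : Ob F) : Prop :=
  ∀ v : F, v ≠ 0 → ∃ z : A.V →ₗ[F] A.V, z ∘ₗ A.T = A.T ∘ₗ z ∧ z.det = v

theorem centSurj_sc (α : F) : CentSurj (sc α) := by
  intro v _
  refine ⟨v • LinearMap.id, ?_, ?_⟩
  · ext
    simp [mul_comm]
  · simp

/-- The chain relation. -/
def Step (X A B : Ob F) (D : F) : Prop :=
  ∃ (W : Ob F) (c : X.V →ₗ[F] X.V),
    Sim (obOf c) (A.prod W) ∧ Sim (obOf (X.T ∘ₗ c)) (B.prod W) ∧ c.det = D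

theorem Step.of_sim {X Y A B : Ob F} {D : F} (h : Sim X Y) (hY : Step Y A B D) : Step X A B D := by
  obtain ⟨φ, hφ⟩ := h
  obtain ⟨W, c, h1, h2, h3⟩ := hY
  let c' : X.V →ₗ[F] X.V := (φ.symm : Y.V →ₗ[F] X.V) ∘ₗ c ∘ₗ (φ : X.V →ₗ[F] Y.V)
  refine ⟨W, c', ?_, ?_, ?_⟩
  · refine Sim.trans ?_ h1
    refine ⟨φ, fun v => ?_⟩
    simp [c']
  · refine Sim.trans ?_ h2
    refine ⟨φ, fun v => ?_⟩
    simp [c', hφ]
  · rw [← h3]
    exact LinearMap.det_conj c φ.symm

theorem Step.comp {X Y A B C : Ob F} {D₁ D₂ : F} (h₁ : Step X A B D₁) (h₂ : Step Y B C D₂) :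
    Step (X.prod Y) A C (D₁ * D₂) := by
  obtain ⟨W₁, c₁, a1, a2, a3⟩ := h₁
  obtain ⟨W₂, c₂, b1, b2, b3⟩ := h₂
  refine ⟨W₁.prod (B.prod W₂), c₁.prodMap c₂, ?_, ?_, ?_⟩
  · -- `c₁ × c₂ ~ (A × W₁) × (B × W₂) ~ A × (W₁ × (B × W₂))`
    have := Sim.prod a1 b1
    exact this.trans (Sim.prod_assoc A W₁ (B.prod W₂))
  · have h := Sim.prod a2 b2
    -- `(B × W₁) × (C × W₂) ~ C × (W₁ × (B × W₂))`
    refine Sim.trans ?_ (Sim.trans h ?_)
    · exact ⟨LinearEquiv.refl _ _, fun v => rfl⟩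
    · refine ⟨{ toFun := fun v => (v.2.1, (v.1.2, (v.1.1, v.2.2)))
                invFun := fun v => ((v.2.2.1, v.2.1), (v.1, v.2.2.2))
                map_add' := fun _ _ => rfl
                map_smul' := fun _ _ => rfl
                left_inv := fun _ => rfl
                right_inv := fun _ => rfl }, fun v => rfl⟩
  · rw [LinearMap.det_prodMap, a3, b3]

/-- Closing a chain gives a commutator. -/
theorem Step.commP {X A B : Ob F} (h : Step X A B 1) (hAB : Sim A B) (hA : CentSurj A) :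
    CommP X := by
  obtain ⟨W, c, h1, h2, h3⟩ := h
  have hsim : Sim (obOf c) (obOf (X.T ∘ₗ c)) :=
    h1.trans ((Sim.prod hAB (Sim.refl W)).trans h2.symm)
  obtain ⟨g, hg⟩ := hsim
  obtain ⟨φ, hφ⟩ := h1
  have hgdet : LinearMap.det (g : X.V →ₗ[F] X.V) ≠ 0 := by
    have := LinearEquiv.isUnit_det' g
    exact this.ne_zero
  obtain ⟨z, hz1, hz2⟩ := hA (LinearMap.det (g : X.V →ₗ[F] X.V))⁻¹ (inv_ne_zero hgdet)
  -- `z` extended by the identity
  let z' : X.V →ₗ[F] X.V :=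
    (φ.symm : (A.prod W).V →ₗ[F] X.V) ∘ₗ (z.prodMap LinearMap.id) ∘ₗ (φ : X.V →ₗ[F] (A.prod W).V)
  have hz'det : z'.det = (LinearMap.det (g : X.V →ₗ[F] X.V))⁻¹ := by
    have : z'.det = (z.prodMap (LinearMap.id : W.V →ₗ[F] W.V)).det :=
      LinearMap.det_conj _ φ.symm
    rw [this, LinearMap.det_prodMap, hz2]
    simp
  have hz'c : ∀ v, z' (c v) = c (z' v) := by
    intro v
    apply φ.injective
    have e1 : φ (c v) = (A.prod W).T (φ v) := hφ v
    have e2 : φ (c (z' v)) = (A.prod W).T (φ (z' v)) := hφ _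
    have e3 : ∀ u, φ (z' u) = (z.prodMap LinearMap.id) (φ u) := by
      intro u
      simp [z']
    rw [e2, e3, e3, e1]
    ext
    · exact LinearMap.congr_fun hz1 (φ v).1
    · rfl
  refine ⟨(g : X.V →ₗ[F] X.V) ∘ₗ z', c, ?_, h3, ?_⟩
  · rw [LinearMap.det_comp, hz'det, mul_inv_cancel₀ hgdet]
  · ext v
    have e := hg (z' v)
    simp only [LinearMap.comp_apply, LinearEquiv.coe_coe, hz'c] at e ⊢
    exact e.symm

/-- `c ~ T c` with `det c = 1` and enough determinants in the centraliser of `c`. -/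
theorem commP_of_sim_of_centSurj {X : Ob F} {c : X.V →ₗ[F] X.V}
    (h : Sim (obOf c) (obOf (X.T ∘ₗ c))) (hc : c.det = 1) (hs : CentSurj (obOf c)) : CommP X := by
  obtain ⟨g, hg⟩ := h
  have hgdet : LinearMap.det (g : X.V →ₗ[F] X.V) ≠ 0 := (LinearEquiv.isUnit_det' g).ne_zero
  obtain ⟨z, hz1, hz2⟩ := hs (LinearMap.det (g : X.V →ₗ[F] X.V))⁻¹ (inv_ne_zero hgdet)
  refine ⟨(g : X.V →ₗ[F] X.V) ∘ₗ z, c, ?_, hc, ?_⟩
  · rw [LinearMap.det_comp, hz2, mul_inv_cancel₀ hgdet]
  · ext v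
    have e := hg (z v)
    have e2 : z (c v) = c (z v) := LinearMap.congr_fun hz1 v
    simp only [LinearMap.comp_apply, LinearEquiv.coe_coe, e2] at e ⊢
    exact e.symm

/-! ### Good and free objects -/

/-- Every starting eigenvalue can be continued. -/
def Good (X : Ob F) : Prop :=
  X.T.det ≠ 0 ∧ ∀ α : F, α ≠ 0 → ∃ D : F, D ≠ 0 ∧ Step X (sc α) (sc (α * X.T.det)) D

/-- Every starting eigenvalue can be continued with every determinant. -/
def Free (X : Ob F) : Prop :=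
  X.T.det ≠ 0 ∧ ∀ α D : F, α ≠ 0 → D ≠ 0 → Step X (sc α) (sc (α * X.T.det)) D

theorem Free.good {X : Ob F} (h : Free X) : Good X :=
  ⟨h.1, fun α hα => ⟨1, one_ne_zero, h.2 α 1 hα one_ne_zero⟩⟩

theorem Good.of_sim {X Y : Ob F} (h : Sim X Y) (hY : Good Y) : Good X := by
  refine ⟨by rw [h.det_eq]; exact hY.1, fun α hα => ?_⟩
  obtain ⟨D, hD, hs⟩ := hY.2 α hα
  refine ⟨D, hD, ?_⟩
  rw [h.det_eq]
  exact hs.of_sim h

theorem Free.of_sim {X Y : Ob F} (h : Sim X Y) (hY : Free Y) : Free X := by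
  refine ⟨by rw [h.det_eq]; exact hY.1, fun α D hα hD => ?_⟩
  rw [h.det_eq]
  exact (hY.2 α D hα hD).of_sim h

theorem Good.prod {X Y : Ob F} (hX : Good X) (hY : Good Y) : Good (X.prod Y) := by
  refine ⟨by rw [Ob.prod_det]; exact mul_ne_zero hX.1 hY.1, fun α hα => ?_⟩
  obtain ⟨D₁, hD₁, h₁⟩ := hX.2 α hα
  obtain ⟨D₂, hD₂, h₂⟩ := hY.2 (α * X.T.det) (mul_ne_zero hα hX.1)
  refine ⟨D₁ * D₂, mul_ne_zero hD₁ hD₂, ?_⟩
  have := h₁.comp h₂
  rwa [mul_assoc, ← Ob.prod_det] at this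

theorem Free.prod_good {X Y : Ob F} (hX : Free X) (hY : Good Y) : Free (X.prod Y) := by
  refine ⟨by rw [Ob.prod_det]; exact mul_ne_zero hX.1 hY.1, fun α D hα hD => ?_⟩
  obtain ⟨D₂, hD₂, h₂⟩ := hY.2 (α * X.T.det) (mul_ne_zero hα hX.1)
  have h₁ := hX.2 α (D / D₂) hα (div_ne_zero hD hD₂)
  have := h₁.comp h₂
  rwa [mul_assoc, ← Ob.prod_det, div_mul_cancel₀ _ hD₂] at this

theorem Good.prod_free {X Y : Ob F} (hX : Good X) (hY : Free Y) : Free (X.prod Y) :=
  Free.of_sim (Sim.prod_comm X Y) (by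
    have := hY.prod_good hX
    exact this)

/-- Good, or zero dimensional. -/
def Good0 (Y : Ob F) : Prop := Good Y ∨ Subsingleton Y.V

theorem Free.prod_good0 {X Y : Ob F} (hX : Free X) (hY : Good0 Y) : Free (X.prod Y) := by
  rcases hY with hY | hY
  · exact hX.prod_good hY
  · exact Free.of_sim (Sim.prod_subsingleton X Y) hX

theorem Good0.prod {X Y : Ob F} (hX : Good0 X) (hY : Good0 Y) : Good0 (X.prod Y) := by
  rcases hX with hX | hX
  · rcases hY with hY | hY
    · exact Or.inl (hX.prod hY)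
    · exact Or.inl (Good.of_sim (Sim.prod_subsingleton X Y) hX)
  · rcases hY with hY | hY
    · exact Or.inl (Good.of_sim ((Sim.prod_comm X Y).trans (Sim.prod_subsingleton Y X)) hY)
    · exact Or.inr inferInstance

/-- A free object of determinant one is a commutator. -/
theorem Free.commP {X : Ob F} (hX : Free X) (hd : X.T.det = 1) : CommP X := by
  have h := hX.2 1 1 one_ne_zero one_ne_zero
  rw [hd, one_mul] at h
  exact h.commP (Sim.refl _) (centSurj_sc 1)

/-! ### Lists of objects -/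

/-- Iterated direct sum. -/
def prodL : List (Ob F) → Ob F
  | [] => triv
  | X :: L => X.prod (prodL L)

theorem prodL_perm {L L' : List (Ob F)} (h : L.Perm L') : Sim (prodL L) (prodL L') := by
  induction h with
  | nil => exact Sim.refl _
  | cons X _ ih => exact Sim.prod (Sim.refl X) ih
  | swap X Y L =>
    show Sim (Ob.prod Y (Ob.prod X (prodL L))) (Ob.prod X (Ob.prod Y (prodL L)))
    exact (Sim.prod_assoc Y X (prodL L)).symm.trans
      ((Sim.prod (Sim.prod_comm Y X) (Sim.refl _)).trans (Sim.prod_assoc X Y (prodL L)))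
  | trans _ _ ih₁ ih₂ => exact ih₁.trans ih₂

theorem prodL_det (L : List (Ob F)) : (prodL L).T.det = (L.map fun X => X.T.det).prod := by
  induction L with
  | nil => exact triv_det
  | cons X L ih =>
    show (X.prod (prodL L)).T.det = _
    rw [Ob.prod_det, ih]
    simp

theorem prodL_finrank (L : List (Ob F)) :
    finrank F (prodL L).V = (L.map fun X => finrank F X.V).sum := by
  induction L with
  | nil =>
    show finrank F PUnit.{u + 1} = _
    simpa using finrank_zero_of_subsingleton (R := F) (M := PUnit.{u + 1})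
  | cons X L ih =>
    show finrank F (X.V × (prodL L).V) = _
    rw [Module.finrank_prod, ih]
    simp

theorem prodL_append (L L' : List (Ob F)) :
    Sim (prodL (L ++ L')) ((prodL L).prod (prodL L')) := by
  induction L with
  | nil =>
    show Sim (prodL L') (Ob.prod triv (prodL L'))
    exact ((Sim.prod_comm _ _).trans (Sim.prod_triv _)).symm
  | cons X L ih =>
    show Sim (X.prod (prodL (L ++ L'))) (Ob.prod (X.prod (prodL L)) (prodL L'))
    exact (Sim.prod (Sim.refl X) ih).trans (Sim.prod_assoc X (prodL L) (prodL L')).symm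

theorem commP_prodL {L : List (Ob F)} (h : ∀ X ∈ L, CommP X) : CommP (prodL L) := by
  induction L with
  | nil =>
    haveI : Subsingleton (prodL ([] : List (Ob F))).V := inferInstanceAs (Subsingleton PUnit)
    exact CommP.of_subsingleton _
  | cons X L ih =>
    exact CommP.prod (h X (by simp)) (ih fun Y hY => h Y (by simp [hY]))

theorem good0_prodL {L : List (Ob F)} (h : ∀ X ∈ L, Good X) : Good0 (prodL L) := by
  induction L with
  | nil => exact Or.inr (inferInstanceAs (Subsingleton PUnit))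
  | cons X L ih =>
    exact Good0.prod (Or.inl (h X (by simp))) (ih fun Y hY => h Y (by simp [hY]))

end Cfsg.Agent.Lib.SLComm
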