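import Cfsg.Agent.Lib.SLComm.Basic

/-!
# Cyclic endomorphisms
-/

set_option autoImplicit false

namespace Cfsg.Agent.Lib.SLComm

open Module Polynomial

universe u

variable {F : Type u} [Field F] {V : Type u} [AddCommGroup V] [Module F V]

/-- The cyclic submodule generated by `v`. -/
noncomputable def gen (T : V →ₗ[F] V) (v : V) : Submodule F V :=
  LinearMap.range ((LinearMap.applyₗ v : (V →ₗ[F] V) →ₗ[F] V) ∘ₗ
    (aeval T : F[X] →ₐ[F] (V →ₗ[F] V)).toLinearMap)

theorem mem_gen {T : V →ₗ[F] V} {v w : V} : w ∈ gen T v ↔ ∃ g : F[X], aeval T g v = w := by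
  simp [gen]

theorem self_mem_gen (T : V →ₗ[F] V) (v : V) : v ∈ gen T v :=
  mem_gen.mpr ⟨1, by simp⟩

theorem aeval_X_mul_apply (T : V →ₗ[F] V) (g : F[X]) (v : V) :
    aeval T (X * g) v = T (aeval T g v) := by
  simp

theorem map_mem_gen {T : V →ₗ[F] V} {v w : V} (h : w ∈ gen T v) : T w ∈ gen T v := by
  obtain ⟨g, rfl⟩ := mem_gen.mp h
  exact mem_gen.mpr ⟨X * g, aeval_X_mul_apply T g v⟩

/-- Polynomials preserve invariant submodules. -/
theorem aeval_mem_of_inv {T : V →ₗ[F] V} {U : Submodule F V} (hU : ∀ u ∈ U, T u ∈ U) (g : F[X])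
    {u : V} (hu : u ∈ U) : aeval T g u ∈ U := by
  induction g using Polynomial.induction_on generalizing u with
  | C a => simpa using U.smul_mem a hu
  | add p q hp hq =>
    rw [map_add, LinearMap.add_apply]
    exact U.add_mem (hp hu) (hq hu)
  | monomial n a h =>
    have e : (C a * X ^ (n + 1) : F[X]) = (C a * X ^ n) * X := by ring
    rw [e, map_mul, Module.End.mul_apply]
    simpa using h (hU u hu)

theorem aeval_mem_gen {T : V →ₗ[F] V} {v w : V} (g : F[X]) (h : w ∈ gen T v) :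
    aeval T g w ∈ gen T v :=
  aeval_mem_of_inv (fun _ hu => map_mem_gen hu) g h

theorem gen_le {T : V →ₗ[F] V} {U : Submodule F V} (hU : ∀ u ∈ U, T u ∈ U) {v : V} (hv : v ∈ U) :
    gen T v ≤ U := by
  intro w hw
  obtain ⟨g, rfl⟩ := mem_gen.mp hw
  exact aeval_mem_of_inv hU g hv

/-- Cyclic endomorphism. -/
def IsCyc (T : V →ₗ[F] V) : Prop := ∃ v, gen T v = ⊤

/-- Extension of cyclic generation through a quotient with coprime polynomial. -/
theorem cyc_ext [FiniteDimensional F V] (T : V →ₗ[F] V) (W U : Submodule F V)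
    (hW : ∀ w ∈ W, T w ∈ W) (w₀ v₀ : V) (hw₀ : gen T w₀ = W) (hv₀ : gen T v₀ ⊔ W = U)
    (μ : F[X]) (hμU : ∀ u ∈ U, aeval T μ u ∈ W) (hμ : ∀ w ∈ W, aeval T μ w = 0 → w = 0) :
    ∃ v, gen T v = U := by
  have hWU : W ≤ U := by rw [← hv₀]; exact le_sup_right
  -- `μ(T)` is bijective on `W`
  have hWμ : ∀ w ∈ W, aeval T μ w ∈ W := fun w hw => aeval_mem_of_inv hW μ hw
  let Rμ : W →ₗ[F] W := (aeval T μ : V →ₗ[F] V).restrict hWμ
  have hinj : Function.Injective Rμ := by
    rw [injective_iff_map_eq_zero]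
    intro w hw
    have h1 : aeval T μ (w : V) = 0 := by
      have := congrArg (Subtype.val) hw
      simpa [Rμ] using this
    exact Subtype.ext (hμ w w.2 h1)
  have hsurj : Function.Surjective Rμ := LinearMap.injective_iff_surjective.mp hinj
  have hv₀U : v₀ ∈ U := by rw [← hv₀]; exact Submodule.mem_sup_left (self_mem_gen T v₀)
  obtain ⟨w', hw'⟩ := hsurj ⟨aeval T μ v₀, hμU v₀ hv₀U⟩
  have hw'' : aeval T μ (w' : V) = aeval T μ v₀ := congrArg Subtype.val hw'
  set z₀ : V := v₀ - w' with hz₀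
  have hz₀μ : aeval T μ z₀ = 0 := by
    rw [hz₀, map_sub, hw'', sub_self]
  have hw₀W : w₀ ∈ W := by rw [← hw₀]; exact self_mem_gen T w₀
  refine ⟨w₀ + z₀, le_antisymm ?_ ?_⟩
  · -- upper bound
    have hUinv : ∀ u ∈ U, T u ∈ U := by
      rw [← hv₀]
      intro u hu
      obtain ⟨a, ha, b, hb, rfl⟩ := Submodule.mem_sup.mp hu
      rw [map_add]
      exact Submodule.add_mem_sup (map_mem_gen ha) (hW b hb)
    refine gen_le hUinv (U.add_mem (hWU hw₀W) (U.sub_mem hv₀U (hWU w'.2)))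
  · -- `W ≤ gen`
    set v := w₀ + z₀ with hv
    have hμv : aeval T μ v = aeval T μ w₀ := by
      rw [hv, map_add, hz₀μ, add_zero]
    have h1 : aeval T μ w₀ ∈ gen T v := by
      rw [← hμv]
      exact aeval_mem_gen μ (self_mem_gen T v)
    have hWle : W ≤ gen T v := by
      intro w hw
      -- `w = μ(T) w''`, `w'' = g(T) w₀`
      obtain ⟨w'', hw''⟩ := hsurj ⟨w, hw⟩
      have h2 : aeval T μ (w'' : V) = w := congrArg Subtype.val hw''
      have h3 : (w'' : V) ∈ gen T w₀ := by rw [hw₀]; exact w''.2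
      obtain ⟨g, hg⟩ := mem_gen.mp h3
      have h4 : w = aeval T g (aeval T μ w₀) := by
        rw [← h2, ← hg]
        have : aeval T μ * aeval T g = aeval T g * aeval T μ := by
          rw [← map_mul, ← map_mul, mul_comm]
        exact (LinearMap.congr_fun this w₀)
      rw [h4]
      exact aeval_mem_gen g h1
    have hz₀gen : z₀ ∈ gen T v := by
      have : z₀ = v - w₀ := by rw [hv]; abel
      rw [this]
      exact Submodule.sub_mem _ (self_mem_gen T v) (hWle hw₀W)
    rw [← hv₀]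
    refine sup_le ?_ hWle
    intro u hu
    obtain ⟨g, rfl⟩ := mem_gen.mp hu
    have : v₀ = z₀ + w' := by rw [hz₀]; abel
    rw [this, map_add]
    exact Submodule.add_mem _ (aeval_mem_gen g hz₀gen)
      (hWle (aeval_mem_of_inv hW g w'.2))

/-! ### The model `F[X]/(h)` -/

/-- Multiplication by the root on `F[X]/(h)`. -/
noncomputable def Blk (h : F[X]) (hh : h.Monic) : Ob F :=
  { V := AdjoinRoot h
    i3 := (AdjoinRoot.powerBasis' hh).finite
    T := LinearMap.mulLeft F (AdjoinRoot.root h) }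

theorem blk_aeval (h : F[X]) (hh : h.Monic) (g : F[X]) :
    aeval (Blk h hh).T g = LinearMap.mulLeft F (AdjoinRoot.mk h g) := by
  have h1 := Polynomial.aeval_algHom_apply (Algebra.lmul F (AdjoinRoot h)) (AdjoinRoot.root h) g
  rw [AdjoinRoot.aeval_eq] at h1
  exact h1

theorem blk_aeval_self (h : F[X]) (hh : h.Monic) : aeval (Blk h hh).T h = 0 := by
  rw [blk_aeval, AdjoinRoot.mk_self]
  ext x
  show (0 : AdjoinRoot h) * x = 0
  simp

theorem blk_cyc (h : F[X]) (hh : h.Monic) : IsCyc (Blk h hh).T := by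
  refine ⟨(1 : AdjoinRoot h), eq_top_iff.mpr fun w _ => ?_⟩
  obtain ⟨g, rfl⟩ := AdjoinRoot.mk_surjective w
  refine mem_gen.mpr ⟨g, ?_⟩
  show aeval (Blk h hh).T g (1 : AdjoinRoot h) = _
  rw [blk_aeval]
  show AdjoinRoot.mk h g * (1 : AdjoinRoot h) = _
  exact mul_one _

theorem blk_finrank (h : F[X]) (hh : h.Monic) : finrank F (Blk h hh).V = h.natDegree := by
  show finrank F (AdjoinRoot h) = _
  have := (AdjoinRoot.powerBasis' hh).finrank
  simpa using this

/-- A cyclic endomorphism annihilated by a monic polynomial of the right degree is the model. -/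
theorem sim_blk {X : Ob F} (hc : IsCyc X.T) (f : F[X]) (hf : f.Monic)
    (hd : f.natDegree = finrank F X.V) (h0 : aeval X.T f = 0) :
    Sim X (Blk f hf) ∧ ∀ g : F[X], ∀ v, gen X.T v = ⊤ → aeval X.T g v = 0 → f ∣ g := by
  obtain ⟨v, hv⟩ := hc
  have key : ∀ v : X.V, gen X.T v = ⊤ → ∃ E : AdjoinRoot f ≃ₗ[F] X.V,
      (∀ g, E (AdjoinRoot.mk f g) = aeval X.T g v) ∧ ∀ r, E (AdjoinRoot.root f * r) = X.T (E r) := by
    intro v hv
    let Λ : AdjoinRoot f →ₐ[F] (X.V →ₗ[F] X.V) :=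
      Ideal.Quotient.liftₐ (Ideal.span {f}) (aeval X.T) (by
        intro a ha
        obtain ⟨b, rfl⟩ := Ideal.mem_span_singleton'.mp ha
        rw [map_mul, h0, mul_zero])
    have hΛ : ∀ g, Λ (AdjoinRoot.mk f g) = aeval X.T g := fun g => rfl
    let Ψ : AdjoinRoot f →ₗ[F] X.V :=
      (LinearMap.applyₗ v : (X.V →ₗ[F] X.V) →ₗ[F] X.V) ∘ₗ Λ.toLinearMap
    have hΨ : ∀ g, Ψ (AdjoinRoot.mk f g) = aeval X.T g v := fun g => by
      simp [Ψ, hΛ]
    have hsurj : Function.Surjective Ψ := by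
      intro w
      have : w ∈ gen X.T v := by rw [hv]; trivial
      obtain ⟨g, rfl⟩ := mem_gen.mp this
      exact ⟨_, hΨ g⟩
    haveI : FiniteDimensional F (AdjoinRoot f) := (AdjoinRoot.powerBasis' hf).finite
    have hfr : finrank F (AdjoinRoot f) = finrank F X.V := by
      rw [← hd]
      exact blk_finrank f hf
    have hinj : Function.Injective Ψ :=
      (LinearMap.injective_iff_surjective_of_finrank_eq_finrank hfr).mpr hsurj
    refine ⟨LinearEquiv.ofBijective Ψ ⟨hinj, hsurj⟩, hΨ, fun r => ?_⟩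
    obtain ⟨g, rfl⟩ := AdjoinRoot.mk_surjective r
    have : AdjoinRoot.root f * AdjoinRoot.mk f g = AdjoinRoot.mk f (Polynomial.X * g) := by
      rw [map_mul, AdjoinRoot.mk_X]
    show Ψ (AdjoinRoot.root f * AdjoinRoot.mk f g) = X.T (Ψ (AdjoinRoot.mk f g))
    rw [this, hΨ, hΨ, aeval_X_mul_apply]
  obtain ⟨E, hE, hE2⟩ := key v hv
  refine ⟨Sim.symm ⟨E, fun r => ?_⟩, ?_⟩
  · exact hE2 r
  · intro g u hu hg
    obtain ⟨E', hE', -⟩ := key u hu
    have : E' (AdjoinRoot.mk f g) = 0 := by rw [hE', hg]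
    have h1 : AdjoinRoot.mk f g = 0 := by simpa using this
    exact AdjoinRoot.mk_eq_zero.mp h1

theorem sim_of_cyc {X Y : Ob F} (hX : IsCyc X.T) (hY : IsCyc Y.T) (f : F[X]) (hf : f.Monic)
    (hdX : f.natDegree = finrank F X.V) (hdY : f.natDegree = finrank F Y.V)
    (h0X : aeval X.T f = 0) (h0Y : aeval Y.T f = 0) : Sim X Y :=
  (sim_blk hX f hf hdX h0X).1.trans (sim_blk hY f hf hdY h0Y).1.symm

theorem charpoly_eq_of_cyc {X : Ob F} (hX : IsCyc X.T) (f : F[X]) (hf : f.Monic)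
    (hd : f.natDegree = finrank F X.V) (h0 : aeval X.T f = 0) : X.T.charpoly = f := by
  obtain ⟨v, hv⟩ := hX
  have h1 := (sim_blk ⟨v, hv⟩ f hf hd h0).2 (f - X.T.charpoly) v hv (by
    rw [map_sub, LinearMap.aeval_self_charpoly, h0, sub_zero]
    simp)
  have hχ : X.T.charpoly.Monic := LinearMap.charpoly_monic _
  have hχd : X.T.charpoly.natDegree = finrank F X.V := LinearMap.charpoly_natDegree _
  by_contra hne
  have hne' : f - X.T.charpoly ≠ 0 := sub_ne_zero.mpr (Ne.symm hne)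
  have hdeg : (f - X.T.charpoly).degree < f.degree := by
    apply Polynomial.degree_sub_lt_left _ hf.ne_zero
    · rw [hf.leadingCoeff, hχ.leadingCoeff]
    · rw [Polynomial.degree_eq_natDegree hf.ne_zero, Polynomial.degree_eq_natDegree hχ.ne_zero, hd, hχd]
  exact absurd (Polynomial.degree_le_of_dvd h1 hne') (not_le.mpr hdeg)

theorem det_eq_of_cyc {X : Ob F} (hX : IsCyc X.T) (f : F[X]) (hf : f.Monic)
    (hd : f.natDegree = finrank F X.V) (h0 : aeval X.T f = 0) :
    X.T.det = (-1) ^ f.natDegree * f.coeff 0 := by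
  have h := LinearMap.det_eq_sign_charpoly_coeff X.T
  rw [charpoly_eq_of_cyc hX f hf hd h0] at h
  rw [h, hd]

/-! ### Products with a one dimensional factor -/

theorem aeval_prodMap {V' V'' : Type u} [AddCommGroup V'] [Module F V'] [AddCommGroup V'']
    [Module F V''] (A : V' →ₗ[F] V') (B : V'' →ₗ[F] V'') (g : F[X]) (x : V' × V'') :
    aeval (A.prodMap B) g x = (aeval A g x.1, aeval B g x.2) := by
  induction g using Polynomial.induction_on generalizing x with
  | C a => simp; rfl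
  | add p q hp hq =>
    simp only [map_add, LinearMap.add_apply, hp, hq]
    rfl
  | monomial n a h =>
    have e : (C a * X ^ (n + 1) : F[X]) = (C a * X ^ n) * X := by ring
    rw [e, map_mul, map_mul, map_mul, Module.End.mul_apply, Module.End.mul_apply,
      Module.End.mul_apply]
    simpa using h (A x.1, B x.2)

theorem aeval_smul_id (α : F) (g : F[X]) (x : F) :
    aeval (α • (LinearMap.id : F →ₗ[F] F)) g x = g.eval α • x := by
  have e : α • (LinearMap.id : F →ₗ[F] F) = algebraMap F (F →ₗ[F] F) α := rfl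
  rw [e, Polynomial.aeval_algebraMap_apply_eq_algebraMap_eval]
  rfl

theorem cyc_sc_prod (α : F) (W : Ob F) (hW : IsCyc W.T) (g : F[X]) (hg : aeval W.T g = 0)
    (hα : g.eval α ≠ 0) : IsCyc ((sc α).prod W).T := by
  obtain ⟨v, hv⟩ := hW
  refine ⟨((1 : F), v), eq_top_iff.mpr fun w _ => ?_⟩
  set T' := ((sc α).prod W).T with hT'
  have h1 : ((g.eval α, 0) : F × W.V) ∈ gen T' ((1 : F), v) := by
    refine mem_gen.mpr ⟨g, ?_⟩
    have := aeval_prodMap (α • (LinearMap.id : F →ₗ[F] F)) W.T g ((1 : F), v)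
    rw [hT']
    show aeval ((α • (LinearMap.id : F →ₗ[F] F)).prodMap W.T) g ((1 : F), v) = _
    rw [this, aeval_smul_id, hg]
    simp
  have h2 : (((1 : F), 0) : F × W.V) ∈ gen T' ((1 : F), v) := by
    have := Submodule.smul_mem _ (g.eval α)⁻¹ h1
    simpa [smul_eq_mul, inv_mul_cancel₀ hα] using this
  have h3 : (((0 : F), v) : F × W.V) ∈ gen T' ((1 : F), v) := by
    have := Submodule.sub_mem _ (self_mem_gen T' ((1 : F), v)) h2
    simpa using this
  have h4 : ∀ y : W.V, (((0 : F), y) : F × W.V) ∈ gen T' ((1 : F), v) := by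
    intro y
    have hy : y ∈ gen W.T v := by rw [hv]; trivial
    obtain ⟨g', rfl⟩ := mem_gen.mp hy
    have := aeval_mem_gen g' h3
    have e := aeval_prodMap (α • (LinearMap.id : F →ₗ[F] F)) W.T g' ((0 : F), v)
    rw [hT'] at this
    have e2 : aeval ((sc α).prod W).T g' ((0 : F), v) = ((0 : F), aeval W.T g' v) := by
      show aeval ((α • (LinearMap.id : F →ₗ[F] F)).prodMap W.T) g' ((0 : F), v) = _
      rw [e, aeval_smul_id]
      simp
    rwa [e2] at this
  have : w = w.1 • (((1 : F), 0) : F × W.V) + ((0 : F), w.2) := by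
    ext <;> simp
  rw [this]
  exact Submodule.add_mem _ (Submodule.smul_mem _ _ h2) (h4 _)

end Cfsg.Agent.Lib.SLComm
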