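import Cfsg.Agent.Lib.SLComm.Scalar
import Cfsg.Agent.Lib.MatConj.Decomp

/-!
# Decomposition into cyclic blocks
-/

set_option autoImplicit false

namespace Cfsg.Agent.Lib.SLComm

open Module Polynomial

universe u

variable {F : Type u} [Field F]

/-- The product of a finite family of objects. -/
noncomputable def piOb {ι : Type u} [Fintype ι] (Y : ι → Ob F) : Ob F :=
  obOf (LinearMap.pi fun i => (Y i).T ∘ₗ (LinearMap.proj i : (∀ i, (Y i).V) →ₗ[F] (Y i).V))

theorem piOb_apply {ι : Type u} [Fintype ι] (Y : ι → Ob F) (v : ∀ i, (Y i).V) (i : ι) :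
    ((piOb Y).T v : ∀ i, (Y i).V) i = (Y i).T (v i) := rfl

theorem sim_piOb_fin : ∀ (n : ℕ) (Y : ULift.{u} (Fin n) → Ob F),
    Sim (piOb Y) (prodL (List.ofFn fun i : Fin n => Y ⟨i⟩)) := by
  intro n
  induction n with
  | zero =>
    intro Y
    rw [List.ofFn_zero]
    haveI h1 : Subsingleton (piOb Y).V :=
      (⟨fun a b => funext fun i => (i.down.elim0)⟩ : Subsingleton (∀ i, (Y i).V))
    haveI h2 : Subsingleton (prodL ([] : List (Ob F))).V := inferInstanceAs (Subsingleton PUnit)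
    exact ⟨LinearEquiv.ofSubsingleton _ _, fun v => Subsingleton.elim _ _⟩
  | succ n ih =>
    intro Y
    have e : (List.ofFn fun i : Fin (n + 1) => Y ⟨i⟩) =
        Y ⟨0⟩ :: List.ofFn fun i : Fin n => Y ⟨i.succ⟩ := List.ofFn_succ
    rw [e]
    have h2 := ih (fun i => Y ⟨i.down.succ⟩)
    refine Sim.trans ?_ (Sim.prod (Sim.refl (Y ⟨0⟩)) h2)
    -- `Fin (n + 1)` through the lift
    let M : Fin (n + 1) → Type u := fun i => (Y ⟨i⟩).V
    let E : ((Y ⟨0⟩).V × ∀ i : Fin n, (Y ⟨i.succ⟩).V) ≃ₗ[F] ∀ i : Fin (n + 1), (Y ⟨i⟩).V :=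
      Fin.consLinearEquiv F M
    let L1 : (∀ i : ULift.{u} (Fin (n + 1)), (Y i).V) ≃ₗ[F] ∀ i : Fin (n + 1), (Y ⟨i⟩).V :=
      { toFun := fun v i => v ⟨i⟩
        invFun := fun v i => v i.down
        map_add' := fun _ _ => rfl
        map_smul' := fun _ _ => rfl
        left_inv := fun _ => rfl
        right_inv := fun _ => rfl }
    let L2 : (∀ i : ULift.{u} (Fin n), (Y ⟨i.down.succ⟩).V) ≃ₗ[F] ∀ i : Fin n, (Y ⟨i.succ⟩).V :=
      { toFun := fun v i => v ⟨i⟩
        invFun := fun v i => v i.down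
        map_add' := fun _ _ => rfl
        map_smul' := fun _ _ => rfl
        left_inv := fun _ => rfl
        right_inv := fun _ => rfl }
    refine ⟨L1.trans (E.symm.trans ((LinearEquiv.refl F _).prodCongr L2.symm)), fun v => ?_⟩
    rfl

theorem sim_piOb {ι : Type u} [Fintype ι] (Y : ι → Ob F) :
    ∃ L : List (Ob F), Sim (piOb Y) (prodL L) ∧ ∀ Z ∈ L, ∃ i, Z = Y i := by
  classical
  let e : ι ≃ ULift.{u} (Fin (Fintype.card ι)) := (Fintype.equivFin ι).trans Equiv.ulift.symm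
  refine ⟨List.ofFn fun i : Fin (Fintype.card ι) => Y (e.symm ⟨i⟩), ?_, ?_⟩
  · refine Sim.trans ?_ (sim_piOb_fin _ fun i => Y (e.symm i))
    let E : (∀ i, (Y (e.symm i)).V) ≃ₗ[F] ∀ i, (Y i).V :=
      LinearEquiv.piCongrLeft F (fun i => (Y i).V) e.symm
    refine Sim.symm ⟨E, fun v => ?_⟩
    funext i
    obtain ⟨i', rfl⟩ := e.symm.surjective i
    have h1 : ∀ w : (∀ i, (Y (e.symm i)).V), (E w) (e.symm i') = w i' := fun w =>
      Equiv.piCongrLeft_apply_apply (fun i => (Y i).V) e.symm w i'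
    refine (h1 _).trans ?_
    exact (congrArg (Y (e.symm i')).T (h1 v)).symm
  · intro Z hZ
    obtain ⟨i, rfl⟩ := List.mem_ofFn.mp hZ
    exact ⟨_, rfl⟩

/-- Remove the zero dimensional blocks. -/
theorem exists_pos_list (L : List (Ob F)) :
    ∃ L' : List (Ob F), Sim (prodL L) (prodL L') ∧
      ∀ Z ∈ L', Z ∈ L ∧ 0 < finrank F Z.V := by
  induction L with
  | nil => exact ⟨[], Sim.refl _, by simp⟩
  | cons X L ih =>
    obtain ⟨L', h1, h2⟩ := ih
    by_cases hX : 0 < finrank F X.V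
    · refine ⟨X :: L', Sim.prod (Sim.refl X) h1, ?_⟩
      intro Z hZ
      rcases List.mem_cons.mp hZ with rfl | hZ
      · exact ⟨by simp, hX⟩
      · exact ⟨by simp [(h2 Z hZ).1], (h2 Z hZ).2⟩
    · refine ⟨L', ?_, fun Z hZ => ⟨by simp [(h2 Z hZ).1], (h2 Z hZ).2⟩⟩
      haveI : Subsingleton X.V := by
        have : finrank F X.V = 0 := by omega
        exact Module.finrank_zero_iff.mp this
      refine Sim.trans ?_ h1
      exact (Sim.prod_comm _ _).trans (Sim.prod_subsingleton _ _)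

/-- Every object is a direct sum of non zero cyclic objects. -/
theorem exists_cyc_list (X : Ob F) :
    ∃ L : List (Ob F), Sim X (prodL L) ∧ ∀ Y ∈ L, IsCyc Y.T ∧ 0 < finrank F Y.V := by
  obtain ⟨ι, hι, p, -, hm, e, Φ, hΦ⟩ := Cfsg.Agent.Lib.MatConj.Decomp.exists_decomp X.T
  let Y : ι → Ob F := fun i => Blk (p i ^ e i) ((hm i).pow _)
  obtain ⟨L, h1, h2⟩ := sim_piOb Y
  obtain ⟨L', h3, h4⟩ := exists_pos_list L
  refine ⟨L', ?_, fun Z hZ => ?_⟩
  · refine Sim.trans ?_ (h1.trans h3)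
    exact ⟨Φ, fun v => funext fun i => hΦ v i⟩
  · obtain ⟨i, rfl⟩ := h2 Z (h4 Z hZ).1
    exact ⟨blk_cyc _ _, (h4 _ hZ).2⟩

end Cfsg.Agent.Lib.SLComm
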