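import Cfsg.Agent.Lib.SLComm.Hess

/-!
# Frames: the shape of the map `c`
-/

set_option autoImplicit false

namespace Cfsg.Agent.Lib.SLComm

open Module Polynomial

universe u

variable {F : Type u} [Field F] {V : Type u} [AddCommGroup V] [Module F V]

theorem eq_zero_of_coprime {T : V →ₗ[F] V} {μ g : F[X]} (h : IsCoprime μ g) {w : V}
    (h1 : aeval T μ w = 0) (h2 : aeval T g w = 0) : w = 0 := by
  obtain ⟨a, b, hab⟩ := h
  have e : aeval T (a * μ + b * g) w = w := by rw [hab]; simp
  rw [← e, map_add, map_mul, map_mul, LinearMap.add_apply, Module.End.mul_apply,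
    Module.End.mul_apply, h1, h2]
  simp

theorem isCoprime_X_sub_C_of_eval {g : F[X]} {α : F} (h : g.eval α ≠ 0) :
    IsCoprime (Polynomial.X - C α) g :=
  (Polynomial.irreducible_X_sub_C α).coprime_iff_not_dvd.mpr
    (fun hd => h (Polynomial.dvd_iff_isRoot.mp hd))

theorem aeval_X_sub_C_apply (c : V →ₗ[F] V) (y : F) (v : V) :
    aeval c (Polynomial.X - C y) v = c v - y • v := by
  simp [Module.algebraMap_end_apply]

/-- The abstract flag lemma. -/
theorem flag_lemma {c : V →ₗ[F] V} (y : F) (U : ℕ → Submodule F V) (s : ℕ → V) (M : ℕ)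
    (hU : ∀ m, U m ≤ U (m + 1)) (hs0 : s 0 = 0)
    (hsU : ∀ m, m < M → s (m + 1) ∈ U (m + 1))
    (hstep : ∀ m, m < M → ∀ v ∈ U (m + 1), ∃ e : F, v - e • s (m + 1) ∈ U m)
    (hU0 : ∀ v ∈ U 0, c v - y • v ∈ U 0)
    (hN : ∀ m, m < M → (c (s (m + 1)) - y • s (m + 1)) - s m ∈ U (m - 1)) :
    (∀ v ∈ U M, aeval c ((Polynomial.X - C y) ^ M) v ∈ U 0) ∧ U M ≤ gen c (s M) ⊔ U 0 := by
  have hmono : ∀ i j, i ≤ j → U i ≤ U j := fun i j hij =>
    monotone_nat_of_le_succ hU hij
  set N : V →ₗ[F] V := aeval c (Polynomial.X - C y) with hNdef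
  have hNv : ∀ v, N v = c v - y • v := fun v => aeval_X_sub_C_apply c y v
  have hsm : ∀ m, m ≤ M → s m ∈ U m := by
    intro m hm
    cases m with
    | zero => rw [hs0]; exact Submodule.zero_mem _
    | succ m => exact hsU m (by omega)
  have hP : ∀ m, m ≤ M → ∀ v ∈ U m, N v ∈ U (m - 1) := by
    intro m
    induction m with
    | zero =>
      intro _ v hv
      rw [hNv]
      exact hU0 v hv
    | succ m ih =>
      intro hm v hv
      obtain ⟨e, he⟩ := hstep m (by omega) v hv
      have h1 : N (v - e • s (m + 1)) ∈ U m :=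
        hmono _ _ (by omega) (ih (by omega) _ he)
      have h2 : N (s (m + 1)) ∈ U m := by
        have h3 := hN m (by omega)
        rw [← hNv] at h3
        have e2 : N (s (m + 1)) = (N (s (m + 1)) - s m) + s m := by abel
        rw [e2]
        exact Submodule.add_mem _ (hmono _ _ (by omega) h3) (hsm m (by omega))
      have e3 : N v = N (v - e • s (m + 1)) + e • N (s (m + 1)) := by
        rw [map_sub, map_smul]
        abel
      rw [e3]
      exact Submodule.add_mem _ h1 (Submodule.smul_mem _ _ h2)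
  have hQ : ∀ m, m ≤ M → ∀ v ∈ U m, (N ^ m) v ∈ U 0 := by
    intro m
    induction m with
    | zero =>
      intro _ v hv
      simpa using hv
    | succ m ih =>
      intro hm v hv
      rw [pow_succ, Module.End.mul_apply]
      exact ih (by omega) _ (hP (m + 1) hm v hv)
  refine ⟨fun v hv => ?_, ?_⟩
  · rw [map_pow]
    exact hQ M le_rfl v hv
  have hR : ∀ j, j < M → (N ^ j) (s M) - s (M - j) ∈ U (M - j - 1) := by
    intro j
    induction j with
    | zero =>
      intro _
      simp
    | succ j ih =>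
      intro hj
      have h1 := ih (by omega)
      obtain ⟨m, hm⟩ : ∃ m, M - j = m + 1 := ⟨M - j - 1, by omega⟩
      rw [hm] at h1
      have hmM : m < M := by omega
      have h2 := hP m (by omega) _ h1
      have h3 := hN m hmM
      rw [← hNv] at h3
      have e4 : M - (j + 1) = m := by omega
      rw [e4, pow_succ', Module.End.mul_apply]
      have e5 : N ((N ^ j) (s M)) - s m =
          N ((N ^ j) (s M) - s (m + 1)) + (N (s (m + 1)) - s m) := by
        rw [map_sub]
        abel
      rw [e5]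
      exact Submodule.add_mem _ h2 h3
  have hG : ∀ m, m ≤ M → U m ≤ gen c (s M) ⊔ U 0 := by
    intro m
    induction m with
    | zero =>
      intro _
      exact le_sup_right
    | succ m ih =>
      intro hm v hv
      have hle := ih (by omega)
      obtain ⟨e, he⟩ := hstep m (by omega) v hv
      have h1 := hR (M - m - 1) (by omega)
      have e1 : M - (M - m - 1) = m + 1 := by omega
      rw [e1] at h1
      have e2 : m + 1 - 1 = m := by omega
      rw [e2] at h1
      have h2 : (N ^ (M - m - 1)) (s M) ∈ gen c (s M) := by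
        refine mem_gen.mpr ⟨(Polynomial.X - C y) ^ (M - m - 1), ?_⟩
        rw [map_pow]
      have h3 : s (m + 1) ∈ gen c (s M) ⊔ U 0 := by
        have := Submodule.sub_mem _ (Submodule.mem_sup_left h2) (hle h1)
        simpa using this
      have e3 : v = (v - e • s (m + 1)) + e • s (m + 1) := by abel
      rw [e3]
      exact Submodule.add_mem _ (hle he) (Submodule.smul_mem _ _ h3)
  exact hG M le_rfl

/-! ### The coordinate flag -/

section Flag

variable {k : ℕ} (B : Basis (Fin 2 ⊕ Fin (k + 1)) F V)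

/-- The flag: vanishing of the coordinates at and above `m`. -/
noncomputable def flg (m : ℕ) : Submodule F V :=
  ⨅ (i : Fin (k + 1)) (_ : m ≤ (i : ℕ)), LinearMap.ker (B.coord (Sum.inr i))

theorem mem_flg {m : ℕ} {v : V} :
    v ∈ flg B m ↔ ∀ i : Fin (k + 1), m ≤ (i : ℕ) → B.repr v (Sum.inr i) = 0 := by
  simp [flg, Submodule.mem_iInf, Module.Basis.coord_apply]

theorem flg_mono {i j : ℕ} (h : i ≤ j) : flg B i ≤ flg B j := by
  intro v hv
  rw [mem_flg] at hv ⊢
  exact fun t ht => hv t (h.trans ht)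

theorem flg_top : flg B (k + 1) = ⊤ := by
  rw [eq_top_iff]
  intro v _
  rw [mem_flg]
  intro i hi
  have := i.2
  omega

theorem inl_mem_flg (m : ℕ) (i : Fin 2) : B (Sum.inl i) ∈ flg B m := by
  rw [mem_flg]
  intro t _
  simp [Module.Basis.repr_self, Finsupp.single_apply]

/-- Elements of the bottom of the flag. -/
theorem flg_zero_eq {v : V} (hv : v ∈ flg B 0) :
    v = B.repr v (Sum.inl 0) • B (Sum.inl 0) + B.repr v (Sum.inl 1) • B (Sum.inl 1) := by
  rw [mem_flg] at hv
  conv_lhs => rw [← B.sum_repr v]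
  rw [Fintype.sum_sum_type, Fin.sum_univ_two]
  have : ∑ x : Fin (k + 1), B.repr v (Sum.inr x) • B (Sum.inr x) = 0 :=
    Finset.sum_eq_zero fun i _ => by rw [hv i (Nat.zero_le _), zero_smul]
  rw [this, add_zero]

variable (s : ℕ → V) (hs0 : s 0 = 0) (hs : ∀ j : Fin (k + 1), B (Sum.inr j) = s (j + 1))

include hs

theorem repr_s_succ (j : ℕ) (hj : j < k + 1) (i : Fin 2 ⊕ Fin (k + 1)) :
    B.repr (s (j + 1)) i = if i = Sum.inr ⟨j, hj⟩ then 1 else 0 := by
  have := hs ⟨j, hj⟩
  simp only at this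
  rw [← this, Module.Basis.repr_self, Finsupp.single_apply]
  simp [eq_comm]

theorem s_mem_flg (m : ℕ) (hm : m < k + 1) : s (m + 1) ∈ flg B (m + 1) := by
  rw [mem_flg]
  intro i hi
  rw [repr_s_succ B s hs m hm]
  rw [if_neg]
  intro h
  have h2 := Sum.inr.inj h
  have := congrArg Fin.val h2
  simp at this
  omega

theorem flg_step (m : ℕ) (hm : m < k + 1) {v : V} (hv : v ∈ flg B (m + 1)) :
    v - B.repr v (Sum.inr ⟨m, hm⟩) • s (m + 1) ∈ flg B m := by
  rw [mem_flg] at hv ⊢
  intro i hi
  rw [map_sub, map_smul, Finsupp.sub_apply, Finsupp.smul_apply, repr_s_succ B s hs m hm]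
  by_cases h : (i : ℕ) = m
  · have hi' : i = ⟨m, hm⟩ := Fin.ext h
    subst hi'
    simp
  · have h3 := hv i (by omega)
    rw [h3, if_neg]
    · simp
    · intro h4
      have h5 := Sum.inr.inj h4
      exact h (congrArg Fin.val h5)

end Flag

/-! ### The shape of `c₀` -/

/-- The prescribed values of `c₀`. -/
def Shape {k : ℕ} (B : Basis (Fin 2 ⊕ Fin (k + 1)) F V) (s : ℕ → V) (j₀ : ℕ) (τ δ y u : F)
    (c₀ : V →ₗ[F] V) : Prop :=
  c₀ (B (Sum.inl 0)) = (τ - 1) • B (Sum.inl 0) + B (Sum.inl 1) ∧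
  c₀ (B (Sum.inl 1)) = (τ - 1 - δ) • B (Sum.inl 0) + B (Sum.inl 1) ∧
  (∀ j, j < k → c₀ (s (j + 1)) =
    y • s (j + 1) + s j + (if j = j₀ then u • B (Sum.inl 1) else 0)) ∧
  c₀ (s (k + 1)) = 0

theorem exists_shape {k : ℕ} (B : Basis (Fin 2 ⊕ Fin (k + 1)) F V) (s : ℕ → V)
    (hs : ∀ j : Fin (k + 1), B (Sum.inr j) = s (j + 1)) (j₀ : ℕ) (τ δ y u : F) :
    ∃ c₀, Shape B s j₀ τ δ y u c₀ := by
  classical
  let vals : Fin 2 ⊕ Fin (k + 1) → V := Sum.elim
    (fun i => if i = 0 then (τ - 1) • B (Sum.inl 0) + B (Sum.inl 1)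
      else (τ - 1 - δ) • B (Sum.inl 0) + B (Sum.inl 1))
    (fun j => if (j : ℕ) < k then
      y • s (j + 1) + s j + (if (j : ℕ) = j₀ then u • B (Sum.inl 1) else 0) else 0)
  refine ⟨B.constr F vals, ?_, ?_, ?_, ?_⟩
  · rw [Module.Basis.constr_basis]
    simp [vals]
  · rw [Module.Basis.constr_basis]
    simp [vals]
  · intro j hj
    have := hs ⟨j, by omega⟩
    simp only at this
    rw [← this, Module.Basis.constr_basis]
    simp [vals, hj]
    rw [this]
  · have := hs (Fin.last k)
    simp only [Fin.val_last] at this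
    rw [← this, Module.Basis.constr_basis]
    simp [vals]

section ShapeFacts

variable {k : ℕ} {B : Basis (Fin 2 ⊕ Fin (k + 1)) F V} {s : ℕ → V} {j₀ : ℕ} {τ δ y u : F}
  {c₀ : V →ₗ[F] V} (x : V)

/-- The functional. -/
noncomputable abbrev ell (B : Basis (Fin 2 ⊕ Fin (k + 1)) F V) : V →ₗ[F] F :=
  B.coord (Sum.inr (Fin.last k))

theorem ell_apply (v : V) : ell B v = B.repr v (Sum.inr (Fin.last k)) := rfl

theorem ell_inl (i : Fin 2) : ell B (B (Sum.inl i)) = 0 := by
  simp [ell_apply, Module.Basis.repr_self, Finsupp.single_apply]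

theorem mem_flg_iff_ell {v : V} : v ∈ flg B k ↔ ell B v = 0 := by
  rw [mem_flg]
  constructor
  · intro h
    exact h _ (by simp)
  · intro h i hi
    have : i = Fin.last k := Fin.ext (by have := i.2; simp; omega)
    rw [this]
    exact h

/-- The perturbed map. -/
noncomputable abbrev pert (c₀ : V →ₗ[F] V) (B : Basis (Fin 2 ⊕ Fin (k + 1)) F V) (x : V) :
    V →ₗ[F] V := c₀ + (ell B).smulRight x

theorem pert_apply (v : V) : pert c₀ B x v = c₀ v + ell B v • x := by
  simp [pert]

variable (hs0 : s 0 = 0) (hs : ∀ j : Fin (k + 1), B (Sum.inr j) = s (j + 1))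
  (hS : Shape B s j₀ τ δ y u c₀)

include hs in
theorem ell_s_of_lt (j : ℕ) (hj : j < k) : ell B (s (j + 1)) = 0 := by
  rw [ell_apply, repr_s_succ B s hs j (by omega), if_neg]
  intro h
  have h2 := congrArg Fin.val (Sum.inr.inj h)
  simp at h2
  omega

include hs in
theorem ell_s_last : ell B (s (k + 1)) = 1 := by
  rw [ell_apply, repr_s_succ B s hs k (by omega), if_pos]
  congr 1

include hS hs0 hs in
theorem ell_comp_pert (v : V) : ell B (pert c₀ B x v) = ell B x * ell B v := by
  obtain ⟨h1, h2, h3, h4⟩ := hS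
  have e : ell B ∘ₗ pert c₀ B x = ell B x • ell B := by
    refine B.ext fun i => ?_
    rcases i with i | j
    · rw [LinearMap.comp_apply, pert_apply, ell_inl, zero_smul, add_zero, LinearMap.smul_apply,
        ell_inl, smul_zero]
      fin_cases i
      · show ell B (c₀ (B (Sum.inl 0))) = 0
        rw [h1, map_add, map_smul, ell_inl, ell_inl]
        simp
      · show ell B (c₀ (B (Sum.inl 1))) = 0
        rw [h2, map_add, map_smul, ell_inl, ell_inl]
        simp
    · rw [LinearMap.comp_apply, LinearMap.smul_apply, hs j]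
      by_cases hj : (j : ℕ) < k
      · rw [pert_apply, ell_s_of_lt hs _ hj, zero_smul, add_zero, h3 _ hj, smul_zero]
        rw [map_add, map_add, map_smul, ell_s_of_lt hs _ hj, smul_zero, zero_add]
        have e1 : ell B (s (j : ℕ)) = 0 := by
          cases hjj : (j : ℕ) with
          | zero => rw [hs0, map_zero]
          | succ j' => exact ell_s_of_lt hs _ (by omega)
        rw [e1, zero_add]
        split_ifs
        · rw [map_smul, ell_inl, smul_zero]
        · rw [map_zero]
      · have hjk : (j : ℕ) = k := by have := j.2; omega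
        rw [hjk, pert_apply, ell_s_last hs, h4, zero_add, one_smul, smul_eq_mul, mul_one]
  have := LinearMap.congr_fun e v
  simpa using this

include hS hs in
theorem pert_s (j : ℕ) (hj : j < k) : pert c₀ B x (s (j + 1)) =
    y • s (j + 1) + s j + (if j = j₀ then u • B (Sum.inl 1) else 0) := by
  rw [pert_apply, ell_s_of_lt hs _ hj, zero_smul, add_zero]
  exact hS.2.2.1 j hj

include hS hs in
theorem pert_s_last : pert c₀ B x (s (k + 1)) = x := by
  rw [pert_apply, ell_s_last hs, hS.2.2.2, zero_add, one_smul]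

include hS in
theorem pert_p : pert c₀ B x (B (Sum.inl 0)) = (τ - 1) • B (Sum.inl 0) + B (Sum.inl 1) := by
  rw [pert_apply, ell_inl, zero_smul, add_zero]
  exact hS.1

include hS in
theorem pert_q : pert c₀ B x (B (Sum.inl 1)) = (τ - 1 - δ) • B (Sum.inl 0) + B (Sum.inl 1) := by
  rw [pert_apply, ell_inl, zero_smul, add_zero]
  exact hS.2.1

include hS in
theorem pert_flg0 {v : V} (hv : v ∈ flg B 0) : pert c₀ B x v ∈ flg B 0 := by
  rw [flg_zero_eq B hv, map_add, map_smul, map_smul, pert_p x hS, pert_q x hS]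
  have hp := inl_mem_flg B 0 0
  have hq := inl_mem_flg B 0 1
  exact Submodule.add_mem _ (Submodule.smul_mem _ _ (Submodule.add_mem _
    (Submodule.smul_mem _ _ hp) hq)) (Submodule.smul_mem _ _ (Submodule.add_mem _
    (Submodule.smul_mem _ _ hp) hq))

/-- The quadratic polynomial of the `2 × 2` block. -/
noncomputable def chiP (τ δ : F) : F[X] := Polynomial.X ^ 2 - C τ * Polynomial.X + C δ

theorem chiP_monic (τ δ : F) : (chiP τ δ).Monic := by
  have : chiP τ δ = Polynomial.X ^ 2 + (-(C τ) * Polynomial.X + C δ) := by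
    unfold chiP; ring
  rw [this]
  refine Polynomial.monic_X_pow_add ?_
  have h1 : (-(C τ) * Polynomial.X + C δ : F[X]).degree ≤ 1 := by
    rw [← C_neg]
    exact Polynomial.degree_linear_le
  exact lt_of_le_of_lt h1 (by norm_num)

theorem chiP_natDegree (τ δ : F) : (chiP τ δ).natDegree = 2 := by
  have : chiP τ δ = C 1 * Polynomial.X ^ 2 + C (-τ) * Polynomial.X + C δ := by
    unfold chiP; simp; ring
  rw [this]
  exact Polynomial.natDegree_quadratic one_ne_zero

theorem chiP_eval (τ δ r : F) : (chiP τ δ).eval r = r ^ 2 - τ * r + δ := by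
  simp [chiP]

theorem aeval_chiP_apply (c : V →ₗ[F] V) (τ δ : F) (v : V) :
    aeval c (chiP τ δ) v = c (c v) - τ • c v + δ • v := by
  simp [chiP, sq, Module.algebraMap_end_apply, Algebra.algebraMap_eq_smul_one]

include hS in
theorem chiP_flg0 {v : V} (hv : v ∈ flg B 0) : aeval (pert c₀ B x) (chiP τ δ) v = 0 := by
  have hp : aeval (pert c₀ B x) (chiP τ δ) (B (Sum.inl 0)) = 0 := by
    rw [aeval_chiP_apply, pert_p x hS, map_add, map_smul, pert_p x hS, pert_q x hS]
    module
  have hq : aeval (pert c₀ B x) (chiP τ δ) (B (Sum.inl 1)) = 0 := by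
    rw [aeval_chiP_apply, pert_q x hS, map_add, map_smul, pert_p x hS, pert_q x hS]
    module
  rw [flg_zero_eq B hv, map_add, map_smul, map_smul, hp, hq]
  simp

include hS in
/-- `p` generates the bottom of the flag. -/
theorem gen_p : gen (pert c₀ B x) (B (Sum.inl 0)) = flg B 0 := by
  apply le_antisymm
  · exact gen_le (fun _ hu => pert_flg0 x hS hu) (inl_mem_flg B 0 0)
  · intro v hv
    rw [flg_zero_eq B hv]
    have hp := self_mem_gen (pert c₀ B x) (B (Sum.inl 0))
    have hq : B (Sum.inl 1) ∈ gen (pert c₀ B x) (B (Sum.inl 0)) := by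
      have h1 := map_mem_gen hp
      rw [pert_p x hS] at h1
      have h2 := Submodule.sub_mem _ h1 (Submodule.smul_mem _ (τ - 1) hp)
      simpa using h2
    exact Submodule.add_mem _ (Submodule.smul_mem _ _ hp) (Submodule.smul_mem _ _ hq)

end ShapeFacts

end Cfsg.Agent.Lib.SLComm
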