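import Cfsg.Agent.Lib.SLComm.Forms

/-!
# Frames: determinant, cyclicity and the chain step
-/

set_option autoImplicit false

namespace Cfsg.Agent.Lib.SLComm

open Module Polynomial

universe u

variable {F : Type u} [Field F] {V : Type u} [AddCommGroup V] [Module F V]

section ShapeFacts

variable {k : ℕ} {B : Basis (Fin 2 ⊕ Fin (k + 1)) F V} {s : ℕ → V} {j₀ : ℕ} {τ δ y u : F}
  {c₀ : V →ₗ[F] V} (x : V)

variable (hs0 : s 0 = 0) (hs : ∀ j : Fin (k + 1), B (Sum.inr j) = s (j + 1))
  (hS : Shape B s j₀ τ δ y u c₀)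

include hs0 hs in
theorem s_mem_self (j : ℕ) (hj : j ≤ k + 1) : s j ∈ flg B j := by
  cases j with
  | zero => rw [hs0]; exact Submodule.zero_mem _
  | succ j => exact s_mem_flg B s hs j (by omega)

include hs0 hs hS in
theorem pert_s_repr (i : Fin (k + 1)) (j : ℕ) (hj : j < k) (hji : j ≤ i) :
    B.repr (pert c₀ B x (s (j + 1))) (Sum.inr i) = y * B.repr (s (j + 1)) (Sum.inr i) := by
  rw [pert_s x hs hS j hj]
  have h1 : B.repr (s j) (Sum.inr i) = 0 :=
    (mem_flg B).mp (s_mem_self hs0 hs j (by omega)) i hji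
  have h2 : B.repr (if j = j₀ then u • B (Sum.inl 1) else 0) (Sum.inr i) = 0 := by
    split_ifs
    · simp [Module.Basis.repr_self]
    · simp
  rw [map_add, map_add, map_smul, Finsupp.add_apply, Finsupp.add_apply, Finsupp.smul_apply, h1, h2]
  simp

include hs0 hs hS in
/-- The determinant of the perturbed map. -/
theorem det_pert : (pert c₀ B x).det = δ * y ^ k * ell B x := by
  classical
  set c := pert c₀ B x with hc
  rw [← LinearMap.det_toMatrix B c]
  set M := LinearMap.toMatrix B B c with hM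
  have hMa : ∀ i j, M i j = B.repr (c (B j)) i := fun i j => LinearMap.toMatrix_apply _ _ _ _ _
  have h21 : M.toBlocks₂₁ = 0 := by
    ext i j
    simp only [Matrix.toBlocks₂₁, Matrix.of_apply, Matrix.zero_apply, hMa]
    fin_cases j
    · show B.repr (c (B (Sum.inl 0))) (Sum.inr i) = 0
      rw [hc, pert_p x hS]
      simp [Module.Basis.repr_self]
    · show B.repr (c (B (Sum.inl 1))) (Sum.inr i) = 0
      rw [hc, pert_q x hS]
      simp [Module.Basis.repr_self]
  have hdet : M.det = M.toBlocks₁₁.det * M.toBlocks₂₂.det := by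
    conv_lhs => rw [← Matrix.fromBlocks_toBlocks M, h21]
    exact Matrix.det_fromBlocks_zero₂₁ _ _ _
  have h11 : M.toBlocks₁₁.det = δ := by
    rw [Matrix.det_fin_two]
    simp only [Matrix.toBlocks₁₁, Matrix.of_apply, hMa]
    rw [hc, pert_p x hS, pert_q x hS]
    simp [Module.Basis.repr_self]
  have h22 : M.toBlocks₂₂.det = y ^ k * ell B x := by
    have htri : M.toBlocks₂₂.BlockTriangular id := by
      intro i j hij
      simp only [id, Matrix.toBlocks₂₂, Matrix.of_apply, hMa] at hij ⊢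
      have hji : (j : ℕ) < i := hij
      have hj : (j : ℕ) < k := by have := i.2; omega
      rw [hs j, pert_s_repr x hs0 hs hS i j hj hji.le, repr_s_succ B s hs j (by omega), if_neg]
      · simp
      · intro h
        have h2 := congrArg Fin.val (Sum.inr.inj h)
        simp at h2
        omega
    rw [Matrix.det_of_isUpperTriangular htri, Fin.prod_univ_castSucc]
    congr 1
    · have : ∀ i : Fin k, M.toBlocks₂₂ i.castSucc i.castSucc = y := by
        intro i
        simp only [Matrix.toBlocks₂₂, Matrix.of_apply, hMa]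
        rw [hs i.castSucc]
        simp only [Fin.val_castSucc]
        rw [pert_s_repr x hs0 hs hS _ i i.2 (by simp), repr_s_succ B s hs i (by omega), if_pos]
        · simp
        · rfl
      simp [this]
    · simp only [Matrix.toBlocks₂₂, Matrix.of_apply, hMa]
      rw [hs (Fin.last k)]
      simp only [Fin.val_last]
      rw [pert_s_last x hs hS]
      rfl
  rw [hdet, h11, h22]
  ring

include hs0 hs hS in
/-- `ker ℓ` is invariant. -/
theorem pert_flg_k {v : V} (hv : v ∈ flg B k) : pert c₀ B x v ∈ flg B k := by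
  rw [mem_flg_iff_ell] at hv ⊢
  rw [ell_comp_pert x hs0 hs hS, hv, mul_zero]

include hs0 hs hS in
/-- The flag facts for `c`. -/
theorem pert_flag [FiniteDimensional F V] (hχ : (chiP τ δ).eval y ≠ 0) :
    (∃ w, gen (pert c₀ B x) w = flg B k) ∧
      ∀ v ∈ flg B k, aeval (pert c₀ B x) (chiP τ δ * (Polynomial.X - C y) ^ k) v = 0 := by
  set c := pert c₀ B x with hc
  have hfl := flag_lemma (c := c) y (flg B) s k (fun m => flg_mono B (Nat.le_succ m)) hs0
    (fun m hm => s_mem_flg B s hs m (by omega))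
    (fun m hm v hv => ⟨_, flg_step B s hs m (by omega) hv⟩)
    (fun v hv => Submodule.sub_mem _ (pert_flg0 x hS hv) (Submodule.smul_mem _ _ hv))
    (fun m hm => by
      rw [hc, pert_s x hs hS m hm]
      have e : y • s (m + 1) + s m + (if m = j₀ then u • B (Sum.inl 1) else 0) - y • s (m + 1) - s m
          = (if m = j₀ then u • B (Sum.inl 1) else 0) := by abel
      rw [e]
      split_ifs
      · exact Submodule.smul_mem _ _ (inl_mem_flg B _ _)
      · exact Submodule.zero_mem _)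
  have hcop : IsCoprime ((Polynomial.X - C y) ^ k) (chiP τ δ) :=
    IsCoprime.pow_left (isCoprime_X_sub_C_of_eval hχ)
  constructor
  · refine cyc_ext c (flg B 0) (flg B k) (fun w hw => pert_flg0 x hS hw) (B (Sum.inl 0)) (s k)
      (gen_p x hS) ?_ ((Polynomial.X - C y) ^ k) hfl.1
      (fun w hw h => eq_zero_of_coprime hcop h (chiP_flg0 x hS hw))
    apply le_antisymm
    · refine sup_le ?_ (flg_mono B (Nat.zero_le k))
      exact gen_le (fun u hu => pert_flg_k x hs0 hs hS hu) (s_mem_self hs0 hs k (by omega))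
    · exact hfl.2
  · intro v hv
    rw [map_mul, Module.End.mul_apply]
    exact chiP_flg0 x hS (hfl.1 v hv)

include hs0 hs hS in
/-- Cyclicity of `c` from the flag. -/
theorem pert_isCyc [FiniteDimensional F V] (g : F[X]) (hg : ∀ v ∈ flg B k, aeval (pert c₀ B x) g v = 0)
    (hw : ∃ w, gen (pert c₀ B x) w = flg B k) (hγ : g.eval (ell B x) ≠ 0) :
    IsCyc (pert c₀ B x) := by
  obtain ⟨w, hw⟩ := hw
  set c := pert c₀ B x with hc
  have h1 : ∀ v, aeval c (Polynomial.X - C (ell B x)) v ∈ flg B k := by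
    intro v
    rw [aeval_X_sub_C_apply, mem_flg_iff_ell, map_sub, map_smul, ell_comp_pert x hs0 hs hS]
    simp
  refine cyc_ext c (flg B k) ⊤ (fun w hw => pert_flg_k x hs0 hs hS hw) w (s (k + 1)) hw ?_
    (Polynomial.X - C (ell B x)) (fun u _ => h1 u)
    (fun w hw h => eq_zero_of_coprime (isCoprime_X_sub_C_of_eval hγ) h (hg w hw))
  rw [eq_top_iff]
  intro v _
  have h2 : v ∈ flg B (k + 1) := by rw [flg_top]; trivial
  have h3 := flg_step B s hs k (by omega) h2
  have e : v = (v - B.repr v (Sum.inr ⟨k, by omega⟩) • s (k + 1)) +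
      B.repr v (Sum.inr ⟨k, by omega⟩) • s (k + 1) := by abel
  rw [e]
  exact Submodule.add_mem _ (Submodule.mem_sup_right h3)
    (Submodule.smul_mem _ _ (Submodule.mem_sup_left (self_mem_gen _ _)))

include hs0 hs hS in
/-- The polynomial of `c`. -/
theorem pert_ann (g : F[X]) (hg : ∀ v ∈ flg B k, aeval (pert c₀ B x) g v = 0) :
    aeval (pert c₀ B x) ((Polynomial.X - C (ell B x)) * g) = 0 := by
  ext v
  rw [mul_comm, map_mul, Module.End.mul_apply]
  refine hg _ ?_
  rw [aeval_X_sub_C_apply, mem_flg_iff_ell, map_sub, map_smul, ell_comp_pert x hs0 hs hS]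
  simp

end ShapeFacts

/-! ### Models -/

theorem sim_sc_prod_blk {Y : Ob F} (hY : IsCyc Y.T) (α : F) (ft : F[X]) (hft : ft.Monic)
    (h0 : aeval Y.T ((Polynomial.X - C α) * ft) = 0) (hd : finrank F Y.V = ft.natDegree + 1)
    (hα : ft.eval α ≠ 0) : Sim Y ((sc α).prod (Blk ft hft)) := by
  have hm : ((Polynomial.X - C α) * ft).Monic := (monic_X_sub_C α).mul hft
  have hdeg : ((Polynomial.X - C α) * ft).natDegree = ft.natDegree + 1 := by
    rw [Monic.natDegree_mul (monic_X_sub_C α) hft, natDegree_X_sub_C, add_comm]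
  refine sim_of_cyc hY (cyc_sc_prod α (Blk ft hft) (blk_cyc ft hft) ft (blk_aeval_self ft hft) hα)
    _ hm (hdeg.trans hd.symm) ?_ h0 ?_
  · show _ = finrank F (F × (Blk ft hft).V)
    rw [Module.finrank_prod, blk_finrank, hdeg, finrank_self, add_comm]
  · refine LinearMap.ext fun x => ?_
    show aeval ((α • (LinearMap.id : F →ₗ[F] F)).prodMap (Blk ft hft).T) _ x = _
    rw [aeval_prodMap, aeval_smul_id, map_mul, blk_aeval_self, mul_zero]
    simp

theorem det_blk (ft : F[X]) (hft : ft.Monic) :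
    (Blk ft hft).T.det = (-1) ^ ft.natDegree * ft.coeff 0 :=
  det_eq_of_cyc (blk_cyc ft hft) ft hft (blk_finrank ft hft).symm (blk_aeval_self ft hft)

/-! ### Frames -/

/-- A frame for `a`: a basis `p, q, s 1, …, s (k + 1)` and the Hessenberg property. -/
structure Frm (a : V →ₗ[F] V) (k : ℕ) where
  B : Basis (Fin 2 ⊕ Fin (k + 1)) F V
  s : ℕ → V
  hs0 : s 0 = 0
  hs : ∀ j : Fin (k + 1), B (Sum.inr j) = s (j + 1)
  j₀ : ℕ
  haq : a (B (Sum.inl 1)) = s (j₀ + 1)
  chain : ∀ (τ δ y u : F) (c₀ : V →ₗ[F] V), δ ≠ 0 → y ≠ 0 → Shape B s j₀ τ δ y u c₀ →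
    ∃ O : ℕ → V, HessData a c₀ (ell B) O (k + 3)

theorem surj_of_det_ne_zero [FiniteDimensional F V] {a : V →ₗ[F] V} (h : a.det ≠ 0) :
    Function.Surjective a := by
  have hu : IsUnit a := (LinearMap.isUnit_iff_isUnit_det a).mpr (isUnit_iff_ne_zero.mpr h)
  exact ((Module.End.isUnit_iff a).mp hu).2

theorem step_of_frm [FiniteDimensional F V] {a : V →ₗ[F] V} {k : ℕ} (R : Frm a k)
    (hd : finrank F V = k + 3) (hdet : a.det ≠ 0) {α τ δ y : F} (hδ : δ ≠ 0)
    (hy : y ≠ 0) (hχ : ∀ r, (chiP τ δ).eval r ≠ 0) (hyα : k ≠ 0 → y ≠ α)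
    (hyβ : k ≠ 0 → y ≠ α * a.det) :
    Step (obOf a) (sc α) (sc (α * a.det)) (δ * y ^ k * α) := by
  classical
  obtain ⟨c₀, hS⟩ := exists_shape R.B R.s R.hs R.j₀ τ δ y 0
  obtain ⟨O, hO⟩ := R.chain τ δ y 0 c₀ hδ hy hS
  set β := α * a.det with hβ
  set ft : F[X] := chiP τ δ * (Polynomial.X - C y) ^ k with hft
  have hftm : ft.Monic := (chiP_monic _ _).mul ((monic_X_sub_C y).pow k)
  have hftd : ft.natDegree = k + 2 := by
    rw [hft, Monic.natDegree_mul (chiP_monic _ _) ((monic_X_sub_C y).pow k), chiP_natDegree,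
      Monic.natDegree_pow (monic_X_sub_C y), natDegree_X_sub_C]
    ring
  have hfm : ((Polynomial.X - C β) * ft).Monic := (monic_X_sub_C β).mul hftm
  have hfd : ((Polynomial.X - C β) * ft).natDegree = k + 3 := by
    rw [Monic.natDegree_mul (monic_X_sub_C β) hftm, natDegree_X_sub_C, hftd]
    ring
  obtain ⟨x, hcyc, hann⟩ := hess_lemma hO (by omega) (surj_of_det_ne_zero hdet) _ hfm hfd
  change IsCyc (a ∘ₗ pert c₀ R.B x) at hcyc
  change aeval (a ∘ₗ pert c₀ R.B x) _ = 0 at hann
  set c := pert c₀ R.B x with hc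
  have hev : ∀ r, k ≠ 0 → y ≠ r → ft.eval r ≠ 0 → True := fun _ _ _ _ => trivial
  have hevt : ∀ r, (k ≠ 0 → y ≠ r) → ft.eval r ≠ 0 := by
    intro r hr
    rw [hft, eval_mul, eval_pow, eval_sub, eval_X, eval_C]
    refine mul_ne_zero (hχ r) ?_
    by_cases hk : k = 0
    · simp [hk]
    · exact pow_ne_zero _ (sub_ne_zero.mpr (Ne.symm (hr hk)))
  -- the determinant of `H`
  have hsimH : Sim (obOf (a ∘ₗ c)) ((sc β).prod (Blk ft hftm)) :=
    sim_sc_prod_blk hcyc β ft hftm hann (by show finrank F V = _; omega) (hevt β hyβ)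
  have hdetft : (Blk ft hftm).T.det = δ * y ^ k := by
    rw [det_blk, hftd, Polynomial.coeff_zero_eq_eval_zero, hft, eval_mul, eval_pow, eval_sub,
      eval_X, eval_C, chiP_eval, zero_sub, neg_pow y k]
    have e : (-1 : F) ^ (k + 2) * (-1) ^ k = 1 := by
      rw [← pow_add]
      exact Even.neg_one_pow ⟨k + 1, by ring⟩
    calc (-1 : F) ^ (k + 2) * ((0 ^ 2 - τ * 0 + δ) * ((-1) ^ k * y ^ k))
        = ((-1 : F) ^ (k + 2) * (-1) ^ k) * (δ * y ^ k) := by ring
      _ = δ * y ^ k := by rw [e]; ring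
  have h1 : (a ∘ₗ c).det = β * (δ * y ^ k) := by
    have := hsimH.det_eq
    rw [Ob.prod_det, sc_det, hdetft] at this
    exact this
  have h2 : (a ∘ₗ c).det = a.det * (δ * y ^ k * ell R.B x) := by
    rw [LinearMap.det_comp, hc, det_pert x R.hs0 R.hs hS]
  have hγ : ell R.B x = α := by
    have h3 : a.det * (δ * y ^ k) * ell R.B x = a.det * (δ * y ^ k) * α := by
      calc a.det * (δ * y ^ k) * ell R.B x = (a ∘ₗ c).det := by rw [h2]; ring
        _ = _ := by rw [h1, hβ]; ring
    have hne : a.det * (δ * y ^ k) ≠ 0 :=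
      mul_ne_zero hdet (mul_ne_zero hδ (pow_ne_zero _ hy))
    exact mul_left_cancel₀ hne h3
  have hfl := pert_flag x R.hs0 R.hs hS (hχ y)
  have hccyc : IsCyc c := pert_isCyc x R.hs0 R.hs hS ft hfl.2 hfl.1 (by rw [hγ]; exact hevt α hyα)
  have hcann : aeval c ((Polynomial.X - C α) * ft) = 0 := by
    have := pert_ann x R.hs0 R.hs hS ft hfl.2
    rwa [hγ] at this
  have hsimc : Sim (obOf c) ((sc α).prod (Blk ft hftm)) :=
    sim_sc_prod_blk hccyc α ft hftm hcann (by show finrank F V = _; omega) (hevt α hyα)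
  refine ⟨Blk ft hftm, c, hsimc, hsimH, ?_⟩
  rw [hc, det_pert x R.hs0 R.hs hS, hγ]

/-- Over a finite field there is a quadratic of prescribed constant term without roots. -/
theorem exists_chi [Finite F] (δ : F) (hδ : δ ≠ 0) : ∃ τ : F, ∀ r, (chiP τ δ).eval r ≠ 0 := by
  classical
  haveI := Fintype.ofFinite F
  let φ : {r : F // r ≠ 0} → F := fun r => r.1 + δ / r.1
  have hns : ¬ Function.Surjective φ := by
    intro hs
    have h1 := Fintype.card_le_of_surjective φ hs
    have h2 : Fintype.card {r : F // r ≠ 0} < Fintype.card F :=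
      Fintype.card_subtype_lt (x := (0 : F)) (by simp)
    omega
  simp only [Function.Surjective, not_forall, not_exists] at hns
  obtain ⟨τ, hτ⟩ := hns
  refine ⟨τ, fun r hr => ?_⟩
  rw [chiP_eval] at hr
  have hr0 : r ≠ 0 := by
    rintro rfl
    apply hδ
    simpa using hr
  apply hτ ⟨r, hr0⟩
  show r + δ / r = τ
  field_simp
  linear_combination hr

/-- A frame gives a free object as soon as a value of `y` is available. -/
theorem free_of_frm [Finite F] [FiniteDimensional F V] {a : V →ₗ[F] V} {k : ℕ} (R : Frm a k)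
    (hd : finrank F V = k + 3) (hdet : a.det ≠ 0)
    (hy : k ≠ 0 → ∀ α : F, α ≠ 0 → ∃ y : F, y ≠ 0 ∧ y ≠ α ∧ y ≠ α * a.det) :
    Free (obOf a) := by
  refine ⟨hdet, fun α D hα hD => ?_⟩
  obtain ⟨y, hy0, hyα, hyβ⟩ : ∃ y : F, y ≠ 0 ∧ (k ≠ 0 → y ≠ α) ∧ (k ≠ 0 → y ≠ α * a.det) := by
    by_cases hk : k = 0
    · exact ⟨1, one_ne_zero, fun h => absurd hk h, fun h => absurd hk h⟩
    · obtain ⟨y, h0, h1, h2⟩ := hy hk α hα
      exact ⟨y, h0, fun _ => h1, fun _ => h2⟩
  have hδ : D / (y ^ k * α) ≠ 0 := div_ne_zero hD (mul_ne_zero (pow_ne_zero _ hy0) hα)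
  obtain ⟨τ, hτ⟩ := exists_chi _ hδ
  have := step_of_frm R hd hdet hδ hy0 hτ hyα hyβ
  have e : D / (y ^ k * α) * y ^ k * α = D := by
    field_simp
  rwa [e] at this

end Cfsg.Agent.Lib.SLComm
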