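import Cfsg.Agent.Lib.SLComm.Forms2

/-!
# Frames: the move over the field with two elements
-/

set_option autoImplicit false

namespace Cfsg.Agent.Lib.SLComm

open Module Polynomial

universe u

variable {F : Type u} [Field F] {V : Type u} [AddCommGroup V] [Module F V]

theorem trace_eq_neg_coeff [FiniteDimensional F V] {k : ℕ} (B : Basis (Fin 2 ⊕ Fin (k + 1)) F V) (H : V →ₗ[F] V) :
    LinearMap.trace F V H = - H.charpoly.coeff (k + 2) := by
  classical
  rw [LinearMap.trace_eq_matrix_trace F B H, Matrix.trace_eq_neg_charpoly_coeff,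
    LinearMap.charpoly_toMatrix]
  have e : Fintype.card (Fin 2 ⊕ Fin (k + 1)) - 1 = k + 2 := by
    simp
    omega
  rw [e]

/-- The key move for the field with two elements. -/
theorem commP_move [FiniteDimensional F V] {a : V →ₗ[F] V} {k : ℕ} (R : Frm a (k + 1))
    (hd : finrank F V = k + 4) (hdet : a.det ≠ 0) (hF : ∀ v : F, v ≠ 0 → v = 1)
    (hj₀ : R.j₀ < k + 1) (A : F)
    (hA : ∀ v, ell R.B (a v) = R.B.repr v (Sum.inr ⟨k, by omega⟩) + A * ell R.B v) :
    CommP (obOf a) := by
  classical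
  have hχ : ∀ r, (chiP (1 : F) 1).eval r ≠ 0 := by
    intro r
    rw [chiP_eval]
    by_cases hr : r = 0
    · simp [hr]
    · rw [hF r hr]
      simp
  set μ : F[X] := (Polynomial.X - C 1) ^ (k + 2) with hμ
  have hμm : μ.Monic := (monic_X_sub_C 1).pow _
  set f : F[X] := chiP 1 1 * μ with hf
  have hfm : f.Monic := (chiP_monic _ _).mul hμm
  have hfd : f.natDegree = k + 4 := by
    rw [hf, Monic.natDegree_mul (chiP_monic _ _) hμm, chiP_natDegree,
      hμ, Monic.natDegree_pow (monic_X_sub_C 1), natDegree_X_sub_C]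
    ring
  obtain ⟨c₀₀, hS₀⟩ := exists_shape R.B R.s R.hs R.j₀ (1 : F) 1 1 0
  set i₀ : Fin (k + 1 + 1) := ⟨R.j₀, by omega⟩ with hi₀
  set E : V →ₗ[F] V := (R.B.coord (Sum.inr i₀)).smulRight (R.B (Sum.inl 1)) with hE
  have hcoord_s : ∀ (j : ℕ) (hj : j < k + 1 + 1), R.B.coord (Sum.inr i₀) (R.s (j + 1)) =
      if j = R.j₀ then 1 else 0 := by
    intro j hj
    rw [Module.Basis.coord_apply, repr_s_succ R.B R.s R.hs j hj]
    simp only [Sum.inr.injEq, Fin.ext_iff, hi₀, eq_comm]
  have hE_tr : LinearMap.trace F V (a ∘ₗ E) = 1 := by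
    have e : a ∘ₗ E = (R.B.coord (Sum.inr i₀)).smulRight (a (R.B (Sum.inl 1))) := by
      ext v
      simp [hE]
    rw [e, LinearMap.trace_smulRight, R.haq, hcoord_s _ (by omega), if_pos rfl]
  set u : F := - f.coeff (k + 3) - LinearMap.trace F V (a ∘ₗ c₀₀) - A - 1 with hu
  set c₀ : V →ₗ[F] V := c₀₀ + u • E with hc₀
  have hEinl : ∀ i, E (R.B (Sum.inl i)) = 0 := by
    intro i
    simp [hE, Module.Basis.repr_self]
  have hS : Shape R.B R.s R.j₀ (1 : F) 1 1 u c₀ := by
    obtain ⟨h1, h2, h3, h4⟩ := hS₀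
    refine ⟨?_, ?_, ?_, ?_⟩
    · simp only [hc₀, LinearMap.add_apply, LinearMap.smul_apply, hEinl, smul_zero, add_zero, h1]
    · simp only [hc₀, LinearMap.add_apply, LinearMap.smul_apply, hEinl, smul_zero, add_zero, h2]
    · intro j hj
      have hE1 : E (R.s (j + 1)) = (if j = R.j₀ then 1 else 0 : F) • R.B (Sum.inl 1) := by
        rw [hE, LinearMap.smulRight_apply, hcoord_s j (by omega)]
      simp only [hc₀, LinearMap.add_apply, LinearMap.smul_apply, hE1, h3 j hj]
      split_ifs <;> simp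
    · have hE1 : E (R.s (k + 1 + 1)) = (if k + 1 = R.j₀ then 1 else 0 : F) • R.B (Sum.inl 1) := by
        rw [hE, LinearMap.smulRight_apply, hcoord_s (k + 1) (by omega)]
      rw [if_neg (by omega)] at hE1
      simp [hc₀, hE1, h4]
  obtain ⟨O, hO⟩ := R.chain 1 1 1 u c₀ one_ne_zero one_ne_zero hS
  obtain ⟨x, hcyc, hann⟩ := hess_lemma hO (by omega) (surj_of_det_ne_zero hdet) f hfm hfd
  change IsCyc (a ∘ₗ pert c₀ R.B x) at hcyc
  change aeval (a ∘ₗ pert c₀ R.B x) f = 0 at hann
  set c := pert c₀ R.B x with hc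
  -- the determinants
  have hdetc : c.det = ell R.B x := by
    rw [hc, det_pert x R.hs0 R.hs hS]
    simp
  have hdetH : (a ∘ₗ c).det = (-1) ^ f.natDegree * f.coeff 0 :=
    det_eq_of_cyc (X := obOf (a ∘ₗ c)) hcyc f hfm (by rw [hfd]; exact hd.symm) hann
  have hf0 : f.coeff 0 ≠ 0 := by
    rw [Polynomial.coeff_zero_eq_eval_zero, hf, eval_mul, hμ, eval_pow, eval_sub, eval_X, eval_C]
    refine mul_ne_zero (hχ 0) (pow_ne_zero _ ?_)
    simp
  have hγ : ell R.B x = 1 := by
    apply hF
    intro h0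
    rw [h0] at hdetc
    rw [LinearMap.det_comp, hdetc, mul_zero] at hdetH
    exact (mul_ne_zero (pow_ne_zero _ (neg_ne_zero.mpr one_ne_zero)) hf0) hdetH.symm
  -- the trace
  have hchar : (a ∘ₗ c).charpoly = f :=
    charpoly_eq_of_cyc (X := obOf (a ∘ₗ c)) hcyc f hfm (by rw [hfd]; exact hd.symm) hann
  have htr : LinearMap.trace F V (a ∘ₗ c) = - f.coeff (k + 3) := by
    have := trace_eq_neg_coeff R.B (a ∘ₗ c)
    rwa [hchar] at this
  have hdecomp : a ∘ₗ c = a ∘ₗ c₀₀ + u • (a ∘ₗ E) + (ell R.B).smulRight (a x) := by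
    ext v
    simp [hc, hc₀, pert]
  have hι : R.B.repr x (Sum.inr ⟨k, by omega⟩) = 1 := by
    rw [hdecomp, map_add, map_add, map_smul, hE_tr, LinearMap.trace_smulRight, hA x, hγ, smul_eq_mul,
      mul_one, mul_one, hu] at htr
    linear_combination htr
  -- the flag
  have hfl := flag_lemma (c := c) 1 (flg R.B) R.s (k + 2) (fun m => flg_mono R.B (Nat.le_succ m))
    R.hs0 (fun m hm => s_mem_flg R.B R.s R.hs m (by omega))
    (fun m hm v hv => ⟨_, flg_step R.B R.s R.hs m (by omega) hv⟩)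
    (fun v hv => Submodule.sub_mem _ (pert_flg0 x hS hv) (Submodule.smul_mem _ _ hv))
    (fun m hm => by
      by_cases hmk : m < k + 1
      · rw [hc, pert_s x R.hs hS m hmk]
        have e : (1 : F) • R.s (m + 1) + R.s m + (if m = R.j₀ then u • R.B (Sum.inl 1) else 0) -
            (1 : F) • R.s (m + 1) - R.s m = (if m = R.j₀ then u • R.B (Sum.inl 1) else 0) := by abel
        rw [e]
        split_ifs
        · exact Submodule.smul_mem _ _ (inl_mem_flg R.B _ _)
        · exact Submodule.zero_mem _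
      · have hm' : m = k + 1 := by omega
        subst hm'
        rw [hc, pert_s_last x R.hs hS]
        simp only [Nat.add_sub_cancel]
        rw [mem_flg]
        intro i hi
        rw [map_sub, map_sub, map_smul, Finsupp.sub_apply, Finsupp.sub_apply, Finsupp.smul_apply,
          repr_s_succ R.B R.s R.hs (k + 1) (by omega), repr_s_succ R.B R.s R.hs k (by omega)]
        by_cases hik : (i : ℕ) = k
        · have hkk : k < k + 1 + 1 := by omega
          have hi' : i = ⟨k, hkk⟩ := Fin.ext hik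
          rw [hi', hι, if_neg, if_pos rfl]
          · simp
          · intro h
            have h2 := congrArg Fin.val (Sum.inr.inj h)
            simp at h2
        · have hik' : (i : ℕ) = k + 1 := by have := i.2; omega
          have hi' : i = Fin.last (k + 1) := Fin.ext hik'
          have hx : R.B.repr x (Sum.inr (Fin.last (k + 1))) = 1 := hγ
          have h1 : (Sum.inr (Fin.last (k + 1)) : Fin 2 ⊕ Fin (k + 1 + 1)) = Sum.inr ⟨k + 1, hm⟩ := rfl
          rw [hi', hx, if_pos h1, if_neg]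
          · simp
          · intro h
            have h2 := congrArg Fin.val (Sum.inr.inj h)
            simp at h2)
  have hcop : IsCoprime μ (chiP (1 : F) 1) :=
    IsCoprime.pow_left (isCoprime_X_sub_C_of_eval (hχ 1))
  have htop : flg R.B (k + 2) = ⊤ := flg_top R.B
  have hμU : ∀ v, aeval c μ v ∈ flg R.B 0 := fun v => hfl.1 v (by rw [htop]; trivial)
  have hccyc : IsCyc c := by
    refine cyc_ext c (flg R.B 0) ⊤ (fun w hw => pert_flg0 x hS hw) (R.B (Sum.inl 0)) (R.s (k + 2))
      (gen_p x hS) ?_ μ (fun v _ => hμU v)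
      (fun w hw h => eq_zero_of_coprime hcop h (chiP_flg0 x hS hw))
    rw [eq_top_iff, ← htop]
    exact hfl.2
  have hcann : aeval c f = 0 := by
    ext v
    rw [hf, map_mul, Module.End.mul_apply]
    exact chiP_flg0 x hS (hμU v)
  have hsim : Sim (obOf c) (obOf (a ∘ₗ c)) :=
    sim_of_cyc hccyc hcyc f hfm (by rw [hfd]; exact hd.symm) (by rw [hfd]; exact hd.symm) hcann hann
  refine commP_of_sim_of_centSurj hsim (by rw [hdetc, hγ]) ?_
  intro v hv
  rw [hF v hv]
  exact ⟨LinearMap.id, by ext; rfl, LinearMap.det_id⟩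

end Cfsg.Agent.Lib.SLComm
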