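import Cfsg.Agent.Lib.SLComm.Cyc

/-!
# The Hessenberg lemma

If `a ∘ c₀` moves a sequence `O` in Hessenberg form, and `ℓ` only sees the last vector, then a rank
one perturbation `c₀ + ℓ ⊗ x` makes `a ∘ c` cyclic with any prescribed monic polynomial.
-/

set_option autoImplicit false

namespace Cfsg.Agent.Lib.SLComm

open Module Polynomial

universe u

variable {F : Type u} [Field F] {V : Type u} [AddCommGroup V] [Module F V]

/-- Hessenberg data. -/
structure HessData (a c₀ : V →ₗ[F] V) (ℓ : V →ₗ[F] F) (O : ℕ → V) (n : ℕ) : Prop where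
  seq : ∀ i, i + 1 < n → ∃ κ : F, κ ≠ 0 ∧
    a (c₀ (O i)) - κ • O (i + 1) ∈ Submodule.span F (O '' Set.Iic i)
  ell : ∀ j, j + 1 < n → ℓ (O j) = 0
  ell' : ℓ (O (n - 1)) ≠ 0
  span : Submodule.span F (O '' Set.Iio n) = ⊤

theorem hess_lemma [FiniteDimensional F V] {a c₀ : V →ₗ[F] V} {ℓ : V →ₗ[F] F} {O : ℕ → V} {n : ℕ}
    (h : HessData a c₀ ℓ O n) (hn : 0 < n) (ha : Function.Surjective a)
    (f : F[X]) (hf : f.Monic) (hd : f.natDegree = n) :
    ∃ x : V, IsCyc (a ∘ₗ (c₀ + ℓ.smulRight x)) ∧ aeval (a ∘ₗ (c₀ + ℓ.smulRight x)) f = 0 := by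
  classical
  set b₀ : V →ₗ[F] V := a ∘ₗ c₀ with hb₀
  let S : ℕ → Submodule F V := fun j => Submodule.span F (O '' Set.Iio j)
  let w : ℕ → V := fun j => (b₀ ^ j) (O 0)
  have hw0 : w 0 = O 0 := by simp [w]
  have hwS : ∀ j, w (j + 1) = b₀ (w j) := by
    intro j
    simp [w, pow_succ']
  have hOS : ∀ i j, i < j → O i ∈ S j := fun i j hij => Submodule.subset_span ⟨i, hij, rfl⟩
  have hSmono : ∀ i j, i ≤ j → S i ≤ S j := fun i j hij =>
    Submodule.span_mono (Set.image_mono (Set.Iio_subset_Iio hij))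
  have hIic : ∀ i, Submodule.span F (O '' Set.Iic i) = S (i + 1) := by
    intro i
    have : Set.Iic i = Set.Iio (i + 1) := by
      ext x
      simp [Nat.lt_succ_iff]
    rw [this]
  -- `b₀` moves the flag by one step
  have hb₀S : ∀ j, j < n → ∀ v ∈ S j, b₀ v ∈ S (j + 1) := by
    intro j hj v hv
    refine Submodule.span_induction (p := fun v _ => b₀ v ∈ S (j + 1)) ?_ ?_ ?_ ?_ hv
    · rintro _ ⟨i, hi, rfl⟩
      have hi' : i < j := hi
      obtain ⟨κ, -, hκ⟩ := h.seq i (by omega)
      rw [hIic] at hκ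
      have e : b₀ (O i) = (a (c₀ (O i)) - κ • O (i + 1)) + κ • O (i + 1) := by
        simp [hb₀]
      rw [e]
      refine Submodule.add_mem _ (hSmono _ _ (by omega) hκ) (Submodule.smul_mem _ _ (hOS _ _ ?_))
      omega
    · simp
    · intro x y _ _ hx hy
      rw [map_add]
      exact Submodule.add_mem _ hx hy
    · intro c x _ hx
      rw [map_smul]
      exact Submodule.smul_mem _ _ hx
  -- leading terms
  have hlead : ∀ j, j < n → ∃ κ : F, κ ≠ 0 ∧ w j - κ • O j ∈ S j := by
    intro j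
    induction j with
    | zero =>
      intro _
      refine ⟨1, one_ne_zero, ?_⟩
      simp [hw0]
    | succ j ih =>
      intro hj
      obtain ⟨κ, hκ, hmem⟩ := ih (by omega)
      obtain ⟨κ', hκ', hmem'⟩ := h.seq j hj
      refine ⟨κ * κ', mul_ne_zero hκ hκ', ?_⟩
      rw [hwS]
      have e : b₀ (w j) - (κ * κ') • O (j + 1) =
          b₀ (w j - κ • O j) + κ • (a (c₀ (O j)) - κ' • O (j + 1)) := by
        simp [hb₀, map_sub, map_smul, smul_sub, mul_smul]
      rw [e]
      refine Submodule.add_mem _ (hb₀S j (by omega) _ hmem) (Submodule.smul_mem _ _ ?_)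
      rwa [hIic] at hmem'
  -- `ℓ` vanishes on the flag
  have hℓS : ∀ j, j < n → ∀ v ∈ S j, ℓ v = 0 := by
    intro j hj v hv
    refine Submodule.span_induction (p := fun v _ => ℓ v = 0) ?_ ?_ ?_ ?_ hv
    · rintro _ ⟨i, hi, rfl⟩
      have hi' : i < j := hi
      exact h.ell i (by omega)
    · simp
    · intro x y _ _ hx hy
      rw [map_add, hx, hy, add_zero]
    · intro c x _ hx
      rw [map_smul, hx, smul_zero]
  have hℓw : ∀ j, j + 1 < n → ℓ (w j) = 0 := by
    intro j hj
    obtain ⟨κ, -, hmem⟩ := hlead j (by omega)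
    have h1 := hℓS j (by omega) _ hmem
    rw [map_sub, map_smul, h.ell j hj, smul_zero, sub_zero] at h1
    exact h1
  have hℓlast : ℓ (w (n - 1)) ≠ 0 := by
    obtain ⟨κ, hκ, hmem⟩ := hlead (n - 1) (by omega)
    have h1 := hℓS (n - 1) (by omega) _ hmem
    rw [map_sub, map_smul, sub_eq_zero] at h1
    rw [h1]
    exact smul_ne_zero hκ h.ell'
  -- the perturbation
  set y : V := (ℓ (w (n - 1)))⁻¹ •
    (-(∑ k ∈ Finset.range n, f.coeff k • w k) - b₀ (w (n - 1))) with hy
  obtain ⟨x, hx⟩ := ha y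
  refine ⟨x, ?_⟩
  set H : V →ₗ[F] V := a ∘ₗ (c₀ + ℓ.smulRight x) with hH
  have hHv : ∀ v, H v = b₀ v + ℓ v • y := by
    intro v
    simp [hH, hb₀, hx]
  have hHw : ∀ j, j < n → (H ^ j) (O 0) = w j := by
    intro j
    induction j with
    | zero =>
      intro _
      simp [hw0]
    | succ j ih =>
      intro hj
      rw [pow_succ', Module.End.mul_apply, ih (by omega), hHv, hℓw j hj, zero_smul, add_zero, hwS]
  have hwgen : ∀ j, j < n → w j ∈ gen H (O 0) := by
    intro j hj
    refine mem_gen.mpr ⟨Polynomial.X ^ j, ?_⟩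
    rw [map_pow, aeval_X, hHw j hj]
  have hOgen : ∀ j, j < n → O j ∈ gen H (O 0) := by
    intro j
    induction j using Nat.strong_induction_on with
    | _ j ih =>
      intro hj
      obtain ⟨κ, hκ, hmem⟩ := hlead j hj
      have hS : S j ≤ gen H (O 0) := by
        refine Submodule.span_le.mpr ?_
        rintro _ ⟨i, hi, rfl⟩
        have hi' : i < j := hi
        exact ih i hi' (by omega)
      have h1 := Submodule.sub_mem _ (hwgen j hj) (hS hmem)
      have e : w j - (w j - κ • O j) = κ • O j := by abel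
      rw [e] at h1
      have h2 := Submodule.smul_mem _ κ⁻¹ h1
      rwa [smul_smul, inv_mul_cancel₀ hκ, one_smul] at h2
  have hgen : gen H (O 0) = ⊤ := by
    rw [eq_top_iff, ← h.span]
    refine Submodule.span_le.mpr ?_
    rintro _ ⟨i, hi, rfl⟩
    exact hOgen i hi
  refine ⟨⟨O 0, hgen⟩, ?_⟩
  -- the annihilation
  have hf0 : aeval H f (O 0) = 0 := by
    have e := hf.as_sum
    rw [hd] at e
    have e2 : aeval H f = H ^ n + ∑ i ∈ Finset.range n, f.coeff i • H ^ i := by
      conv_lhs => rw [e]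
      simp [map_add, map_sum, aeval_C, smul_eq_C_mul, Algebra.smul_def]
    rw [e2, LinearMap.add_apply, LinearMap.sum_apply]
    have e3 : (H ^ n) (O 0) = H (w (n - 1)) := by
      rw [← hHw (n - 1) (by omega), ← Module.End.mul_apply, ← pow_succ']
      congr 2
      omega
    have e4 : ∑ i ∈ Finset.range n, (f.coeff i • H ^ i) (O 0) =
        ∑ i ∈ Finset.range n, f.coeff i • w i := by
      refine Finset.sum_congr rfl fun i hi => ?_
      rw [LinearMap.smul_apply, hHw i (Finset.mem_range.mp hi)]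
    rw [e3, e4, hHv, hy, smul_smul, mul_inv_cancel₀ hℓlast, one_smul]
    abel
  ext v
  have hv : v ∈ gen H (O 0) := by rw [hgen]; trivial
  obtain ⟨g, rfl⟩ := mem_gen.mp hv
  have hcomm : aeval H f * aeval H g = aeval H g * aeval H f := by
    rw [← map_mul, ← map_mul, mul_comm]
  have := LinearMap.congr_fun hcomm (O 0)
  simp only [Module.End.mul_apply, hf0, map_zero] at this
  simpa using this

end Cfsg.Agent.Lib.SLComm
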