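import Cfsg.Agent.Lib.SLComm.Forms2

/-!
# Frames for a single cyclic block
-/

set_option autoImplicit false

namespace Cfsg.Agent.Lib.SLComm

open Module Polynomial

universe u

variable {F : Type u} [Field F] {V : Type u} [AddCommGroup V] [Module F V]

/-- Cyclic data: `T e i = e (i + 1)`, a basis and the last relation. -/
structure CD (T : V →ₗ[F] V) (m : ℕ) where
  e : ℕ → V
  A : ℕ → F
  hT : ∀ i, T (e i) = e (i + 1)
  hm : e m = ∑ i ∈ Finset.range m, A i • e i
  hA : A 0 ≠ 0
  b : Basis (Fin m) F V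
  hb : ∀ i : Fin m, b i = e i

/-- The cyclic data of the model. -/
noncomputable def cdBlk (f : F[X]) (hf : f.Monic) (h0 : f.coeff 0 ≠ 0) :
    CD (Blk f hf).T f.natDegree where
  e := fun i => (AdjoinRoot.root f) ^ i
  A := fun i => - f.coeff i
  hT := fun i => by
    show AdjoinRoot.root f * (AdjoinRoot.root f) ^ i = _
    rw [pow_succ']
  hm := by
    have h1 : aeval (AdjoinRoot.root f) (Polynomial.X ^ f.natDegree +
        ∑ i ∈ Finset.range f.natDegree, C (f.coeff i) * Polynomial.X ^ i) = 0 := by
      rw [← hf.as_sum, AdjoinRoot.aeval_eq, AdjoinRoot.mk_self]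
    simp only [map_add, map_pow, aeval_X, map_sum, map_mul, aeval_C] at h1
    have h2 := eq_neg_of_add_eq_zero_left h1
    show AdjoinRoot.root f ^ f.natDegree = ∑ i ∈ Finset.range f.natDegree,
      (- f.coeff i) • (AdjoinRoot.root f ^ i : AdjoinRoot f)
    rw [h2, ← Finset.sum_neg_distrib]
    refine Finset.sum_congr rfl fun i _ => ?_
    rw [neg_smul, Algebra.smul_def]
  hA := neg_ne_zero.mpr h0
  b := (AdjoinRoot.powerBasis' hf).basis
  hb := fun i => (AdjoinRoot.powerBasis' hf).basis_eq_pow i

section Single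

variable [FiniteDimensional F V] {T : V →ₗ[F] V} {k : ℕ} (D : CD T (k + 3))

/-- The `s` vectors of a single block. -/
def CD.sS : ℕ → V
  | 0 => 0
  | j + 1 => D.e (j + 2)

/-- The `O` vectors of a single block. -/
def CD.oS : ℕ → V
  | 0 => D.e 0 - D.e 1
  | j + 1 => D.e (j + 1)

/-- The family. -/
def CD.famS : Fin 2 ⊕ Fin (k + 1) → V :=
  Sum.elim (fun i => D.e i) (fun j => D.e (j + 2))

theorem CD.finrank_eq {m : ℕ} (D : CD T m) : finrank F V = m := by
  simpa using Module.finrank_eq_card_basis D.b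

theorem CD.famS_span : ⊤ ≤ Submodule.span F (Set.range D.famS) := by
  rw [← D.b.span_eq]
  refine Submodule.span_le.mpr ?_
  rintro _ ⟨i, rfl⟩
  rw [D.hb]
  refine Submodule.subset_span ?_
  rcases i with ⟨i, hi⟩
  match i, hi with
  | 0, _ => exact ⟨Sum.inl 0, rfl⟩
  | 1, _ => exact ⟨Sum.inl 1, rfl⟩
  | j + 2, hj => exact ⟨Sum.inr ⟨j, by omega⟩, rfl⟩

/-- The basis of a single block. -/
noncomputable def CD.singleB : Basis (Fin 2 ⊕ Fin (k + 1)) F V :=
  basisOfTopLeSpanOfCardEqFinrank D.famS D.famS_span (by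
    rw [D.finrank_eq]
    simp
    omega)

theorem CD.singleB_apply (i : Fin 2 ⊕ Fin (k + 1)) : D.singleB i = D.famS i := by
  simp [CD.singleB]

theorem CD.singleB_p : D.singleB (Sum.inl 0) = D.e 0 := by
  rw [D.singleB_apply]
  rfl

theorem CD.singleB_q : D.singleB (Sum.inl 1) = D.e 1 := by
  rw [D.singleB_apply]
  rfl

theorem CD.singleB_r (j : Fin (k + 1)) : D.singleB (Sum.inr j) = D.sS (j + 1) := by
  rw [D.singleB_apply]
  rfl

theorem CD.hessSingle {τ δ y u : F} {c₀ : V →ₗ[F] V} (hδ : δ ≠ 0) (hy : y ≠ 0)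
    (hS : Shape D.singleB D.sS 0 τ δ y u c₀) :
    HessData T c₀ (ell D.singleB) D.oS (k + 3) := by
  have hS' := hS
  rw [Shape, D.singleB_p, D.singleB_q] at hS'
  obtain ⟨h1, h2, h3, h4⟩ := hS'
  have hs0 : D.sS 0 = 0 := rfl
  have hmem : ∀ i j, j ≤ i → D.oS j ∈ Submodule.span F (D.oS '' Set.Iic i) :=
    fun i j hj => Submodule.subset_span ⟨j, hj, rfl⟩
  refine ⟨?_, ?_, ?_, ?_⟩
  · intro i hi
    match i, hi with
    | 0, _ =>
      refine ⟨δ, hδ, ?_⟩
      have e : T (c₀ (D.oS 0)) - δ • D.oS (0 + 1) = 0 := by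
        show T (c₀ (D.e 0 - D.e 1)) - δ • D.e 1 = 0
        rw [map_sub, h1, h2, map_sub, map_add, map_add, map_smul, map_smul, D.hT, D.hT]
        module
      rw [e]
      exact Submodule.zero_mem _
    | 1, _ =>
      refine ⟨1, one_ne_zero, ?_⟩
      have e : T (c₀ (D.oS 1)) - (1 : F) • D.oS (1 + 1) = (τ - 1 - δ) • D.oS 1 := by
        show T (c₀ (D.e 1)) - (1 : F) • D.e 2 = (τ - 1 - δ) • D.e 1
        rw [h2, map_add, map_smul, D.hT, D.hT]
        module
      rw [e]
      exact Submodule.smul_mem _ _ (hmem _ _ le_rfl)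
    | j + 2, hj =>
      have hjk : j < k := by omega
      refine ⟨y, hy, ?_⟩
      have e : T (c₀ (D.oS (j + 2))) - y • D.oS (j + 2 + 1) =
          T (D.sS j) + (if j = 0 then u • D.e 2 else 0) := by
        show T (c₀ (D.e (j + 2))) - y • D.e (j + 3) = _
        have := h3 j hjk
        change c₀ (D.e (j + 2)) = y • D.e (j + 2) + D.sS j + (if j = 0 then u • D.e 1 else 0) at this
        rw [this, map_add, map_add, map_smul, D.hT]
        split_ifs
        · rw [map_smul, D.hT]
          abel
        · rw [map_zero]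
          abel
      rw [e]
      cases j with
      | zero =>
        simp only [hs0, map_zero, zero_add, if_true]
        exact Submodule.smul_mem _ _ (hmem _ 2 le_rfl)
      | succ j =>
        have e2 : T (D.sS (j + 1)) = D.oS (j + 1 + 2) := by
          show T (D.e (j + 2)) = D.e (j + 3)
          rw [D.hT]
        simp only [e2, Nat.succ_ne_zero, if_false, add_zero]
        exact hmem _ _ le_rfl
  · intro j hj
    match j, hj with
    | 0, _ =>
      show ell D.singleB (D.e 0 - D.e 1) = 0
      rw [← D.singleB_p, ← D.singleB_q, map_sub, ell_inl, ell_inl, sub_zero]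
    | 1, _ =>
      show ell D.singleB (D.e 1) = 0
      rw [← D.singleB_q, ell_inl]
    | j + 2, hj =>
      exact ell_s_of_lt D.singleB_r j (by omega)
  · show ell D.singleB (D.sS (k + 1)) ≠ 0
    rw [ell_s_last D.singleB_r]
    exact one_ne_zero
  · rw [eq_top_iff, ← D.b.span_eq]
    refine Submodule.span_le.mpr ?_
    rintro _ ⟨i, rfl⟩
    rw [D.hb]
    rcases i with ⟨i, hi⟩
    have hO : ∀ j, j < k + 3 → D.oS j ∈ Submodule.span F (D.oS '' Set.Iio (k + 3)) :=
      fun j hj => Submodule.subset_span ⟨j, hj, rfl⟩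
    match i, hi with
    | 0, _ =>
      have e : D.e 0 = D.oS 0 + D.oS 1 := by
        show D.e 0 = D.e 0 - D.e 1 + D.e 1
        abel
      show D.e 0 ∈ _
      rw [e]
      exact Submodule.add_mem _ (hO 0 (by omega)) (hO 1 (by omega))
    | j + 1, hj =>
      exact hO (j + 1) hj

/-- The frame of a single block. -/
noncomputable def CD.frmSingle : Frm T k where
  B := D.singleB
  s := D.sS
  hs0 := rfl
  hs := D.singleB_r
  j₀ := 0
  haq := by
    rw [D.singleB_q, D.hT]
    rfl
  chain := fun _ _ _ _ _ hδ hy hS => ⟨D.oS, D.hessSingle hδ hy hS⟩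

/-- The trace data of a single block. -/
theorem CD.traceSingle {k : ℕ} (D : CD T (k + 1 + 3)) (v : V) :
    ell D.singleB (T v) = D.singleB.repr v (Sum.inr ⟨k, by omega⟩) +
      D.A (k + 3) * ell D.singleB v := by
  have hrs : ∀ (j : ℕ) (hj : j < k + 2) (i : Fin 2 ⊕ Fin (k + 2)),
      D.singleB.repr (D.e (j + 2)) i = if i = Sum.inr ⟨j, hj⟩ then 1 else 0 := fun j hj i =>
    repr_s_succ D.singleB D.sS D.singleB_r j hj i
  have hell : ∀ t, t < k + 2 → ell D.singleB (D.e (t + 2)) = if t = k + 1 then 1 else 0 := by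
    intro t ht
    rw [ell_apply, hrs t ht]
    simp only [Sum.inr.injEq, Fin.ext_iff, Fin.val_last]
    by_cases h : t = k + 1
    · simp [h]
    · simp only [h, if_false]
      rw [if_neg]
      omega
  have hι : ∀ t, t < k + 2 → D.singleB.repr (D.e (t + 2)) (Sum.inr ⟨k, by omega⟩) =
      if t = k then 1 else 0 := by
    intro t ht
    rw [hrs t ht]
    simp only [Sum.inr.injEq, Fin.ext_iff]
    by_cases h : t = k
    · simp [h]
    · simp only [h, if_false]
      rw [if_neg]
      omega
  have hell0 : ell D.singleB (D.e 0) = 0 := by rw [← D.singleB_p, ell_inl]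
  have hell1 : ell D.singleB (D.e 1) = 0 := by rw [← D.singleB_q, ell_inl]
  have e : ell D.singleB ∘ₗ T = D.singleB.coord (Sum.inr ⟨k, by omega⟩) +
      D.A (k + 3) • ell D.singleB := by
    refine D.singleB.ext fun i => ?_
    rcases i with i | j
    · show ell D.singleB (T (D.singleB (Sum.inl i))) =
        D.singleB.repr (D.singleB (Sum.inl i)) (Sum.inr ⟨k, by omega⟩) +
          D.A (k + 3) • ell D.singleB (D.singleB (Sum.inl i))
      rw [ell_inl, smul_zero, add_zero, Module.Basis.repr_self, Finsupp.single_apply, if_neg (by simp)]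
      fin_cases i
      · show ell D.singleB (T (D.singleB (Sum.inl 0))) = _
        rw [D.singleB_p, D.hT, ← D.singleB_q, ell_inl]
      · show ell D.singleB (T (D.singleB (Sum.inl 1))) = _
        rw [D.singleB_q, D.hT]
        rw [hell 0 (by omega), if_neg (by omega)]
    · show ell D.singleB (T (D.singleB (Sum.inr j))) =
        D.singleB.repr (D.singleB (Sum.inr j)) (Sum.inr ⟨k, by omega⟩) +
          D.A (k + 3) • ell D.singleB (D.singleB (Sum.inr j))
      rw [D.singleB_r]
      have e1 : ∀ t, D.sS (t + 1) = D.e (t + 2) := fun _ => rfl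
      rw [e1, D.hT]
      have hj' := j.2
      rw [hι j hj', hell j hj']
      by_cases hj : (j : ℕ) = k + 1
      · rw [hj]
        show ell D.singleB (D.e (k + 1 + 3)) = _
        rw [D.hm, map_sum, Finset.sum_eq_single (k + 3)]
        · rw [map_smul, hell (k + 1) (by omega), if_pos rfl, if_neg (by omega)]
          simp
        · intro t ht hne
          have ht' : t < k + 4 := Finset.mem_range.mp ht
          rw [map_smul]
          have : ell D.singleB (D.e t) = 0 := by
            match t, ht', hne with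
            | 0, _, _ => exact hell0
            | 1, _, _ => exact hell1
            | t + 2, ht', hne =>
              rw [hell t (by omega), if_neg (by omega)]
          rw [this, smul_zero]
        · simp
      · have e3 : (j : ℕ) + 2 + 1 = ((j : ℕ) + 1) + 2 := by omega
        rw [e3, hell _ (by omega)]
        by_cases h : (j : ℕ) = k
        · simp [h]
        · rw [if_neg (by omega), if_neg h, if_neg hj]
          simp
  exact LinearMap.congr_fun e v

end Single

end Cfsg.Agent.Lib.SLComm
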