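import Cfsg.Agent.Lib.SLComm.Inst

/-!
# Frames for a pair of cyclic blocks
-/

set_option autoImplicit false

namespace Cfsg.Agent.Lib.SLComm

open Module Polynomial

universe u

variable {F : Type u} [Field F]

section Pair

variable {V₁ V₂ : Type u} [AddCommGroup V₁] [Module F V₁] [AddCommGroup V₂] [Module F V₂]
  {T₁ : V₁ →ₗ[F] V₁} {T₂ : V₂ →ₗ[F] V₂} {g h : ℕ} (D₁ : CD T₁ (g + 1)) (D₂ : CD T₂ (h + 2))

/-- The `s` vectors of a pair. -/
def CD.sP (j : ℕ) : V₁ × V₂ := by
  classical
  exact if j = 0 then 0 else if j ≤ g then (D₁.e j, 0) else (0, D₂.e (j - g))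

/-- The `O` vectors of a pair. -/
def CD.oP (j : ℕ) : V₁ × V₂ := by
  classical
  exact if j = 0 then (D₁.e 0, -D₂.e 0) else if j ≤ g then (D₁.e j, 0) else
    if j = g + 1 then (D₁.e 0, 0) else (0, D₂.e (j - g - 1))

theorem CD.sP_zero : D₁.sP D₂ 0 = 0 := by simp [CD.sP]

theorem CD.sP_low {j : ℕ} (h1 : 1 ≤ j) (h2 : j ≤ g) : D₁.sP D₂ j = (D₁.e j, 0) := by
  simp only [CD.sP]
  rw [if_neg (by omega), if_pos h2]

theorem CD.sP_high (t : ℕ) (ht : 1 ≤ t) : D₁.sP D₂ (g + t) = (0, D₂.e t) := by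
  simp only [CD.sP]
  rw [if_neg (by omega), if_neg (by omega)]
  congr 2
  omega

theorem CD.oP_zero : D₁.oP D₂ 0 = (D₁.e 0, 0) - (0, D₂.e 0) := by
  simp [CD.oP]

theorem CD.oP_low {j : ℕ} (h1 : 1 ≤ j) (h2 : j ≤ g) : D₁.oP D₂ j = (D₁.e j, 0) := by
  simp only [CD.oP]
  rw [if_neg (by omega), if_pos h2]

theorem CD.oP_mid : D₁.oP D₂ (g + 1) = (D₁.e 0, 0) := by
  simp only [CD.oP]
  rw [if_neg (by omega), if_neg (by omega)]
  simp

theorem CD.oP_high (t : ℕ) (ht : 1 ≤ t) : D₁.oP D₂ (g + 1 + t) = (0, D₂.e t) := by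
  simp only [CD.oP]
  rw [if_neg (by omega), if_neg (by omega), if_neg (by omega)]
  congr 2
  omega

/-- The family of a pair. -/
def CD.famP : Fin 2 ⊕ Fin (g + h + 1) → V₁ × V₂ :=
  Sum.elim (fun i => if i = 0 then (D₁.e 0, 0) else (0, D₂.e 0)) (fun j => D₁.sP D₂ (j + 1))

theorem CD.famP_span : ⊤ ≤ Submodule.span F (Set.range (D₁.famP D₂)) := by
  rw [← (D₁.b.prod D₂.b).span_eq]
  refine Submodule.span_le.mpr ?_
  rintro _ ⟨i, rfl⟩
  refine Submodule.subset_span ?_
  rcases i with i | i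
  · rcases i with ⟨i, hi⟩
    simp only [Module.Basis.prod_apply, Sum.elim_inl, Function.comp_apply, LinearMap.coe_inl]
    rw [D₁.hb]
    simp only
    cases i with
    | zero => exact ⟨Sum.inl 0, rfl⟩
    | succ i =>
      refine ⟨Sum.inr ⟨i, by omega⟩, ?_⟩
      show D₁.sP D₂ (i + 1) = _
      rw [D₁.sP_low D₂ (by omega) (by omega)]
  · rcases i with ⟨i, hi⟩
    simp only [Module.Basis.prod_apply, Sum.elim_inr, Function.comp_apply, LinearMap.coe_inr]
    rw [D₂.hb]
    simp only
    cases i with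
    | zero => exact ⟨Sum.inl 1, rfl⟩
    | succ i =>
      refine ⟨Sum.inr ⟨g + i, by omega⟩, ?_⟩
      show D₁.sP D₂ (g + i + 1) = _
      rw [add_assoc, D₁.sP_high D₂ _ (by omega)]

/-- The basis of a pair. -/
noncomputable def CD.pairB [FiniteDimensional F V₁] [FiniteDimensional F V₂] : Basis (Fin 2 ⊕ Fin (g + h + 1)) F (V₁ × V₂) :=
  basisOfTopLeSpanOfCardEqFinrank (D₁.famP D₂) (D₁.famP_span D₂) (by
    rw [Module.finrank_prod, D₁.finrank_eq, D₂.finrank_eq]
    simp
    omega)

variable [FiniteDimensional F V₁] [FiniteDimensional F V₂]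

theorem CD.pairB_apply (i : Fin 2 ⊕ Fin (g + h + 1)) : D₁.pairB D₂ i = D₁.famP D₂ i := by
  simp [CD.pairB]

theorem CD.pairB_p : D₁.pairB D₂ (Sum.inl 0) = (D₁.e 0, 0) := by
  rw [D₁.pairB_apply]
  rfl

theorem CD.pairB_q : D₁.pairB D₂ (Sum.inl 1) = (0, D₂.e 0) := by
  rw [D₁.pairB_apply]
  rfl

theorem CD.pairB_r (j : Fin (g + h + 1)) : D₁.pairB D₂ (Sum.inr j) = D₁.sP D₂ (j + 1) := by
  rw [D₁.pairB_apply]
  rfl

theorem CD.hessPair {τ δ y u : F} {c₀ : V₁ × V₂ →ₗ[F] V₁ × V₂} (hδ : δ ≠ 0) (hy : y ≠ 0)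
    (hS : Shape (D₁.pairB D₂) (D₁.sP D₂) g τ δ y u c₀) :
    HessData (T₁.prodMap T₂) c₀ (ell (D₁.pairB D₂)) (D₁.oP D₂) (g + h + 3) := by
  have hS' := hS
  rw [Shape, D₁.pairB_p, D₁.pairB_q] at hS'
  obtain ⟨h1, h2, h3, h4⟩ := hS'
  set O := D₁.oP D₂ with hO
  set s := D₁.sP D₂ with hs
  set T := T₁.prodMap T₂ with hT
  have hOzero : O 0 = (D₁.e 0, 0) - (0, D₂.e 0) := D₁.oP_zero D₂
  have hOlow : ∀ {j : ℕ}, 1 ≤ j → j ≤ g → O j = (D₁.e j, 0) := fun a b => D₁.oP_low D₂ a b
  have hOmid : O (g + 1) = (D₁.e 0, 0) := D₁.oP_mid D₂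
  have hOhigh : ∀ t : ℕ, 1 ≤ t → O (g + 1 + t) = (0, D₂.e t) := fun t a => D₁.oP_high D₂ t a
  have hT1 : ∀ i, T (D₁.e i, 0) = (D₁.e (i + 1), 0) := fun i => by
    simp [hT, D₁.hT]
  have hT2 : ∀ i, T (0, D₂.e i) = (0, D₂.e (i + 1)) := fun i => by
    simp [hT, D₂.hT]
  have hmem : ∀ i j, j ≤ i → O j ∈ Submodule.span F (O '' Set.Iic i) :=
    fun i j hj => Submodule.subset_span ⟨j, hj, rfl⟩
  have hlow : ∀ i t, 1 ≤ t → t ≤ g → t ≤ i → (D₁.e t, (0 : V₂)) ∈ Submodule.span F (O '' Set.Iic i) :=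
    fun i t h1 h2 h3 => by
      rw [← hOlow h1 h2]
      exact hmem i t h3
  have hmid : ∀ i, g + 1 ≤ i → (D₁.e 0, (0 : V₂)) ∈ Submodule.span F (O '' Set.Iic i) :=
    fun i hi => by
      rw [← hOmid]
      exact hmem i _ hi
  -- the relation in the first block
  have hE : (D₁.e (g + 1), (0 : V₂)) = D₁.A 0 • (D₁.e 0, (0 : V₂)) +
      ∑ t ∈ Finset.range g, D₁.A (t + 1) • (D₁.e (t + 1), (0 : V₂)) := by
    rw [D₁.hm, Finset.sum_range_succ', add_comm]
    ext
    · simp [Prod.fst_sum]
    · simp [Prod.snd_sum]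
  have hEtail : ∀ i, g ≤ i → ∑ t ∈ Finset.range g, D₁.A (t + 1) • (D₁.e (t + 1), (0 : V₂)) ∈
      Submodule.span F (O '' Set.Iic i) := fun i hi =>
    Submodule.sum_mem _ fun t ht => Submodule.smul_mem _ _
      (hlow i (t + 1) (by omega) (by have := Finset.mem_range.mp ht; omega)
        (by have := Finset.mem_range.mp ht; omega))
  have hE1 : ∀ i, g + 1 ≤ i → (D₁.e (g + 1), (0 : V₂)) ∈ Submodule.span F (O '' Set.Iic i) :=
    fun i hi => by
      rw [hE]
      exact Submodule.add_mem _ (Submodule.smul_mem _ _ (hmid i hi)) (hEtail i (by omega))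
  -- `a p`
  have hap : ∀ i, g + 1 ≤ i → (D₁.e 1, (0 : V₂)) ∈ Submodule.span F (O '' Set.Iic i) := by
    intro i hi
    cases g with
    | zero => exact hE1 i hi
    | succ g => exact hlow i 1 (by omega) (by omega) (by omega)
  have hs1 : ∀ j, 1 ≤ j → j ≤ g → s j = (D₁.e j, 0) := fun j a b => D₁.sP_low D₂ a b
  have hs2 : ∀ t, 1 ≤ t → s (g + t) = (0, D₂.e t) := fun t a => D₁.sP_high D₂ t a
  have hs0 : s 0 = 0 := D₁.sP_zero D₂
  refine ⟨?_, ?_, ?_, ?_⟩
  · intro i hi
    by_cases hi0 : i = 0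
    · -- the first vector
      subst hi0
      have e0 : T (c₀ (O 0)) = δ • (D₁.e 1, (0 : V₂)) := by
        rw [hOzero, map_sub, h1, h2, map_sub, map_add, map_add, map_smul, map_smul, hT1,
          hT2]
        module
      cases hg : g with
      | zero =>
        subst hg
        refine ⟨δ * D₁.A 0, mul_ne_zero hδ D₁.hA, ?_⟩
        have e1 : T (c₀ (O 0)) - (δ * D₁.A 0) • O (0 + 1) = 0 := by
          rw [e0]
          have := hOmid
          simp only [zero_add] at this ⊢
          rw [this]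
          have hE' := hE
          simp only [zero_add, Finset.range_zero, Finset.sum_empty, add_zero] at hE'
          rw [hE', smul_smul, sub_self]
        rw [e1]
        exact Submodule.zero_mem _
      | succ g' =>
        refine ⟨δ, hδ, ?_⟩
        have e1 : T (c₀ (O 0)) - δ • O (0 + 1) = 0 := by
          rw [e0, zero_add, hOlow le_rfl (by omega), sub_self]
        rw [e1]
        exact Submodule.zero_mem _
    by_cases hig : i < g
    · -- the middle of the first block
      obtain ⟨j, rfl⟩ : ∃ j, i = j + 1 := ⟨i - 1, by omega⟩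
      refine ⟨y, hy, ?_⟩
      have e1 : O (j + 1) = s (j + 1) := by
        rw [hs1 _ (by omega) (by omega)]
        exact hOlow (by omega) (by omega)
      have e2 : c₀ (s (j + 1)) = y • s (j + 1) + s j := by
        have := h3 j (by omega)
        rwa [if_neg (by omega), add_zero] at this
      have e3 : T (s (j + 1)) = O (j + 1 + 1) := by
        rw [hs1 _ (by omega) (by omega), hT1, hOlow (by omega) (by omega)]
      have e4 : T (c₀ (O (j + 1))) - y • O (j + 1 + 1) = T (s j) := by
        rw [e1, e2, map_add, map_smul, e3]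
        abel
      rw [e4]
      cases j with
      | zero =>
        rw [hs0, map_zero]
        exact Submodule.zero_mem _
      | succ j =>
        rw [hs1 _ (by omega) (by omega), hT1]
        exact hlow _ _ (by omega) (by omega) le_rfl
    by_cases hig' : i = g
    · -- the end of the first block
      subst hig'
      obtain ⟨j, rfl⟩ : ∃ j, i = j + 1 := ⟨i - 1, by omega⟩
      refine ⟨y * D₁.A 0, mul_ne_zero hy D₁.hA, ?_⟩
      have e1 : O (j + 1) = s (j + 1) := by
        rw [hs1 _ (by omega) (by omega)]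
        exact hOlow (by omega) (by omega)
      have e2 : c₀ (s (j + 1)) = y • s (j + 1) + s j := by
        have := h3 j (by omega)
        rwa [if_neg (by omega), add_zero] at this
      have e3 : T (s (j + 1)) = (D₁.e (j + 1 + 1), (0 : V₂)) := by
        rw [hs1 _ (by omega) (by omega), hT1]
      have e4 : T (c₀ (O (j + 1))) - (y * D₁.A 0) • O (j + 1 + 1) =
          y • (∑ t ∈ Finset.range (j + 1), D₁.A (t + 1) • (D₁.e (t + 1), (0 : V₂))) + T (s j) := by
        rw [e1, e2, map_add, map_smul, e3, hE]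
        rw [hOmid, smul_add, smul_smul]
        abel
      rw [e4]
      refine Submodule.add_mem _ (Submodule.smul_mem _ _ (hEtail _ le_rfl)) ?_
      cases j with
      | zero =>
        rw [hs0, map_zero]
        exact Submodule.zero_mem _
      | succ j =>
        rw [hs1 _ (by omega) (by omega), hT1]
        exact hlow _ _ (by omega) (by omega) le_rfl
    by_cases himid : i = g + 1
    · -- the vector `p`
      subst himid
      refine ⟨1, one_ne_zero, ?_⟩
      have e1 : O (g + 1) = (D₁.e 0, 0) := hOmid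
      have e2 : O (g + 1 + 1) = (0, D₂.e 1) := hOhigh 1 le_rfl
      have e3 : T (c₀ (O (g + 1))) - (1 : F) • O (g + 1 + 1) =
          (τ - 1) • (D₁.e 1, (0 : V₂)) := by
        rw [e1, h1, map_add, map_smul, hT1, hT2, e2]
        simp only [zero_add, one_smul, add_sub_cancel_right]
      rw [e3]
      exact Submodule.smul_mem _ _ (hap _ le_rfl)
    · -- the second block
      obtain ⟨t, rfl⟩ : ∃ t, i = g + 1 + t := ⟨i - g - 1, by omega⟩
      have ht1 : 1 ≤ t := by omega
      have hth : t ≤ h := by omega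
      refine ⟨y, hy, ?_⟩
      have e1 : O (g + 1 + t) = s (g + t) := by
        rw [hs2 _ ht1]
        exact hOhigh t ht1
      obtain ⟨j, hj⟩ : ∃ j, g + t = j + 1 := ⟨g + t - 1, by omega⟩
      have e2 := h3 j (by omega)
      rw [← hj] at e2
      have e3 : T (s (g + t)) = O (g + 1 + t + 1) := by
        rw [hs2 _ ht1, hT2]
        exact (hOhigh (t + 1) (by omega)).symm
      have e4 : T (c₀ (O (g + 1 + t))) - y • O (g + 1 + t + 1) =
          T (s j) + (if j = g then u • (0, D₂.e 1) else 0) := by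
        rw [e1, e2, map_add, map_add, map_smul, e3]
        split_ifs
        · rw [map_smul, hT2]
          abel
        · rw [map_zero]
          abel
      rw [e4]
      by_cases ht : t = 1
      · subst ht
        have hjg : j = g := by omega
        subst hjg
        rw [if_pos rfl]
        refine Submodule.add_mem _ ?_ (Submodule.smul_mem _ _ ?_)
        · cases j with
          | zero =>
            rw [hs0, map_zero]
            exact Submodule.zero_mem _
          | succ j =>
            rw [hs1 _ (by omega) (by omega), hT1]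
            exact hE1 _ (by omega)
        · rw [← hOhigh 1 le_rfl]
          exact hmem _ _ le_rfl
      · have hjg : j ≠ g := by omega
        rw [if_neg hjg, add_zero]
        obtain ⟨t', rfl⟩ : ∃ t', t = t' + 1 := ⟨t - 1, by omega⟩
        have e5 : j = g + t' := by omega
        rw [e5, hs2 _ (by omega), hT2, ← hs2 (t' + 1) (by omega), ← e1]
        exact hmem _ _ le_rfl
  · intro j hj
    have hell_s : ∀ t, t < g + h → ell (D₁.pairB D₂) (s (t + 1)) = 0 := fun t ht =>
      ell_s_of_lt (D₁.pairB_r D₂) t ht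
    by_cases hj0 : j = 0
    · subst hj0
      rw [hOzero, ← D₁.pairB_p, ← D₁.pairB_q, map_sub, ell_inl, ell_inl, sub_zero]
    by_cases hjg : j ≤ g
    · obtain ⟨t, rfl⟩ : ∃ t, j = t + 1 := ⟨j - 1, by omega⟩
      rw [hOlow (by omega) hjg, ← hs1 _ (by omega) hjg]
      exact hell_s t (by omega)
    by_cases hjm : j = g + 1
    · subst hjm
      rw [hOmid, ← D₁.pairB_p, ell_inl]
    · obtain ⟨t, rfl⟩ : ∃ t, j = g + 1 + t := ⟨j - g - 1, by omega⟩
      rw [hOhigh t (by omega), ← hs2 t (by omega)]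
      obtain ⟨t', ht'⟩ : ∃ t', g + t = t' + 1 := ⟨g + t - 1, by omega⟩
      rw [ht']
      exact hell_s t' (by omega)
  · have e : g + h + 3 - 1 = g + 1 + (h + 1) := by omega
    rw [e, hOhigh (h + 1) (by omega), ← hs2 (h + 1) (by omega)]
    have := ell_s_last (D₁.pairB_r D₂)
    have e2 : g + (h + 1) = g + h + 1 := by omega
    rw [e2, this]
    exact one_ne_zero
  · rw [eq_top_iff, ← (D₁.b.prod D₂.b).span_eq]
    refine Submodule.span_le.mpr ?_
    rintro _ ⟨i, rfl⟩
    have hOm : ∀ j, j < g + h + 3 → O j ∈ Submodule.span F (O '' Set.Iio (g + h + 3)) :=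
      fun j hj => Submodule.subset_span ⟨j, hj, rfl⟩
    rcases i with i | i
    · rcases i with ⟨i, hi⟩
      simp only [Module.Basis.prod_apply, Sum.elim_inl, Function.comp_apply, LinearMap.coe_inl]
      rw [D₁.hb]
      simp only
      cases i with
      | zero =>
        have := hOm (g + 1) (by omega)
        rwa [hOmid] at this
      | succ i =>
        have := hOm (i + 1) (by omega)
        rwa [hOlow (by omega) (by omega)] at this
    · rcases i with ⟨i, hi⟩
      simp only [Module.Basis.prod_apply, Sum.elim_inr, Function.comp_apply, LinearMap.coe_inr]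
      rw [D₂.hb]
      simp only
      cases i with
      | zero =>
        have h5 := hOm (g + 1) (by omega)
        have h6 := hOm 0 (by omega)
        have h7 := Submodule.sub_mem _ h5 h6
        have e : O (g + 1) - O 0 = (0, D₂.e 0) := by
          rw [hOmid, hOzero]
          simp
        rwa [e] at h7
      | succ i =>
        have := hOm (g + 1 + (i + 1)) (by omega)
        rwa [hOhigh (i + 1) (by omega)] at this

/-- The frame of a pair. -/
noncomputable def CD.frmPair : Frm (T₁.prodMap T₂) (g + h) where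
  B := D₁.pairB D₂
  s := D₁.sP D₂
  hs0 := D₁.sP_zero D₂
  hs := D₁.pairB_r D₂
  j₀ := g
  haq := by
    rw [D₁.pairB_q, D₁.sP_high D₂ 1 le_rfl]
    simp [D₂.hT]
  chain := fun _ _ _ _ _ hδ hy hS => ⟨D₁.oP D₂, D₁.hessPair D₂ hδ hy hS⟩

/-- The trace data of a pair with long second block. -/
theorem CD.tracePair {h : ℕ} (D₂ : CD T₂ (h + 1 + 2)) (v : V₁ × V₂) :
    ell (D₁.pairB D₂) ((T₁.prodMap T₂) v) =
      (D₁.pairB D₂).repr v (Sum.inr ⟨g + h, by omega⟩) + D₂.A (h + 2) * ell (D₁.pairB D₂) v := by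
  set B := D₁.pairB D₂ with hB
  have hrs : ∀ (j : ℕ) (hj : j < g + (h + 1) + 1) (i : Fin 2 ⊕ Fin (g + (h + 1) + 1)),
      B.repr (D₁.sP D₂ (j + 1)) i = if i = Sum.inr ⟨j, hj⟩ then 1 else 0 := fun j hj i =>
    repr_s_succ B (D₁.sP D₂) (D₁.pairB_r D₂) j hj i
  -- evaluation on the second block
  have hr2 : ∀ (t : ℕ) (ht : t < h + 3) (i : Fin 2 ⊕ Fin (g + (h + 1) + 1)), 1 ≤ t →
      B.repr ((0 : V₁), D₂.e t) i = if i = Sum.inr ⟨g + t - 1, by omega⟩ then 1 else 0 := by
    intro t ht i h1
    have e : ((0 : V₁), D₂.e t) = D₁.sP D₂ (g + t - 1 + 1) := by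
      have e2 : g + t - 1 + 1 = g + t := by omega
      rw [e2, D₁.sP_high D₂ t h1]
    rw [e, hrs (g + t - 1) (by omega)]
  have hell2 : ∀ t, t < h + 3 → 1 ≤ t → ell B ((0 : V₁), D₂.e t) = if t = h + 2 then 1 else 0 := by
    intro t ht h1
    rw [ell_apply, hr2 t ht _ h1]
    simp only [Sum.inr.injEq, Fin.ext_iff, Fin.val_last]
    by_cases h' : t = h + 2
    · rw [if_pos h', if_pos (by omega)]
    · rw [if_neg h', if_neg (by omega)]
  have hι2 : ∀ t, t < h + 3 → 1 ≤ t → B.repr ((0 : V₁), D₂.e t) (Sum.inr ⟨g + h, by omega⟩) =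
      if t = h + 1 then 1 else 0 := by
    intro t ht h1
    rw [hr2 t ht _ h1]
    simp only [Sum.inr.injEq, Fin.ext_iff]
    by_cases h' : t = h + 1
    · rw [if_pos h', if_pos (by omega)]
    · rw [if_neg h', if_neg (by omega)]
  have hell20 : ell B ((0 : V₁), D₂.e 0) = 0 := by
    rw [← D₁.pairB_q, ell_inl]
  have hell1low : ∀ t, t ≤ g → ell B (D₁.e t, (0 : V₂)) = 0 := by
    intro t ht
    cases t with
    | zero => rw [← D₁.pairB_p, ell_inl]
    | succ t =>
      rw [← D₁.sP_low D₂ (by omega) ht]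
      exact ell_s_of_lt (D₁.pairB_r D₂) t (by omega)
  have hE : (D₁.e (g + 1), (0 : V₂)) = ∑ t ∈ Finset.range (g + 1), D₁.A t • (D₁.e t, (0 : V₂)) := by
    rw [D₁.hm]
    ext
    · simp [Prod.fst_sum]
    · simp [Prod.snd_sum]
  have hell1 : ∀ t, t ≤ g + 1 → ell B (D₁.e t, (0 : V₂)) = 0 := by
    intro t ht
    by_cases h' : t ≤ g
    · exact hell1low t h'
    · have ht' : t = g + 1 := by omega
      rw [ht', hE, map_sum]
      refine Finset.sum_eq_zero fun i hi => ?_
      rw [map_smul, hell1low i (by have := Finset.mem_range.mp hi; omega), smul_zero]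
  have hι1 : ∀ t, t ≤ g → B.repr (D₁.e t, (0 : V₂)) (Sum.inr ⟨g + h, by omega⟩) = 0 := by
    intro t ht
    cases t with
    | zero =>
      rw [← D₁.pairB_p, Module.Basis.repr_self]
      simp
    | succ t =>
      rw [← D₁.sP_low D₂ (by omega) ht, hrs t (by omega), if_neg]
      intro h'
      have h2 := congrArg Fin.val (Sum.inr.inj h')
      simp at h2
      omega
  have hT1 : ∀ i, (T₁.prodMap T₂) (D₁.e i, (0 : V₂)) = (D₁.e (i + 1), 0) := fun i => by
    simp [D₁.hT]
  have hT2 : ∀ i, (T₁.prodMap T₂) ((0 : V₁), D₂.e i) = (0, D₂.e (i + 1)) := fun i => by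
    simp [D₂.hT]
  have e : ell B ∘ₗ (T₁.prodMap T₂) = B.coord (Sum.inr ⟨g + h, by omega⟩) +
      D₂.A (h + 2) • ell B := by
    refine B.ext fun i => ?_
    show ell B ((T₁.prodMap T₂) (B i)) = B.repr (B i) (Sum.inr ⟨g + h, by omega⟩) +
      D₂.A (h + 2) • ell B (B i)
    rcases i with i | j
    · rw [ell_inl, smul_zero, add_zero, Module.Basis.repr_self, Finsupp.single_apply,
        if_neg (by simp)]
      fin_cases i
      · show ell B ((T₁.prodMap T₂) (B (Sum.inl 0))) = 0
        rw [hB, D₁.pairB_p, hT1, ← hB]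
        exact hell1 1 (by omega)
      · show ell B ((T₁.prodMap T₂) (B (Sum.inl 1))) = 0
        rw [hB, D₁.pairB_q, hT2, ← hB, hell2 1 (by omega) le_rfl, if_neg (by omega)]
    · rw [hB, D₁.pairB_r D₂ j, ← hB]
      by_cases hj : (j : ℕ) < g
      · rw [D₁.sP_low D₂ (by omega) (by omega), hT1, hell1 _ (by omega),
          hι1 _ (by omega), hell1low _ (by omega)]
        simp
      · obtain ⟨t, ht⟩ : ∃ t, (j : ℕ) + 1 = g + t := ⟨(j : ℕ) + 1 - g, by omega⟩
        have ht1 : 1 ≤ t := by omega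
        have ht3 : t < h + 3 := by have := j.2; omega
        rw [ht, D₁.sP_high D₂ t ht1, hT2, hι2 t ht3 ht1, hell2 t ht3 ht1]
        by_cases hlast : t = h + 2
        · -- the last vector
          rw [hlast, if_neg (by omega), if_pos rfl]
          have e3 : ((0 : V₁), D₂.e (h + 2 + 1)) =
              ∑ i ∈ Finset.range (h + 3), D₂.A i • ((0 : V₁), D₂.e i) := by
            have := D₂.hm
            change D₂.e (h + 2 + 1) = _ at this
            rw [this]
            ext
            · simp [Prod.fst_sum]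
            · simp [Prod.snd_sum]
          rw [e3, map_sum, Finset.sum_eq_single (h + 2)]
          · rw [map_smul, hell2 (h + 2) (by omega) (by omega), if_pos rfl]
            simp
          · intro i hi hne
            have hi' : i < h + 3 := Finset.mem_range.mp hi
            rw [map_smul]
            have : ell B ((0 : V₁), D₂.e i) = 0 := by
              cases i with
              | zero => exact hell20
              | succ i => rw [hell2 (i + 1) hi' (by omega), if_neg hne]
            rw [this, smul_zero]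
          · simp
        · rw [hell2 (t + 1) (by omega) (by omega), if_neg hlast]
          by_cases h' : t = h + 1
          · rw [if_pos (by omega), if_pos h']
            simp
          · rw [if_neg (by omega), if_neg h']
            simp
  exact LinearMap.congr_fun e v

end Pair

end Cfsg.Agent.Lib.SLComm
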