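import Cfsg.Agent.Lib.SLComm.Q3

/-!
# Assembly: two field elements
-/

set_option autoImplicit false

namespace Cfsg.Agent.Lib.SLComm

open Module Polynomial Matrix

universe u

variable {F : Type u} [Field F] (φ : ZMod 2 →+* F)

/-- The object of a matrix over the prime field. -/
noncomputable def mObj {ι : Type} [Fintype ι] [DecidableEq ι] (M : Matrix ι ι (ZMod 2)) : Ob F :=
  obOf (Matrix.toLin' (M.map φ))

theorem commP_mat {ι : Type} [Fintype ι] [DecidableEq ι] (hF : ∀ v : F, v ≠ 0 → v = 1)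
    (M x y x' y' : Matrix ι ι (ZMod 2)) (h : M * y * x = x * y) (hx : x * x' = 1)
    (hy : y * y' = 1) : CommP (mObj φ M) := by
  have hmap : ∀ A B : Matrix ι ι (ZMod 2), (A * B).map φ = A.map φ * B.map φ :=
    fun A B => Matrix.map_mul
  have hone : (1 : Matrix ι ι (ZMod 2)).map φ = 1 := Matrix.map_one _ φ.map_zero φ.map_one
  have hdet : ∀ A A' : Matrix ι ι (ZMod 2), A * A' = 1 → (A.map φ).det = 1 := by
    intro A A' hA
    apply hF
    intro h0
    have h1 : (A.map φ) * (A'.map φ) = 1 := by rw [← hmap, hA, hone]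
    have h2 := congrArg Matrix.det h1
    rw [Matrix.det_mul, h0, zero_mul, Matrix.det_one] at h2
    exact zero_ne_one h2
  refine ⟨Matrix.toLin' (x.map φ), Matrix.toLin' (y.map φ), ?_, ?_, ?_⟩
  · exact (LinearMap.det_toLin' _).trans (hdet x x' hx)
  · exact (LinearMap.det_toLin' _).trans (hdet y y' hy)
  · show Matrix.toLin' (M.map φ) ∘ₗ Matrix.toLin' (y.map φ) ∘ₗ Matrix.toLin' (x.map φ) =
      Matrix.toLin' (x.map φ) ∘ₗ Matrix.toLin' (y.map φ)
    rw [← Matrix.toLin'_mul, ← Matrix.toLin'_mul, ← Matrix.toLin'_mul, ← hmap, ← hmap, ← hmap,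
      ← mul_assoc, h]

theorem sim_mObj_sum {ι κ : Type} [Fintype ι] [DecidableEq ι] [Fintype κ] [DecidableEq κ]
    (A : Matrix ι ι (ZMod 2)) (B : Matrix κ κ (ZMod 2)) :
    Sim ((mObj φ A).prod (mObj φ B)) (mObj φ (Matrix.fromBlocks A 0 0 B)) := by
  refine Sim.symm ⟨LinearEquiv.sumArrowLequivProdArrow ι κ F F, fun (v : ι ⊕ κ → F) => ?_⟩
  show LinearEquiv.sumArrowLequivProdArrow ι κ F F ((fromBlocks A 0 0 B).map φ *ᵥ v) =
    ((A.map φ) *ᵥ (v ∘ Sum.inl), (B.map φ) *ᵥ (v ∘ Sum.inr))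
  have e : (fromBlocks A 0 0 B).map φ = fromBlocks (A.map φ) 0 0 (B.map φ) := by
    rw [Matrix.fromBlocks_map]
    simp
  rw [e, Matrix.fromBlocks_mulVec]
  ext i <;> simp [LinearEquiv.sumArrowLequivProdArrow]

/-! ### The explicit commutators -/

/-- The involution. -/
abbrev J0 : Matrix (Fin 2) (Fin 2) (ZMod 2) := !![0, 1; 1, 0]

/-- The element of order three. -/
abbrev P0 : Matrix (Fin 2) (Fin 2) (ZMod 2) := !![0, 1; 1, 1]

/-- Index of two planes. -/
abbrev e2 : Fin 2 ⊕ Fin 2 → Fin 4 := fun s => (finSumFinEquiv s : Fin (2 + 2))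

/-- Index of three planes. -/
abbrev e3 : Fin 2 ⊕ (Fin 2 ⊕ Fin 2) → Fin 6 :=
  fun s => (finSumFinEquiv (Sum.map id finSumFinEquiv s) : Fin (2 + (2 + 2)))

theorem commP_P (hF : ∀ v : F, v ≠ 0 → v = 1) : CommP (mObj φ P0) :=
  commP_mat φ hF P0 !![1, 1; 1, 0] !![0, 1; 1, 0] !![0, 1; 1, 1] !![0, 1; 1, 0]
    (by decide +kernel) (by decide +kernel) (by decide +kernel)

theorem commP_JJ_mat (hF : ∀ v : F, v ≠ 0 → v = 1) :
    CommP (mObj φ (fromBlocks J0 0 0 J0)) :=
  commP_mat φ hF (fromBlocks J0 0 0 J0)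
    ((!![0, 1, 0, 0; 0, 0, 0, 1; 0, 0, 1, 0; 1, 0, 0, 0] :
      Matrix (Fin 4) (Fin 4) (ZMod 2)).submatrix e2 e2)
    ((!![1, 0, 0, 0; 0, 0, 1, 0; 0, 0, 0, 1; 0, 1, 0, 0] :
      Matrix (Fin 4) (Fin 4) (ZMod 2)).submatrix e2 e2)
    ((!![0, 0, 0, 1; 1, 0, 0, 0; 0, 0, 1, 0; 0, 1, 0, 0] :
      Matrix (Fin 4) (Fin 4) (ZMod 2)).submatrix e2 e2)
    ((!![1, 0, 0, 0; 0, 0, 0, 1; 0, 1, 0, 0; 0, 0, 1, 0] :
      Matrix (Fin 4) (Fin 4) (ZMod 2)).submatrix e2 e2)
    (by decide +kernel) (by decide +kernel) (by decide +kernel)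

theorem commP_JP_mat (hF : ∀ v : F, v ≠ 0 → v = 1) :
    CommP (mObj φ (fromBlocks J0 0 0 P0)) :=
  commP_mat φ hF (fromBlocks J0 0 0 P0)
    ((!![1, 1, 0, 0; 0, 0, 0, 1; 0, 0, 1, 0; 1, 0, 0, 0] :
      Matrix (Fin 4) (Fin 4) (ZMod 2)).submatrix e2 e2)
    ((!![0, 1, 0, 0; 1, 0, 1, 0; 1, 0, 0, 0; 0, 0, 0, 1] :
      Matrix (Fin 4) (Fin 4) (ZMod 2)).submatrix e2 e2)
    ((!![0, 0, 0, 1; 1, 0, 0, 1; 0, 0, 1, 0; 0, 1, 0, 0] :
      Matrix (Fin 4) (Fin 4) (ZMod 2)).submatrix e2 e2)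
    ((!![0, 0, 1, 0; 1, 0, 0, 0; 0, 1, 1, 0; 0, 0, 0, 1] :
      Matrix (Fin 4) (Fin 4) (ZMod 2)).submatrix e2 e2)
    (by decide +kernel) (by decide +kernel) (by decide +kernel)

theorem commP_JJJ_mat (hF : ∀ v : F, v ≠ 0 → v = 1) :
    CommP (mObj φ (fromBlocks J0 0 0 (fromBlocks J0 0 0 J0))) :=
  commP_mat φ hF (fromBlocks J0 0 0 (fromBlocks J0 0 0 J0))
    ((!![0, 0, 1, 0, 0, 0; 1, 0, 0, 0, 1, 1; 1, 0, 0, 0, 0, 1; 0, 0, 1, 1, 0, 0; 1, 0, 0, 1, 1, 0;
        0, 1, 0, 0, 0, 0] : Matrix (Fin 6) (Fin 6) (ZMod 2)).submatrix e3 e3)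
    ((!![1, 1, 0, 0, 0, 1; 1, 0, 0, 1, 0, 0; 0, 0, 0, 1, 0, 0; 0, 0, 1, 0, 0, 0; 0, 1, 1, 0, 1, 0;
        0, 1, 0, 0, 0, 0] : Matrix (Fin 6) (Fin 6) (ZMod 2)).submatrix e3 e3)
    ((!![1, 1, 1, 1, 1, 0; 0, 0, 0, 0, 0, 1; 1, 0, 0, 0, 0, 0; 1, 0, 0, 1, 0, 0; 0, 1, 1, 0, 0, 0;
        1, 1, 0, 1, 1, 0] : Matrix (Fin 6) (Fin 6) (ZMod 2)).submatrix e3 e3)
    ((!![0, 1, 1, 0, 0, 0; 0, 0, 0, 0, 0, 1; 0, 0, 0, 1, 0, 0; 0, 0, 1, 0, 0, 0; 0, 0, 0, 1, 1, 1;
        1, 1, 1, 0, 0, 1] : Matrix (Fin 6) (Fin 6) (ZMod 2)).submatrix e3 e3)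
    (by decide +kernel) (by decide +kernel) (by decide +kernel)

theorem commP_JJ (hF : ∀ v : F, v ≠ 0 → v = 1) : CommP ((mObj φ J0).prod (mObj φ J0)) :=
  CommP.of_sim (sim_mObj_sum φ J0 J0) (commP_JJ_mat φ hF)

theorem commP_JP (hF : ∀ v : F, v ≠ 0 → v = 1) : CommP ((mObj φ J0).prod (mObj φ P0)) :=
  CommP.of_sim (sim_mObj_sum φ J0 P0) (commP_JP_mat φ hF)

theorem commP_JJJ (hF : ∀ v : F, v ≠ 0 → v = 1) :
    CommP ((mObj φ J0).prod ((mObj φ J0).prod (mObj φ J0))) :=
  CommP.of_sim ((Sim.prod (Sim.refl _) (sim_mObj_sum φ J0 J0)).trans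
    (sim_mObj_sum φ J0 (fromBlocks J0 0 0 J0))) (commP_JJJ_mat φ hF)

/-! ### Two dimensional cyclic objects -/

/-- A plane with a companion matrix. -/
noncomputable def compM (a b : F) : Matrix (Fin 2) (Fin 2) F := !![0, b; 1, a]

theorem compM_apply (a b : F) (v : Fin 2 → F) :
    Matrix.toLin' (compM a b) v = ![b * v 1, v 0 + a * v 1] := by
  funext t
  fin_cases t <;> simp [compM, Matrix.mulVec, dotProduct, Fin.sum_univ_two]

theorem sim_compM {X : Ob F} (hc : IsCyc X.T) (hd : finrank F X.V = 2) (a b : F)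
    (h0 : aeval X.T (Polynomial.X ^ 2 - C a * Polynomial.X - C b) = 0) :
    Sim X (obOf (Matrix.toLin' (compM a b))) := by
  have hm : (Polynomial.X ^ 2 - C a * Polynomial.X - C b : F[X]).Monic := by
    have e : (Polynomial.X ^ 2 - C a * Polynomial.X - C b : F[X]) =
        Polynomial.X ^ 2 + (C (-a) * Polynomial.X + C (-b)) := by
      simp only [C_neg]
      ring
    rw [e]
    refine Polynomial.monic_X_pow_add ?_
    exact lt_of_le_of_lt Polynomial.degree_linear_le (by norm_num)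
  have hdeg : (Polynomial.X ^ 2 - C a * Polynomial.X - C b : F[X]).natDegree = 2 := by
    have e : (Polynomial.X ^ 2 - C a * Polynomial.X - C b : F[X]) =
        C 1 * Polynomial.X ^ 2 + C (-a) * Polynomial.X + C (-b) := by
      simp only [C_neg, C_1]
      ring
    rw [e]
    exact Polynomial.natDegree_quadratic one_ne_zero
  refine sim_of_cyc hc ?_ _ hm (by rw [hdeg, hd]) (by rw [hdeg]; simp) h0 ?_
  · -- cyclicity of the companion matrix
    set T := Matrix.toLin' (compM a b) with hT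
    refine ⟨![1, 0], eq_top_iff.mpr fun w _ => ?_⟩
    have h1 : (![1, 0] : Fin 2 → F) ∈ gen T ![1, 0] := self_mem_gen _ _
    have h2 : (![0, 1] : Fin 2 → F) ∈ gen T ![1, 0] := by
      have := map_mem_gen h1
      rw [hT, compM_apply] at this
      simpa using this
    have e : w = w 0 • (![1, 0] : Fin 2 → F) + w 1 • (![0, 1] : Fin 2 → F) := by
      funext t
      fin_cases t <;> simp
    rw [e]
    exact Submodule.add_mem _ (Submodule.smul_mem _ _ h1) (Submodule.smul_mem _ _ h2)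
  · refine LinearMap.ext fun (v : Fin 2 → F) => ?_
    show aeval (Matrix.toLin' (compM a b)) _ v = (0 : Fin 2 → F)
    have e : aeval (Matrix.toLin' (compM a b)) (Polynomial.X ^ 2 - C a * Polynomial.X - C b) v =
        Matrix.toLin' (compM a b) (Matrix.toLin' (compM a b) v) -
          a • Matrix.toLin' (compM a b) v - b • v := by
      simp [sq, Algebra.algebraMap_eq_smul_one]
    rw [e, compM_apply, compM_apply]
    funext t
    fin_cases t <;> simp <;> ring

theorem compM_J (hF : ∀ v : F, v ≠ 0 → v = 1) : (J0.map φ : Matrix (Fin 2) (Fin 2) F) = compM 0 1 := by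
  ext i j
  fin_cases i <;> fin_cases j <;> simp [compM]

theorem compM_P (hF : ∀ v : F, v ≠ 0 → v = 1) : (P0.map φ : Matrix (Fin 2) (Fin 2) F) = compM 1 1 := by
  ext i j
  fin_cases i <;> fin_cases j <;> simp [compM]

/-- The two dimensional cyclic objects over the field with two elements. -/
theorem sim_block_two (hF : ∀ v : F, v ≠ 0 → v = 1) {X : Ob F} (hX : Bk X)
    (hd : finrank F X.V = 2) : Sim X (mObj φ J0) ∨ Sim X (mObj φ P0) := by
  have hm : X.T.charpoly.Monic := LinearMap.charpoly_monic _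
  have hdd : X.T.charpoly.natDegree = 2 := (LinearMap.charpoly_natDegree _).trans hd
  have hneg : (-1 : F) = 1 := hF _ (neg_ne_zero.mpr one_ne_zero)
  have h0 : X.T.charpoly.coeff 0 = 1 := by
    apply hF
    intro h0
    apply hX.det
    rw [LinearMap.det_eq_sign_charpoly_coeff, h0, mul_zero]
  have hform : X.T.charpoly = Polynomial.X ^ 2 + (C (X.T.charpoly.coeff 1) * Polynomial.X + C 1) := by
    have := hm.as_sum
    rw [hdd, Finset.sum_range_succ, Finset.sum_range_one, h0] at this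
    rw [this]
    simp only [pow_zero, mul_one, pow_one, coeff_add, coeff_X_pow, coeff_mul_X, coeff_C_succ,
      coeff_C, Finset.sum_range_succ]
    simp [h0, coeff_X_pow]
    ring
  have hann : aeval X.T (Polynomial.X ^ 2 + (C (X.T.charpoly.coeff 1) * Polynomial.X + C 1)) = 0 := by
    rw [← hform]
    exact LinearMap.aeval_self_charpoly _
  have hsim : ∀ a : F, a = X.T.charpoly.coeff 1 → Sim X (obOf (Matrix.toLin' (compM a 1))) := by
    intro a ha
    refine sim_compM hX.cyc hd a 1 ?_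
    have e : (Polynomial.X ^ 2 - C a * Polynomial.X - C 1 : F[X]) =
        Polynomial.X ^ 2 + (C (X.T.charpoly.coeff 1) * Polynomial.X + C 1) := by
      rw [← ha]
      have hnegP : (-1 : F[X]) = 1 := by
        rw [← C_1, ← C_neg, hneg]
      have h2P : (2 : F[X]) = 0 := by
        linear_combination -hnegP
      linear_combination (-(C a * Polynomial.X) - C 1) * h2P
    rw [e]
    exact hann
  by_cases ha : X.T.charpoly.coeff 1 = 0
  · left
    have := hsim 0 ha.symm
    show Sim X (obOf (Matrix.toLin' (J0.map φ)))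
    rw [compM_J φ hF]
    exact this
  · right
    have := hsim 1 (hF _ ha).symm
    show Sim X (obOf (Matrix.toLin' (P0.map φ)))
    rw [compM_P φ hF]
    exact this

/-! ### The induction -/

section Main

variable (hF : ∀ v : F, v ≠ 0 → v = 1)

include hF in
theorem commP_not_two [Fintype F] {X : Ob F} (hX : Bk X) (h2 : finrank F X.V ≠ 2) : CommP X := by
  have hd1 : X.T.det = 1 := hF _ hX.det
  have hpos := hX.pos
  rcases (by omega : finrank F X.V = 1 ∨ finrank F X.V = 3 ∨ 4 ≤ finrank F X.V) with h | h | h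
  · have hs := sim_sc_of_dim_one hX.cyc hX.det h
    rw [hd1] at hs
    exact CommP.of_sim hs commP_sc_one
  · refine (free_single hX.cyc hX.det 0 h fun hc => absurd rfl hc).commP hd1
  · exact commP_single_two hF hX.cyc hX.det (finrank F X.V - 4) (by omega)

include hF in
theorem commP_nonJ [Fintype F] {X : Ob F} (hX : Bk X) (hJ : ¬ Sim X (mObj φ J0)) : CommP X := by
  by_cases h2 : finrank F X.V = 2
  · rcases sim_block_two φ hF hX h2 with h | h
    · exact absurd h hJ
    · exact CommP.of_sim h (commP_P φ hF)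
  · exact commP_not_two hF hX h2

theorem finrank_of_J {X : Ob F} (h : Sim X (mObj φ J0)) : finrank F X.V = 2 := by
  rw [h.finrank_eq]
  show finrank F (Fin 2 → F) = 2
  simp

include hF in
theorem commP_J_pair [Fintype F] {X h : Ob F} (hX : Bk X) (hh : Bk h) (hJX : Sim X (mObj φ J0))
    (hJ : ¬ Sim h (mObj φ J0)) : CommP (X.prod h) := by
  have h2X := finrank_of_J φ hJX
  have hpos := hh.pos
  rcases (by omega : finrank F h.V = 1 ∨ finrank F h.V = 2 ∨ 3 ≤ finrank F h.V) with h1 | h1 | h1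
  · have hfree : Free (h.prod X) :=
      free_pair hh.cyc hX.cyc hh.det hX.det 0 0 h1 h2X fun hc => absurd rfl hc
    refine CommP.of_sim (Sim.prod_comm X h) (hfree.commP ?_)
    apply hF
    rw [Ob.prod_det]
    exact mul_ne_zero hh.det hX.det
  · rcases sim_block_two φ hF hh h1 with h3 | h3
    · exact absurd h3 hJ
    · exact CommP.of_sim (Sim.prod hJX h3) (commP_JP φ hF)
  · exact commP_pair_two hF hX.cyc hh.cyc hX.det hh.det 1 (finrank F h.V - 3) (by omega) (by omega)

include hF in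
theorem commP_q2_aux [Fintype F] (n : ℕ) : ∀ L : List (Ob F), L.length = n → (∀ Y ∈ L, Bk Y) →
    ((∀ Y ∈ L, ¬ Sim Y (mObj φ J0)) ∨ 3 ≤ finrank F (prodL L).V) → CommP (prodL L) := by
  induction n using Nat.strong_induction_on with
  | _ n ih =>
    intro L hn hL hc
    by_cases hJ : ∃ X ∈ L, Sim X (mObj φ J0)
    · obtain ⟨X, hXL, hXJ⟩ := hJ
      obtain ⟨L', hp, hlen⟩ := exists_rest hXL
      have hdim : finrank F (prodL L).V = 2 + finrank F (prodL L').V := by
        rw [(sim_cons hp).finrank_eq]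
        show finrank F (X.V × (prodL L').V) = _
        rw [Module.finrank_prod, finrank_of_J φ hXJ]
      have hn3 : 3 ≤ finrank F (prodL L).V := by
        rcases hc with hc | hc
        · exact absurd hXJ (hc X hXL)
        · exact hc
      by_cases hJ' : ∃ Y ∈ L', Sim Y (mObj φ J0)
      · obtain ⟨Y, hYL', hYJ⟩ := hJ'
        have hYL := mem_of_perm_cons hp hYL'
        obtain ⟨L'', hp', hlen'⟩ := exists_rest hYL'
        have hs := sim_two hp hp'
        have hL'' : ∀ Z ∈ L'', Z ∈ L := fun Z hZ => mem_of_perm_cons hp (mem_of_perm_cons hp' hZ)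
        by_cases hc' : (∀ Z ∈ L'', ¬ Sim Z (mObj φ J0)) ∨ 3 ≤ finrank F (prodL L'').V
        · refine CommP.of_sim hs (CommP.prod ?_ (ih L''.length (by omega) L'' rfl
            (fun Z hZ => hL Z (hL'' Z hZ)) hc'))
          exact CommP.of_sim (Sim.prod hYJ hXJ) (commP_JJ φ hF)
        · push Not at hc'
          obtain ⟨⟨Z, hZL'', hZJ⟩, hlt⟩ := hc'
          obtain ⟨L3, hp3, -⟩ := exists_rest hZL''
          have hdim3 : finrank F (prodL L'').V = 2 + finrank F (prodL L3).V := by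
            rw [(sim_cons hp3).finrank_eq]
            show finrank F (Z.V × (prodL L3).V) = _
            rw [Module.finrank_prod, finrank_of_J φ hZJ]
          have h0 : finrank F (prodL L3).V = 0 := by omega
          haveI : Subsingleton (prodL L3).V := Module.finrank_zero_iff.mp h0
          have hs2 : Sim (prodL L'') Z :=
            (sim_cons hp3).trans (Sim.prod_subsingleton Z (prodL L3))
          refine CommP.of_sim (hs.trans (Sim.prod (Sim.refl _) hs2)) ?_
          refine CommP.of_sim (Sim.prod_assoc Y X Z) ?_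
          exact CommP.of_sim (Sim.prod hYJ (Sim.prod hXJ hZJ)) (commP_JJJ φ hF)
      · push Not at hJ'
        cases hLn : L' with
        | nil =>
          rw [hLn] at hdim
          have : finrank F (prodL ([] : List (Ob F))).V = 0 := by
            rw [prodL_finrank]
            rfl
          omega
        | cons h L'' =>
          rw [hLn] at hp hJ'
          have hhL : h ∈ L := mem_of_perm_cons hp (by simp)
          have hs : Sim (prodL L) ((X.prod h).prod (prodL L'')) :=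
            (sim_cons hp).trans (Sim.prod_assoc X h (prodL L'')).symm
          refine CommP.of_sim hs (CommP.prod
            (commP_J_pair φ hF (hL X hXL) (hL h hhL) hXJ (hJ' h (by simp))) ?_)
          refine commP_prodL fun Z hZ => ?_
          exact commP_nonJ φ hF (hL Z (mem_of_perm_cons hp (by simp [hZ]))) (hJ' Z (by simp [hZ]))
    · push Not at hJ
      exact commP_prodL fun Z hZ => commP_nonJ φ hF (hL Z hZ) (hJ Z hZ)

end Main

theorem commP_q2 [Fintype F] (h2 : Fintype.card F = 2) (L : List (Ob F)) (hL : ∀ Y ∈ L, Bk Y)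
    (hn : 3 ≤ finrank F (prodL L).V) : CommP (prodL L) := by
  classical
  have hF : ∀ v : F, v ≠ 0 → v = 1 := by
    intro v hv
    have := FiniteField.pow_card_sub_one_eq_one v hv
    rw [h2] at this
    simpa using this
  have h11 : (1 + 1 : F) = 0 := by
    by_contra hc
    have h3 := hF _ hc
    have h4 : (1 : F) = 0 := by linear_combination h3
    exact one_ne_zero h4
  haveI : CharP F 2 := CharTwo.of_one_ne_zero_of_two_eq_zero one_ne_zero (by
    have : (2 : F) = 1 + 1 := by norm_num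
    rw [this, h11])
  exact commP_q2_aux (ZMod.castHom (dvd_refl 2) F) hF _ L rfl hL (Or.inr hn)

/-! ### All cases together -/

/-- Every determinant one map is a commutator, apart from the small exceptions. -/
theorem commP_final [Fintype F] (X : Ob F) (hdet : X.T.det = 1) (hex : finrank F X.V = 2 → 4 ≤ Fintype.card F)
    (hn : 2 ≤ finrank F X.V) : CommP X := by
  obtain ⟨L, hs, hL⟩ := exists_cyc_list X
  have hd : dp L = 1 := by
    rw [← dp_eq, ← hs.det_eq]
    exact hdet
  have hBk : ∀ Y ∈ L, Bk Y := by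
    intro Y hY
    refine ⟨(hL Y hY).1, (hL Y hY).2, fun h0 => ?_⟩
    have : dp L = 0 := by
      refine List.prod_eq_zero ?_
      exact List.mem_map.mpr ⟨Y, hY, h0⟩
    rw [hd] at this
    exact one_ne_zero this
  refine CommP.of_sim hs ?_
  have hfr : finrank F (prodL L).V = finrank F X.V := hs.finrank_eq.symm
  have hq : 2 ≤ Fintype.card F := Fintype.one_lt_card
  by_cases h4 : 4 ≤ Fintype.card F
  · exact commP_q4 h4 L hBk hd
  · have hn3 : 3 ≤ finrank F (prodL L).V := by
      rw [hfr]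
      by_contra hc
      have : finrank F X.V = 2 := by omega
      exact h4 (hex this)
    by_cases h3 : Fintype.card F = 3
    · exact commP_q3 h3 L hBk hd hn3
    · exact commP_q2 (by omega) L hBk hn3

end Cfsg.Agent.Lib.SLComm
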