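import Cfsg.Agent.Lib.SLComm.Assem

/-!
# Assembly: three field elements
-/

set_option autoImplicit false

namespace Cfsg.Agent.Lib.SLComm

open Module Polynomial

universe u

variable {F : Type u} [Field F] [Fintype F]

theorem q3_facts (h3 : Fintype.card F = 3) : (1 : F) ≠ -1 ∧ ∀ v : F, v ≠ 0 → v = 1 ∨ v = -1 := by
  classical
  have h2 : ∀ v : F, v ≠ 0 → v = 1 ∨ v = -1 := by
    intro v hv
    have h := FiniteField.pow_card_sub_one_eq_one v hv
    rw [h3] at h
    have h4 : (v - 1) * (v + 1) = 0 := by
      have : v ^ 2 = 1 := h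
      linear_combination this
    rcases mul_eq_zero.mp h4 with h5 | h5
    · exact Or.inl (sub_eq_zero.mp h5)
    · exact Or.inr (eq_neg_of_add_eq_zero_left h5)
  refine ⟨fun h1 => ?_, h2⟩
  have h5 : (Finset.univ : Finset F) ⊆ {0, 1} := by
    intro x _
    by_cases hx : x = 0
    · simp [hx]
    · rcases h2 x hx with h | h
      · simp [h]
      · rw [h, ← h1]
        simp
  have h6 := Finset.card_le_card h5
  have h7 : ({0, 1} : Finset F).card ≤ 2 := Finset.card_le_two
  rw [Finset.card_univ] at h6
  omega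

section

variable (hne : (1 : F) ≠ -1) (hF3 : ∀ v : F, v ≠ 0 → v = 1 ∨ v = -1)

include hne in
theorem neg_ne_self' {α : F} (hα : α ≠ 0) : -α ≠ α := by
  intro h
  apply hne
  have h1 : α * (1 - (-1)) = 0 := by linear_combination -h
  rcases mul_eq_zero.mp h1 with h2 | h2
  · exact absurd h2 hα
  · exact sub_eq_zero.mp h2

include hne in
theorem exists_y (α : F) (hα : α ≠ 0) : ∃ y : F, y ≠ 0 ∧ y ≠ α ∧ y ≠ α * 1 :=
  ⟨-α, neg_ne_zero.mpr hα, neg_ne_self' hne hα, by rw [mul_one]; exact neg_ne_self' hne hα⟩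

include hne in
theorem good_d1 {X : Ob F} (hX : Bk X) (hd : X.T.det = 1) : Good X := by
  have hfr := hX.pos
  rcases (by omega : finrank F X.V = 1 ∨ finrank F X.V = 2 ∨ 3 ≤ finrank F X.V) with h | h | h
  · exact good_one hX.cyc hX.det h
  · refine good_two hX.cyc hX.det h fun α hα => ?_
    rw [hd]
    exact exists_y hne α hα
  · refine (free_single hX.cyc hX.det (finrank F X.V - 3) (by omega) fun _ α hα => ?_).good
    rw [hd]
    exact exists_y hne α hα

include hne in
theorem free_d1 {X : Ob F} (hX : Bk X) (hd : X.T.det = 1) (h3 : 3 ≤ finrank F X.V) : Free X := by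
  refine free_single hX.cyc hX.det (finrank F X.V - 3) (by omega) fun _ α hα => ?_
  rw [hd]
  exact exists_y hne α hα

include hne in
theorem free_pair3 {X Y : Ob F} (hX : Bk X) (hY : Bk Y) (hd : X.T.det * Y.T.det = 1)
    (h2 : 2 ≤ finrank F Y.V) : Free (X.prod Y) := by
  have hp := hX.pos
  refine free_pair hX.cyc hY.cyc hX.det hY.det (finrank F X.V - 1) (finrank F Y.V - 2) (by omega)
    (by omega) fun _ α hα => ?_
  rw [hd]
  exact exists_y hne α hα

include hne in
theorem good_pair3 {X Y : Ob F} (hX : Bk X) (hY : Bk Y) (hdX : X.T.det = -1) (hdY : Y.T.det = -1) :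
    Good (X.prod Y) := by
  have hd : X.T.det * Y.T.det = 1 := by rw [hdX, hdY]; ring
  by_cases h2 : 2 ≤ finrank F Y.V
  · exact (free_pair3 hne hX hY hd h2).good
  by_cases h2' : 2 ≤ finrank F X.V
  · have := (free_pair3 hne hY hX (by rw [mul_comm]; exact hd) h2').good
    exact this.of_sim (Sim.prod_comm X Y)
  · have hpX := hX.pos
    have hpY := hY.pos
    exact Good.prod (good_one hX.cyc hX.det (by omega)) (good_one hY.cyc hY.det (by omega))

include hF3 in
theorem det_eq_neg {X : Ob F} (hX : Bk X) (h : X.T.det ≠ 1) : X.T.det = -1 :=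
  (hF3 _ hX.det).resolve_left h

omit [Fintype F] in
theorem exists_ne_one_block {L : List (Ob F)} (h : dp L ≠ 1) : ∃ Y ∈ L, Y.T.det ≠ 1 := by
  by_contra hc
  push Not at hc
  apply h
  refine List.prod_eq_one ?_
  intro x hx
  obtain ⟨Y, hY, rfl⟩ := List.mem_map.mp hx
  exact hc Y hY

include hne hF3 in
theorem good0_list3 (n : ℕ) : ∀ L : List (Ob F), L.length = n → (∀ Y ∈ L, Bk Y) → dp L = 1 →
    Good0 (prodL L) := by
  induction n using Nat.strong_induction_on with
  | _ n ih =>
    intro L hn hL hd
    by_cases h : ∃ X ∈ L, X.T.det ≠ 1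
    · obtain ⟨X, hXL, hX1⟩ := h
      have hX := det_eq_neg hF3 (hL X hXL) hX1
      obtain ⟨L', hp, hlen⟩ := exists_rest hXL
      have hd' : dp L' = -1 := by
        have := dp_perm hp
        rw [dp_cons, hX, hd] at this
        linear_combination this
      obtain ⟨Y, hYL', hY1⟩ := exists_ne_one_block (by rw [hd']; exact Ne.symm hne)
      have hYL := mem_of_perm_cons hp hYL'
      have hY := det_eq_neg hF3 (hL Y hYL) hY1
      obtain ⟨L'', hp', hlen'⟩ := exists_rest hYL'
      have hd'' : dp L'' = 1 := by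
        have := dp_perm hp'
        rw [dp_cons, hY, hd'] at this
        linear_combination this
      refine Good0.of_sim (sim_two hp hp') (Good0.prod (Or.inl (good_pair3 hne (hL Y hYL) (hL X hXL) hY hX))
        (ih L''.length (by omega) L'' rfl
          (fun Z hZ => hL Z (mem_of_perm_cons hp (mem_of_perm_cons hp' hZ))) hd''))
    · push Not at h
      exact good0_prodL fun Y hY => good_d1 hne (hL Y hY) (h Y hY)

theorem commP_sc_one : CommP (sc (1 : F)) := by
  refine CommP.of_eq_id _ ?_
  show (1 : F) • (LinearMap.id : F →ₗ[F] F) = LinearMap.id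
  simp

include hF3 in
/-- All blocks one dimensional. -/
theorem commP_all_one (n : ℕ) : ∀ L : List (Ob F), L.length = n → (∀ Y ∈ L, Bk Y) →
    (∀ Y ∈ L, finrank F Y.V = 1) → dp L = 1 → CommP (prodL L) := by
  induction n using Nat.strong_induction_on with
  | _ n ih =>
    intro L hn hL h1 hd
    by_cases h : ∃ X ∈ L, X.T.det = 1
    · obtain ⟨X, hXL, hX1⟩ := h
      obtain ⟨L', hp, hlen⟩ := exists_rest hXL
      have hd' : dp L' = 1 := by
        have := dp_perm hp
        rw [dp_cons, hX1, hd] at this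
        linear_combination -this
      refine CommP.of_sim (sim_cons hp) (CommP.prod ?_ (ih L'.length (by omega) L' rfl
        (fun Z hZ => hL Z (mem_of_perm_cons hp hZ))
        (fun Z hZ => h1 Z (mem_of_perm_cons hp hZ)) hd'))
      have hs := sim_sc_of_dim_one (hL X hXL).cyc (hL X hXL).det (h1 X hXL)
      rw [hX1] at hs
      exact CommP.of_sim hs commP_sc_one
    · push Not at h
      have hsc : ∀ Y ∈ L, Sim Y (sc (-1 : F)) := by
        intro Y hY
        have := sim_sc_of_dim_one (hL Y hY).cyc (hL Y hY).det (h1 Y hY)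
        rwa [det_eq_neg hF3 (hL Y hY) (h Y hY)] at this
      have hs := prodL_congr hsc
      refine CommP.of_sim hs (commP_scalar _ _ ?_)
      rw [← dp_replicate, ← dp_eq, ← hs.det_eq, dp_eq]
      exact hd

include hne hF3 in
/-- The case of three elements. -/
theorem commP_q3_aux (L : List (Ob F)) (hL : ∀ Y ∈ L, Bk Y) (hd : dp L = 1)
    (hn : 3 ≤ finrank F (prodL L).V) : CommP (prodL L) := by
  have hgood : ∀ L' : List (Ob F), (∀ Z ∈ L', Z ∈ L) → dp L' = 1 → Good0 (prodL L') :=
    fun L' h1 h2 => good0_list3 hne hF3 _ L' rfl (fun Z hZ => hL Z (h1 Z hZ)) h2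
  have hdetL : (prodL L).T.det = 1 := by rw [dp_eq]; exact hd
  by_cases c1 : ∃ h ∈ L, 2 ≤ finrank F h.V ∧ h.T.det = -1
  · obtain ⟨h, hhL, hh2, hh1⟩ := c1
    obtain ⟨L', hp, -⟩ := exists_rest hhL
    have hd' : dp L' = -1 := by
      have := dp_perm hp
      rw [dp_cons, hh1, hd] at this
      linear_combination this
    obtain ⟨g, hgL', hg1⟩ := exists_ne_one_block (by rw [hd']; exact Ne.symm hne)
    have hgL := mem_of_perm_cons hp hgL'
    have hg := det_eq_neg hF3 (hL g hgL) hg1
    obtain ⟨L'', hp', -⟩ := exists_rest hgL'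
    have hd'' : dp L'' = 1 := by
      have := dp_perm hp'
      rw [dp_cons, hg, hd'] at this
      linear_combination this
    refine close (sim_two hp hp') (free_pair3 hne (hL g hgL) (hL h hhL) (by rw [hg, hh1]; ring) hh2)
      (hgood L'' (fun Z hZ => mem_of_perm_cons hp (mem_of_perm_cons hp' hZ)) hd'') hdetL
  have hle1 : ∀ g ∈ L, g.T.det = -1 → finrank F g.V = 1 := by
    intro g hg hg1
    have hpos := (hL g hg).pos
    have : ¬ 2 ≤ finrank F g.V := fun h2 => c1 ⟨g, hg, h2, hg1⟩
    omega
  have hdet1 : ∀ g ∈ L, 2 ≤ finrank F g.V → g.T.det = 1 := by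
    intro g hg h2
    by_contra hne1
    have h5 := det_eq_neg hF3 (hL g hg) hne1
    have := hle1 g hg h5
    omega
  by_cases c2 : ∃ h ∈ L, 3 ≤ finrank F h.V
  · obtain ⟨h, hhL, hh3⟩ := c2
    have hh1 := hdet1 h hhL (by omega)
    obtain ⟨L', hp, -⟩ := exists_rest hhL
    have hd' : dp L' = 1 := by
      have := dp_perm hp
      rw [dp_cons, hh1, hd] at this
      linear_combination -this
    exact close (sim_cons hp) (free_d1 hne (hL h hhL) hh1 hh3)
      (hgood L' (fun Z hZ => mem_of_perm_cons hp hZ) hd') hdetL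
  by_cases c3 : ∃ h ∈ L, finrank F h.V = 2
  · obtain ⟨h, hhL, hh2⟩ := c3
    have hh1 := hdet1 h hhL (by omega)
    obtain ⟨L', hp, -⟩ := exists_rest hhL
    have hd' : dp L' = 1 := by
      have := dp_perm hp
      rw [dp_cons, hh1, hd] at this
      linear_combination -this
    have hdim : finrank F (prodL L).V = 2 + finrank F (prodL L').V := by
      rw [(sim_cons hp).finrank_eq]
      show finrank F (h.V × (prodL L').V) = _
      rw [Module.finrank_prod, hh2]
    cases hL' : L' with
    | nil =>
      rw [hL'] at hdim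
      have : finrank F (prodL ([] : List (Ob F))).V = 0 := by
        rw [prodL_finrank]
        rfl
      omega
    | cons g L'' =>
      rw [hL'] at hp hd'
      have hgL : g ∈ L := mem_of_perm_cons hp (by simp)
      have hp' : (g :: L'').Perm (g :: L'') := List.Perm.refl _
      by_cases hg1 : g.T.det = 1
      · have hd'' : dp L'' = 1 := by
          rw [dp_cons, hg1, one_mul] at hd'
          exact hd'
        refine close (sim_two hp hp') (free_pair3 hne (hL g hgL) (hL h hhL) (by rw [hg1, hh1]; ring)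
          (by omega)) (hgood L'' (fun Z hZ => mem_of_perm_cons hp (by simp [hZ])) hd'') hdetL
      · have hgm := det_eq_neg hF3 (hL g hgL) hg1
        have hg1' := hle1 g hgL hgm
        have hd'' : dp L'' = -1 := by
          rw [dp_cons, hgm] at hd'
          linear_combination -hd'
        obtain ⟨g', hg'L'', hg'1⟩ := exists_ne_one_block (L := L'') (by rw [hd'']; exact Ne.symm hne)
        have hg'L : g' ∈ L := mem_of_perm_cons hp (by simp [hg'L''])
        have hg'm := det_eq_neg hF3 (hL g' hg'L) hg'1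
        obtain ⟨L3, hp3, -⟩ := exists_rest hg'L''
        have hd3 : dp L3 = 1 := by
          have := dp_perm hp3
          rw [dp_cons, hg'm, hd''] at this
          linear_combination this
        have hfree : Free (g.prod h) :=
          free_pair (hL g hgL).cyc (hL h hhL).cyc (hL g hgL).det (hL h hhL).det 0 0 hg1' hh2
            (fun hc => absurd rfl hc)
        have hfree' : Free ((g.prod h).prod g') :=
          hfree.prod_good (good_one (hL g' hg'L).cyc (hL g' hg'L).det (hle1 g' hg'L hg'm))
        have hs : Sim (prodL L) (((g.prod h).prod g').prod (prodL L3)) := by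
          refine (sim_two hp hp').trans ?_
          refine (Sim.prod (Sim.refl _) (sim_cons hp3)).trans ?_
          exact (Sim.prod_assoc _ _ _).symm
        exact close hs hfree' (hgood L3 (fun Z hZ => mem_of_perm_cons hp
          (List.mem_cons_of_mem _ (mem_of_perm_cons hp3 hZ))) hd3) hdetL
  · refine commP_all_one hF3 _ L rfl hL (fun Y hY => ?_) hd
    have hpos := (hL Y hY).pos
    have h3' : ¬ 3 ≤ finrank F Y.V := fun h => c2 ⟨Y, hY, h⟩
    have h2' : ¬ finrank F Y.V = 2 := fun h => c3 ⟨Y, hY, h⟩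
    omega

end

theorem commP_q3 (h3 : Fintype.card F = 3) (L : List (Ob F)) (hL : ∀ Y ∈ L, Bk Y) (hd : dp L = 1)
    (hn : 3 ≤ finrank F (prodL L).V) : CommP (prodL L) :=
  commP_q3_aux (q3_facts h3).1 (q3_facts h3).2 L hL hd hn

end Cfsg.Agent.Lib.SLComm
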