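import Cfsg.Agent.Lib.SLComm.Two

/-!
# Scalar objects

`λ ^ n = 1` gives that the scalar map `λ` on an `n` dimensional space is a commutator.
-/

set_option autoImplicit false

namespace Cfsg.Agent.Lib.SLComm

open Module Polynomial

universe u

variable {F : Type u} [Field F]

/-- Chain through the scalars: the odd case. -/
theorem step_replicate (l : F) (j : ℕ) (α : F) :
    Step (prodL (List.replicate (j + 1) (sc l))) (sc α) (sc (α * l ^ (j + 1)))
      (α ^ (j + 1) * l ^ (∑ i ∈ Finset.range (j + 1), i)) := by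
  induction j generalizing α with
  | zero =>
    have h := step_sc l α
    have h2 : Step (prodL (List.replicate 1 (sc l))) (sc α) (sc (α * l)) α :=
      Step.of_sim (Sim.prod_triv (sc l)) h
    simpa using h2
  | succ j ih =>
    have h := (step_sc l α).comp (ih (α * l))
    have e1 : α * l * l ^ (j + 1) = α * l ^ (j + 1 + 1) := by ring
    rw [e1] at h
    have e2 : α * ((α * l) ^ (j + 1) * l ^ (∑ i ∈ Finset.range (j + 1), i)) =
        α ^ (j + 1 + 1) * l ^ (∑ i ∈ Finset.range (j + 1 + 1), i) := by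
      rw [Finset.sum_range_succ _ (j + 1), pow_add l _ (j + 1), mul_pow]
      ring
    rw [e2] at h
    exact h

theorem commP_replicate_odd (l : F) (e : ℕ) (he : Odd e) (hl : l ^ e = 1) :
    CommP (prodL (List.replicate e (sc l))) := by
  obtain ⟨g, rfl⟩ := he
  have h := step_replicate l (2 * g) 1
  rw [one_mul, hl, one_pow, one_mul] at h
  have hsum : ∑ i ∈ Finset.range (2 * g + 1), i = (2 * g + 1) * g := by
    have h2 := Finset.sum_range_id_mul_two (2 * g + 1)
    have e3 : 2 * g + 1 - 1 = 2 * g := by omega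
    rw [e3] at h2
    nlinarith
  rw [hsum, pow_mul, hl, one_pow] at h
  exact h.commP (Sim.refl _) (centSurj_sc 1)

/-- The two dimensional map with square `l`. -/
noncomputable def yZero (l : F) : (Fin 2 → F) →ₗ[F] (Fin 2 → F) :=
  Matrix.toLin' !![0, l; 1, 0]

theorem yZero_apply (l : F) (v : Fin 2 → F) : yZero l v = ![l * v 1, v 0] := by
  ext i
  fin_cases i <;> simp [yZero, Matrix.mulVec, dotProduct, Fin.sum_univ_two]

theorem yZero_det (l : F) : (yZero l).det = - l := by
  rw [yZero, LinearMap.det_toLin', Matrix.det_fin_two]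
  simp

/-- The objects of the even chain. -/
noncomputable def aObj (l : F) (i : ℕ) : Ob F := obOf (l ^ i • yZero l)

/-- The scalar map on a plane. -/
noncomputable def zObj (l : F) : Ob F := obOf (l • (LinearMap.id : (Fin 2 → F) →ₗ[F] (Fin 2 → F)))

theorem aObj_det (l : F) (i : ℕ) : (aObj l i).T.det = (l ^ i) ^ 2 * (- l) := by
  show (l ^ i • yZero l).det = _
  rw [LinearMap.det_smul, yZero_det]
  simp

theorem step_z (l : F) (i : ℕ) : Step (zObj l) (aObj l i) (aObj l (i + 1)) ((l ^ i) ^ 2 * (- l)) := by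
  refine ⟨triv, l ^ i • yZero l, (Sim.prod_triv _).symm, ?_, aObj_det l i⟩
  have e : (l • LinearMap.id) ∘ₗ (l ^ i • yZero l) = l ^ (i + 1) • yZero l :=
    LinearMap.ext fun v => by
      rw [pow_succ', mul_smul]
      rfl
  show Sim (obOf ((l • LinearMap.id) ∘ₗ (l ^ i • yZero l))) _
  rw [e]
  exact (Sim.prod_triv (aObj l (i + 1))).symm

theorem step_zs (l : F) (j i : ℕ) : Step (prodL (List.replicate (j + 1) (zObj l)))
    (aObj l i) (aObj l (i + (j + 1))) (∏ t ∈ Finset.range (j + 1), ((l ^ (i + t)) ^ 2 * (- l))) := by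
  induction j generalizing i with
  | zero =>
    have h := step_z l i
    have h2 : Step (prodL (List.replicate 1 (zObj l))) (aObj l i) (aObj l (i + 1))
        ((l ^ i) ^ 2 * (- l)) := Step.of_sim (Sim.prod_triv (zObj l)) h
    simpa using h2
  | succ j ih =>
    have h := (step_z l i).comp (ih (i + 1))
    have e1 : i + 1 + (j + 1) = i + (j + 1 + 1) := by ring
    rw [e1] at h
    have e2 : (l ^ i) ^ 2 * -l * ∏ t ∈ Finset.range (j + 1), (l ^ (i + 1 + t)) ^ 2 * -l =
        ∏ t ∈ Finset.range (j + 1 + 1), (l ^ (i + t)) ^ 2 * -l := by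
      rw [Finset.prod_range_succ' _ (j + 1), mul_comm]
      congr 1
      refine Finset.prod_congr rfl fun t _ => ?_
      rw [show i + 1 + t = i + (t + 1) by ring]
    rw [e2] at h
    exact h

theorem prod_det_even (l : F) (g : ℕ) (hg : l ^ (g + 1) = -1) :
    ∏ t ∈ Finset.range (g + 1), ((l ^ (0 + t)) ^ 2 * (- l)) = 1 := by
  have e1 : ∏ t ∈ Finset.range (g + 1), ((l ^ (0 + t)) ^ 2 * (- l)) =
      l ^ (2 * ∑ t ∈ Finset.range (g + 1), t) * (- l) ^ (g + 1) := by
    rw [Finset.prod_mul_distrib, Finset.prod_const, Finset.card_range, Finset.mul_sum,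
      ← Finset.prod_pow_eq_pow_sum]
    congr 1
    refine Finset.prod_congr rfl fun t _ => ?_
    rw [zero_add, ← pow_mul, mul_comm]
  have e2 : 2 * ∑ t ∈ Finset.range (g + 1), t = (g + 1) * g := by
    have h2 := Finset.sum_range_id_mul_two (g + 1)
    simp only [Nat.add_sub_cancel] at h2
    omega
  rw [e1, e2, neg_pow]
  have e3 : l ^ ((g + 1) * g) * ((-1) ^ (g + 1) * l ^ (g + 1)) =
      (-1) ^ (g + 1) * (l ^ (g + 1)) ^ (g + 1) := by
    rw [← pow_mul]
    have : (g + 1) * (g + 1) = (g + 1) * g + (g + 1) := by ring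
    rw [this, pow_add]
    ring
  rw [e3, hg, ← mul_pow]
  simp

theorem sim_aObj_neg (l : F) (i : ℕ) (h : l ^ i = -1) : Sim (aObj l 0) (aObj l i) := by
  let φ₀ : (Fin 2 → F) →ₗ[F] (Fin 2 → F) := Matrix.toLin' (Matrix.diagonal ![1, -1])
  have hφ₀ : ∀ v, φ₀ v = ![v 0, - v 1] := by
    intro v
    funext t
    fin_cases t <;> simp [φ₀, Matrix.toLin'_apply, Matrix.mulVec_diagonal]
  let φ : (Fin 2 → F) ≃ₗ[F] (Fin 2 → F) := LinearEquiv.ofInvolutive φ₀ (by
      intro v
      rw [hφ₀, hφ₀]
      funext t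
      fin_cases t <;> simp)
  refine ⟨φ, fun (v : Fin 2 → F) => ?_⟩
  show φ₀ ((l ^ 0 • yZero l) v) = (l ^ i • yZero l) (φ₀ v)
  have e0 : l ^ 0 • yZero l = yZero l := by simp
  have e1 : l ^ i • yZero l = - yZero l := LinearMap.ext fun w => by
    rw [LinearMap.smul_apply, h, LinearMap.neg_apply, neg_smul, one_smul]
  rw [e0, e1, LinearMap.neg_apply, yZero_apply, yZero_apply, hφ₀, hφ₀]
  funext t
  fin_cases t <;> simp

theorem centSurj_aObj [Fintype F] (l : F) (hl : l ≠ 0) (hodd : Fintype.card F % 2 = 1) :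
    CentSurj (aObj l 0) := by
  intro v _
  obtain ⟨s, r, hsr⟩ : ∃ s r : F, s ^ 2 - v + (- l) * r ^ 2 = 0 := by
    have hf : (Polynomial.X ^ 2 - C v : F[X]).degree = 2 := Polynomial.degree_X_pow_sub_C (by norm_num) v
    have hg : (C (-l) * Polynomial.X ^ 2 : F[X]).degree = 2 := by
      rw [Polynomial.degree_C_mul_X_pow 2 (neg_ne_zero.mpr hl)]
      rfl
    obtain ⟨s, r, h⟩ := FiniteField.exists_root_sum_quadratic hf hg hodd
    refine ⟨s, r, ?_⟩
    simpa using h
  refine ⟨s • LinearMap.id + r • yZero l, ?_, ?_⟩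
  · show (s • LinearMap.id + r • yZero l) ∘ₗ (l ^ 0 • yZero l) =
      (l ^ 0 • yZero l) ∘ₗ (s • LinearMap.id + r • yZero l)
    refine LinearMap.ext fun w => ?_
    simp [map_add, map_smul]
  · have e : s • LinearMap.id + r • yZero l = Matrix.toLin' !![s, r * l; r, s] := by
      refine LinearMap.ext fun w => funext fun t => ?_
      rw [LinearMap.add_apply, LinearMap.smul_apply, LinearMap.smul_apply, yZero_apply]
      fin_cases t <;> simp [Matrix.mulVec, dotProduct, Fin.sum_univ_two] <;> ring
    show (s • LinearMap.id + r • yZero l).det = v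
    rw [e, LinearMap.det_toLin', Matrix.det_fin_two]
    simp
    linear_combination hsr

theorem sim_zObj (l : F) : Sim ((sc l).prod (sc l)) (zObj l) := by
  refine ⟨(LinearEquiv.finTwoArrow F F).symm, fun (v : F × F) => ?_⟩
  show (LinearEquiv.finTwoArrow F F).symm (l • v) = l • (LinearEquiv.finTwoArrow F F).symm v
  rw [map_smul]

theorem sim_replicate_two (l : F) (g : ℕ) :
    Sim (prodL (List.replicate (2 * g) (sc l))) (prodL (List.replicate g (zObj l))) := by
  induction g with
  | zero => exact Sim.refl _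
  | succ g ih =>
    have e : 2 * (g + 1) = 2 * g + 2 := by ring
    rw [e]
    show Sim ((sc l).prod ((sc l).prod (prodL (List.replicate (2 * g) (sc l)))))
      ((zObj l).prod (prodL (List.replicate g (zObj l))))
    refine (Sim.prod_assoc (sc l) (sc l) _).symm.trans ?_
    exact Sim.prod (sim_zObj l) ih

theorem commP_replicate_even [Fintype F] (l : F) (g : ℕ) (hg : l ^ (g + 1) = -1)
    (hodd : Fintype.card F % 2 = 1) :
    CommP (prodL (List.replicate (2 * (g + 1)) (sc l))) := by
  have hl : l ≠ 0 := by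
    rintro rfl
    rw [zero_pow (by omega)] at hg
    exact one_ne_zero (neg_eq_zero.mp hg.symm)
  refine CommP.of_sim (sim_replicate_two l (g + 1)) ?_
  have h := step_zs l g 0
  rw [prod_det_even l g hg, zero_add] at h
  exact h.commP (sim_aObj_neg l (g + 1) hg) (centSurj_aObj l hl hodd)

/-- The scalar lemma. -/
theorem commP_scalar [Fintype F] (l : F) (n : ℕ) (hn : l ^ n = 1) :
    CommP (prodL (List.replicate n (sc l))) := by
  classical
  by_cases hn0 : n = 0
  · subst hn0
    haveI : Subsingleton (prodL ([] : List (Ob F))).V := inferInstanceAs (Subsingleton PUnit)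
    exact CommP.of_subsingleton (prodL ([] : List (Ob F)))
  have hl : l ≠ 0 := by
    rintro rfl
    rw [zero_pow hn0] at hn
    exact zero_ne_one hn
  set e := orderOf l with he
  have hdvd : e ∣ n := orderOf_dvd_of_pow_eq_one hn
  have hepos : 0 < e := Nat.pos_of_dvd_of_pos hdvd (Nat.pos_of_ne_zero hn0)
  have hbase : CommP (prodL (List.replicate e (sc l))) := by
    rcases Nat.even_or_odd e with hev | hodd
    · obtain ⟨g, hg⟩ := hev
      have hg0 : g ≠ 0 := by omega
      obtain ⟨g', rfl⟩ : ∃ g', g = g' + 1 := ⟨g - 1, by omega⟩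
      have hle : l ^ e = 1 := pow_orderOf_eq_one l
      have hne : l ^ (g' + 1) ≠ 1 := pow_ne_one_of_lt_orderOf (by omega) (by omega)
      have hsq : (l ^ (g' + 1) - 1) * (l ^ (g' + 1) + 1) = 0 := by
        have : l ^ e = l ^ (g' + 1) * l ^ (g' + 1) := by rw [hg, pow_add]
        rw [this] at hle
        linear_combination hle
      have hm1 : l ^ (g' + 1) = -1 := by
        rcases mul_eq_zero.mp hsq with h | h
        · exact absurd (sub_eq_zero.mp h) hne
        · exact eq_neg_of_add_eq_zero_left h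
      have hchar : ringChar F ≠ 2 := by
        intro h2
        haveI : CharP F 2 := ringChar.of_eq h2
        apply hne
        rw [hm1]
        exact CharTwo.neg_eq (1 : F)
      have hodd : Fintype.card F % 2 = 1 := FiniteField.odd_card_of_char_ne_two hchar
      have e2 : e = 2 * (g' + 1) := by omega
      rw [e2]
      exact commP_replicate_even l g' hm1 hodd
    · exact commP_replicate_odd l e hodd (pow_orderOf_eq_one l)
  obtain ⟨t, rfl⟩ := hdvd
  clear hn hn0
  induction t with
  | zero =>
    rw [mul_zero]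
    haveI : Subsingleton (prodL ([] : List (Ob F))).V := inferInstanceAs (Subsingleton PUnit)
    exact CommP.of_subsingleton (prodL ([] : List (Ob F)))
  | succ t ih =>
    rw [Nat.mul_succ, add_comm, List.replicate_add]
    exact CommP.of_sim (prodL_append _ _) (CommP.prod hbase ih)

end Cfsg.Agent.Lib.SLComm
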