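import Cfsg.Agent.Lib.SLComm.Inst2
import Cfsg.Agent.Lib.SLComm.Forms3

/-!
# Two dimensional blocks, one dimensional blocks, and the interface for cyclic objects
-/

set_option autoImplicit false

namespace Cfsg.Agent.Lib.SLComm

open Module Polynomial

universe u

variable {F : Type u} [Field F] {V : Type u} [AddCommGroup V] [Module F V]

/-- The step of a two dimensional cyclic block. -/
theorem step_two [FiniteDimensional F V] {T : V →ₗ[F] V} (D : CD T 2) (hdet : T.det ≠ 0) {α x : F}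
    (hx0 : x ≠ 0) (hxα : x ≠ α) (hxβ : x ≠ α * T.det) :
    Step (obOf T) (sc α) (sc (α * T.det)) (x * α) := by
  classical
  set β := α * T.det with hβ
  have he0 : D.e 0 = D.b 0 := (D.hb 0).symm
  have he1 : D.e 1 = D.b 1 := (D.hb 1).symm
  set ℓ : V →ₗ[F] F := D.b.coord 1 with hℓ
  have hℓ0 : ℓ (D.b 0) = 0 := by simp [hℓ, Module.Basis.repr_self]
  have hℓ1 : ℓ (D.b 1) = 1 := by simp [hℓ, Module.Basis.repr_self]
  let vals : Fin 2 → V := ![x • D.b 0, 0]
  set c₀ : V →ₗ[F] V := D.b.constr F vals with hc₀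
  have hc00 : c₀ (D.b 0) = x • D.b 0 := by
    rw [hc₀, Module.Basis.constr_basis]
    rfl
  have hc01 : c₀ (D.b 1) = 0 := by
    rw [hc₀, Module.Basis.constr_basis]
    rfl
  have hTb0 : T (D.b 0) = D.b 1 := by
    rw [← he0, D.hT, he1]
  have hO : HessData T c₀ ℓ D.e 2 := by
    refine ⟨?_, ?_, ?_, ?_⟩
    · intro i hi
      have hi0 : i = 0 := by omega
      subst hi0
      refine ⟨x, hx0, ?_⟩
      have e : T (c₀ (D.e 0)) - x • D.e (0 + 1) = 0 := by
        rw [he0, hc00, map_smul, hTb0, zero_add, he1, sub_self]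
      rw [e]
      exact Submodule.zero_mem _
    · intro j hj
      have hj0 : j = 0 := by omega
      subst hj0
      rw [he0, hℓ0]
    · show ℓ (D.e 1) ≠ 0
      rw [he1, hℓ1]
      exact one_ne_zero
    · rw [eq_top_iff, ← D.b.span_eq]
      refine Submodule.span_le.mpr ?_
      rintro _ ⟨i, rfl⟩
      rw [D.hb]
      exact Submodule.subset_span ⟨i, i.2, rfl⟩
  have hfm : ((Polynomial.X - C β) * (Polynomial.X - C x)).Monic :=
    (monic_X_sub_C β).mul (monic_X_sub_C x)
  have hfd : ((Polynomial.X - C β) * (Polynomial.X - C x)).natDegree = 2 := by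
    rw [Monic.natDegree_mul (monic_X_sub_C β) (monic_X_sub_C x), natDegree_X_sub_C,
      natDegree_X_sub_C]
  obtain ⟨w, hcyc, hann⟩ := hess_lemma hO (by omega) (surj_of_det_ne_zero hdet) _ hfm hfd
  set c : V →ₗ[F] V := c₀ + ℓ.smulRight w with hc
  have hc0 : c (D.b 0) = x • D.b 0 := by
    simp [hc, hc00, hℓ0]
  have hc1 : c (D.b 1) = w := by
    simp [hc, hc01, hℓ1]
  -- the determinant
  have hdetc : c.det = x * ℓ w := by
    rw [← LinearMap.det_toMatrix D.b c, Matrix.det_fin_two]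
    simp only [LinearMap.toMatrix_apply, hc0, hc1]
    simp [Module.Basis.repr_self, hℓ]
  have hfr : finrank F V = 2 := D.finrank_eq
  have hevβ : (Polynomial.X - C x).eval β ≠ 0 := by
    simp [sub_ne_zero, hxβ.symm]
  have hsimH : Sim (obOf (T ∘ₗ c)) ((sc β).prod (Blk (Polynomial.X - C x) (monic_X_sub_C x))) :=
    sim_sc_prod_blk hcyc β _ (monic_X_sub_C x) hann (by
      show finrank F V = _
      rw [hfr, natDegree_X_sub_C]) hevβ
  have hdetb : (Blk (Polynomial.X - C x) (monic_X_sub_C x)).T.det = x := by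
    rw [det_blk, natDegree_X_sub_C]
    simp
  have h1 : (T ∘ₗ c).det = β * x := by
    have := hsimH.det_eq
    rw [Ob.prod_det, sc_det, hdetb] at this
    exact this
  have h2 : (T ∘ₗ c).det = T.det * (x * ℓ w) := by
    rw [LinearMap.det_comp, hdetc]
  have hγ : ℓ w = α := by
    have h3 : (T.det * x) * ℓ w = (T.det * x) * α := by
      calc (T.det * x) * ℓ w = T.det * (x * ℓ w) := by ring
        _ = β * x := by rw [← h2, h1]
        _ = _ := by rw [hβ]; ring
    exact mul_left_cancel₀ (mul_ne_zero hdet hx0) h3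
  -- `ker ℓ`
  have hker : ∀ v ∈ LinearMap.ker ℓ, v = D.b.repr v 0 • D.b 0 := by
    intro v hv
    have h3 : D.b.repr v 1 = 0 := hv
    conv_lhs => rw [← D.b.sum_repr v]
    rw [Fin.sum_univ_two, h3, zero_smul, add_zero]
  have hℓc : ∀ v, ℓ (c v) = α * ℓ v := by
    have e : ℓ ∘ₗ c = α • ℓ := by
      refine D.b.ext fun i => ?_
      fin_cases i
      · show ℓ (c (D.b 0)) = α • ℓ (D.b 0)
        rw [hc0, map_smul, hℓ0, smul_zero, smul_zero]
      · show ℓ (c (D.b 1)) = α • ℓ (D.b 1)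
        rw [hc1, hγ, hℓ1, smul_eq_mul, mul_one]
    intro v
    simpa using LinearMap.congr_fun e v
  have hkerx : ∀ v ∈ LinearMap.ker ℓ, aeval c (Polynomial.X - C x) v = 0 := by
    intro v hv
    rw [aeval_X_sub_C_apply, hker v hv, map_smul, hc0]
    rw [smul_comm, sub_self]
  have h3 : ∀ u, aeval c (Polynomial.X - C α) u ∈ LinearMap.ker ℓ := by
    intro u
    rw [aeval_X_sub_C_apply, LinearMap.mem_ker, map_sub, map_smul, hℓc]
    simp
  have hgenker : gen c (D.b 0) = LinearMap.ker ℓ := by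
    apply le_antisymm
    · refine gen_le (fun u hu => ?_) hℓ0
      rw [LinearMap.mem_ker, hℓc, LinearMap.mem_ker.mp hu, mul_zero]
    · intro v hv
      rw [hker v hv]
      exact Submodule.smul_mem _ _ (self_mem_gen _ _)
  have hccyc : IsCyc c := by
    refine cyc_ext c (LinearMap.ker ℓ) ⊤ (fun u hu => ?_) (D.b 0) (D.b 1) hgenker ?_
      (Polynomial.X - C α) (fun u _ => h3 u)
      (fun u hu hu2 => eq_zero_of_coprime (isCoprime_X_sub_C_of_eval (g := Polynomial.X - C x) ?_)
        hu2 (hkerx u hu))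
    · rw [LinearMap.mem_ker, hℓc, LinearMap.mem_ker.mp hu, mul_zero]
    · rw [eq_top_iff]
      intro v _
      have e : v = (v - ℓ v • D.b 1) + ℓ v • D.b 1 := by abel
      rw [e]
      refine Submodule.add_mem _ (Submodule.mem_sup_right ?_)
        (Submodule.smul_mem _ _ (Submodule.mem_sup_left (self_mem_gen _ _)))
      rw [LinearMap.mem_ker, map_sub, map_smul, hℓ1]
      simp
    · simp [sub_ne_zero, hxα.symm]
  have hcann : aeval c ((Polynomial.X - C α) * (Polynomial.X - C x)) = 0 := by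
    ext v
    rw [mul_comm, map_mul, Module.End.mul_apply]
    exact hkerx _ (h3 v)
  have hsimc : Sim (obOf c) ((sc α).prod (Blk (Polynomial.X - C x) (monic_X_sub_C x))) :=
    sim_sc_prod_blk hccyc α _ (monic_X_sub_C x) hcann (by
      show finrank F V = _
      rw [hfr, natDegree_X_sub_C]) (by simp [sub_ne_zero, hxα.symm])
  exact ⟨_, c, hsimc, hsimH, by rw [hdetc, hγ]⟩

/-- The step of a one dimensional block. -/
theorem step_sc (d α : F) : Step (sc d) (sc α) (sc (α * d)) α := by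
  refine ⟨triv, α • LinearMap.id, (Sim.prod_triv _).symm, ?_, ?_⟩
  · have e : (sc d).T ∘ₗ (α • (LinearMap.id : F →ₗ[F] F)) = (α * d) • LinearMap.id := by
      ext
      simp [sc, mul_comm]
    rw [e]
    exact (Sim.prod_triv _).symm
  · simp

theorem good_sc (d : F) (hd : d ≠ 0) : Good (sc d) := by
  refine ⟨by rw [sc_det]; exact hd, fun α hα => ⟨α, hα, ?_⟩⟩
  rw [sc_det]
  exact step_sc d α

/-! ### The interface for cyclic objects -/

/-- Change the index of cyclic data. -/
def CD.cast {T : V →ₗ[F] V} {m m' : ℕ} (h : m = m') (D : CD T m) : CD T m' := h ▸ D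

theorem exists_model {X : Ob F} (hc : IsCyc X.T) (hdet : X.T.det ≠ 0) :
    ∃ (f : F[X]) (hf : f.Monic), f.natDegree = finrank F X.V ∧ f.coeff 0 ≠ 0 ∧
      Sim X (Blk f hf) := by
  have hm : X.T.charpoly.Monic := LinearMap.charpoly_monic _
  have hd : X.T.charpoly.natDegree = finrank F X.V := LinearMap.charpoly_natDegree _
  refine ⟨X.T.charpoly, hm, hd, ?_,
    (sim_blk hc _ hm hd (LinearMap.aeval_self_charpoly _)).1⟩
  intro h0
  apply hdet
  rw [LinearMap.det_eq_sign_charpoly_coeff, h0, mul_zero]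

/-- A cyclic object of dimension at least three is free. -/
theorem free_single [Finite F] {X : Ob F} (hc : IsCyc X.T) (hdet : X.T.det ≠ 0) (k : ℕ)
    (hd : finrank F X.V = k + 3)
    (hy : k ≠ 0 → ∀ α : F, α ≠ 0 → ∃ y : F, y ≠ 0 ∧ y ≠ α ∧ y ≠ α * X.T.det) : Free X := by
  obtain ⟨f, hf, hfd, hf0, hsim⟩ := exists_model hc hdet
  let D : CD (Blk f hf).T (k + 3) := (cdBlk f hf hf0).cast (hfd.trans hd)
  refine Free.of_sim hsim ?_
  have hdet' : (Blk f hf).T.det ≠ 0 := by rw [← hsim.det_eq]; exact hdet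
  have key : Free (obOf (Blk f hf).T) := by
    refine free_of_frm (V := (Blk f hf).V) D.frmSingle ?_ hdet' ?_
    · rw [← hd, ← hfd]
      exact blk_finrank f hf
    · rw [← hsim.det_eq]
      exact hy
  exact key

/-- A pair of cyclic objects, the second of dimension at least two, is free. -/
theorem free_pair [Finite F] {X Y : Ob F} (hX : IsCyc X.T) (hY : IsCyc Y.T) (hdX : X.T.det ≠ 0)
    (hdY : Y.T.det ≠ 0) (g h : ℕ) (h1 : finrank F X.V = g + 1) (h2 : finrank F Y.V = h + 2)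
    (hy : g + h ≠ 0 → ∀ α : F, α ≠ 0 → ∃ y : F, y ≠ 0 ∧ y ≠ α ∧ y ≠ α * (X.T.det * Y.T.det)) :
    Free (X.prod Y) := by
  obtain ⟨f, hf, hfd, hf0, hsim⟩ := exists_model hX hdX
  obtain ⟨f', hf', hfd', hf0', hsim'⟩ := exists_model hY hdY
  let D₁ : CD (Blk f hf).T (g + 1) := (cdBlk f hf hf0).cast (hfd.trans h1)
  let D₂ : CD (Blk f' hf').T (h + 2) := (cdBlk f' hf' hf0').cast (hfd'.trans h2)
  refine Free.of_sim (Sim.prod hsim hsim') ?_
  have hdd : ((Blk f hf).T.prodMap (Blk f' hf').T).det = X.T.det * Y.T.det := by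
    rw [LinearMap.det_prodMap, ← hsim.det_eq, ← hsim'.det_eq]
  refine free_of_frm (D₁.frmPair D₂) ?_ ?_ ?_
  · rw [Module.finrank_prod]
    have e1 : finrank F (Blk f hf).V = g + 1 := by rw [blk_finrank, hfd, h1]
    have e2 : finrank F (Blk f' hf').V = h + 2 := by rw [blk_finrank, hfd', h2]
    rw [e1, e2]
    omega
  · rw [hdd]
    exact mul_ne_zero hdX hdY
  · rw [hdd]
    exact hy

/-- A cyclic object of dimension at least four over the field with two elements. -/
theorem commP_single_two {X : Ob F} (hF : ∀ v : F, v ≠ 0 → v = 1) (hc : IsCyc X.T)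
    (hdet : X.T.det ≠ 0) (k : ℕ) (hd : finrank F X.V = k + 4) : CommP X := by
  obtain ⟨f, hf, hfd, hf0, hsim⟩ := exists_model hc hdet
  let D : CD (Blk f hf).T (k + 1 + 3) := (cdBlk f hf hf0).cast (hfd.trans hd)
  refine CommP.of_sim hsim ?_
  have hdet' : (Blk f hf).T.det ≠ 0 := by rw [← hsim.det_eq]; exact hdet
  have key : CommP (obOf (Blk f hf).T) := by
    refine commP_move (V := (Blk f hf).V) (k := k) D.frmSingle ?_ hdet' hF
      (by show 0 < k + 1; omega) (D.A (k + 3)) (fun v => D.traceSingle v)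
    · rw [blk_finrank, hfd, hd]
  exact key

/-- A pair of cyclic objects, the second of dimension at least three, over the field with two
elements. -/
theorem commP_pair_two {X Y : Ob F} (hF : ∀ v : F, v ≠ 0 → v = 1) (hX : IsCyc X.T) (hY : IsCyc Y.T)
    (hdX : X.T.det ≠ 0) (hdY : Y.T.det ≠ 0) (g h : ℕ) (h1 : finrank F X.V = g + 1)
    (h2 : finrank F Y.V = h + 1 + 2) : CommP (X.prod Y) := by
  obtain ⟨f, hf, hfd, hf0, hsim⟩ := exists_model hX hdX
  obtain ⟨f', hf', hfd', hf0', hsim'⟩ := exists_model hY hdY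
  let D₁ : CD (Blk f hf).T (g + 1) := (cdBlk f hf hf0).cast (hfd.trans h1)
  let D₂ : CD (Blk f' hf').T (h + 1 + 2) := (cdBlk f' hf' hf0').cast (hfd'.trans h2)
  refine CommP.of_sim (Sim.prod hsim hsim') ?_
  have hdd : ((Blk f hf).T.prodMap (Blk f' hf').T).det = X.T.det * Y.T.det := by
    rw [LinearMap.det_prodMap, ← hsim.det_eq, ← hsim'.det_eq]
  refine commP_move (k := g + h) (D₁.frmPair D₂) ?_ ?_ hF
    (by show g < g + h + 1; omega) (D₂.A (h + 2)) (fun v => D₁.tracePair D₂ v)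
  · rw [Module.finrank_prod]
    have e1 : finrank F (Blk f hf).V = g + 1 := by rw [blk_finrank, hfd, h1]
    have e2 : finrank F (Blk f' hf').V = h + 1 + 2 := by rw [blk_finrank, hfd', h2]
    rw [e1, e2]
    omega
  · rw [hdd]
    exact mul_ne_zero hdX hdY

/-- A cyclic object of dimension two. -/
theorem step_two_cyc {X : Ob F} (hc : IsCyc X.T) (hdet : X.T.det ≠ 0) (hd : finrank F X.V = 2)
    {α x : F} (hx0 : x ≠ 0) (hxα : x ≠ α) (hxβ : x ≠ α * X.T.det) :
    Step X (sc α) (sc (α * X.T.det)) (x * α) := by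
  obtain ⟨f, hf, hfd, hf0, hsim⟩ := exists_model hc hdet
  let D : CD (Blk f hf).T 2 := (cdBlk f hf hf0).cast (hfd.trans hd)
  refine Step.of_sim hsim ?_
  rw [hsim.det_eq]
  exact step_two D (by rw [← hsim.det_eq]; exact hdet) hx0 hxα (by rw [← hsim.det_eq]; exact hxβ)

theorem good_two {X : Ob F} (hc : IsCyc X.T) (hdet : X.T.det ≠ 0) (hd : finrank F X.V = 2)
    (hx : ∀ α : F, α ≠ 0 → ∃ x : F, x ≠ 0 ∧ x ≠ α ∧ x ≠ α * X.T.det) : Good X := by
  refine ⟨hdet, fun α hα => ?_⟩
  obtain ⟨x, h0, h1, h2⟩ := hx α hα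
  exact ⟨x * α, mul_ne_zero h0 hα, step_two_cyc hc hdet hd h0 h1 h2⟩

/-- A cyclic object of dimension one. -/
theorem sim_sc_of_dim_one {X : Ob F} (hc : IsCyc X.T) (hdet : X.T.det ≠ 0)
    (hd : finrank F X.V = 1) : Sim X (sc X.T.det) := by
  have hm : X.T.charpoly.Monic := LinearMap.charpoly_monic _
  have hdd : X.T.charpoly.natDegree = 1 := (LinearMap.charpoly_natDegree _).trans hd
  have hcp : X.T.charpoly = Polynomial.X - C X.T.det := by
    have h1 := hm.eq_X_add_C hdd
    have h2 := LinearMap.det_eq_sign_charpoly_coeff X.T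
    rw [hd, pow_one] at h2
    refine h1.trans ?_
    rw [h2]
    simp
  refine sim_of_cyc hc ?_ (Polynomial.X - C X.T.det) (monic_X_sub_C _) ?_ ?_ ?_ ?_
  · refine ⟨(1 : F), eq_top_iff.mpr fun w _ => ?_⟩
    refine mem_gen.mpr ⟨C w, ?_⟩
    simp
  · rw [natDegree_X_sub_C, hd]
  · rw [natDegree_X_sub_C]
    show 1 = finrank F F
    simp
  · rw [← hcp]
    exact LinearMap.aeval_self_charpoly _
  · ext
    show aeval (X.T.det • (LinearMap.id : F →ₗ[F] F)) _ _ = _
    rw [aeval_smul_id]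
    simp

theorem good_one {X : Ob F} (hc : IsCyc X.T) (hdet : X.T.det ≠ 0) (hd : finrank F X.V = 1) :
    Good X :=
  Good.of_sim (sim_sc_of_dim_one hc hdet hd) (good_sc _ hdet)

end Cfsg.Agent.Lib.SLComm
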